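/-
helper17: abelian sets of positive roots closed under the Borel subgroup ("abelian ideals") in a Chevalley
group: the products `∏ x_γ(c γ)` over such a set, their shapes (prescribed non-vanishing / vanishing of the
coefficients) are invariant under conjugation by the Borel subgroup, and the Bruhat decomposition then shows
that a conjugation between two shapes forces a Weyl group element that moves the non-trivial roots of the first
above the non-trivial roots of the second.  Orthogonality of roots is preserved by the Weyl group.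
-/
import Cfsg.Agent.Helper38.ChevCentF4e
import Cfsg.Agent.Helper18.FAut5

set_option autoImplicit false

namespace Cfsg.Agent.Helper17

open Cfsg Cfsg.Lie Cfsg.Agent.Helper36 Cfsg.Agent.Helper18 Cfsg.Agent.Helper38

section AbIdeal

variable {D : ChevalleyDatum} {F : Type*} [Field F] {η : ℕ → ℕ → ℤ}

/-- The root elements of the roots of `l` commute pairwise. -/
def AbiComm (R : BRel D F η) (l : List ℕ) : Prop :=
  ∀ γ ∈ l, ∀ γ' ∈ l, ∀ a b : F,
    xGL R.xadd γ a * xGL R.xadd γ' b = xGL R.xadd γ' b * xGL R.xadd γ a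

theorem abi_prod_cons (R : BRel D F η) (γ : ℕ) (l : List ℕ) (c : ℕ → F) :
    chRootProd R (γ :: l) c = xGL R.xadd γ (c γ) * chRootProd R l c := by
  unfold chRootProd
  simp only [List.map_cons, wordGL_cons]

theorem abi_prod_nil (R : BRel D F η) (c : ℕ → F) : chRootProd R [] c = 1 := by
  unfold chRootProd
  simp only [List.map_nil, wordGL_nil]

theorem abi_prod_zero (R : BRel D F η) (l : List ℕ) : chRootProd R l (fun _ => (0 : F)) = 1 := by
  induction l with
  | nil => exact abi_prod_nil R _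
  | cons γ l ih => rw [abi_prod_cons, xGL_zero, one_mul, ih]

theorem abi_prod_congr (R : BRel D F η) {l : List ℕ} {c c' : ℕ → F} (h : ∀ γ ∈ l, c γ = c' γ) :
    chRootProd R l c = chRootProd R l c' := by
  induction l with
  | nil => rw [abi_prod_nil, abi_prod_nil]
  | cons γ l ih =>
    rw [abi_prod_cons, abi_prod_cons, h γ List.mem_cons_self,
      ih fun x hx => h x (List.mem_cons_of_mem _ hx)]

theorem abi_comm_prod (R : BRel D F η) {l l' : List ℕ} (hc : AbiComm R l) (hsub : ∀ γ ∈ l', γ ∈ l)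
    {δ : ℕ} (hδ : δ ∈ l) (t : F) (c : ℕ → F) :
    xGL R.xadd δ t * chRootProd R l' c = chRootProd R l' c * xGL R.xadd δ t := by
  unfold chRootProd
  apply chLT_comm_word
  intro p hp
  rw [List.mem_map] at hp
  obtain ⟨γ, hγ, rfl⟩ := hp
  exact hc δ hδ γ (hsub γ hγ) t (c γ)

theorem abi_prod_mul (R : BRel D F η) {l l' : List ℕ} (hc : AbiComm R l) (hsub : ∀ γ ∈ l', γ ∈ l)
    (c d : ℕ → F) :
    chRootProd R l' c * chRootProd R l' d = chRootProd R l' (fun γ => c γ + d γ) := by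
  induction l' with
  | nil => rw [abi_prod_nil, abi_prod_nil, abi_prod_nil, mul_one]
  | cons γ l' ih =>
    have hsub' : ∀ x ∈ l', x ∈ l := fun x hx => hsub x (List.mem_cons_of_mem _ hx)
    have ih' := ih hsub'
    rw [abi_prod_cons, abi_prod_cons, abi_prod_cons, ← ih', ← xGL_mul]
    have hcm := abi_comm_prod R hc hsub' (hsub γ List.mem_cons_self) (d γ) c
    calc xGL R.xadd γ (c γ) * chRootProd R l' c * (xGL R.xadd γ (d γ) * chRootProd R l' d)
        = xGL R.xadd γ (c γ) * (chRootProd R l' c * xGL R.xadd γ (d γ)) * chRootProd R l' d := by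
          group
      _ = xGL R.xadd γ (c γ) * (xGL R.xadd γ (d γ) * chRootProd R l' c) * chRootProd R l' d := by
          rw [hcm]
      _ = _ := by group

theorem abi_prod_single (R : BRel D F η) {l : List ℕ} (hnd : l.Nodup) {δ : ℕ} (hδ : δ ∈ l) (t : F) :
    chRootProd R l (fun γ => if γ = δ then t else 0) = xGL R.xadd δ t := by
  induction l with
  | nil => exact absurd hδ List.not_mem_nil
  | cons γ l ih =>
    rw [abi_prod_cons]
    rw [List.nodup_cons] at hnd
    by_cases h : γ = δ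
    · subst h
      rw [if_pos rfl]
      have e : chRootProd R l (fun x => if x = γ then t else 0) = chRootProd R l (fun _ => (0 : F)) :=
        abi_prod_congr R (fun x hx => by
          rw [if_neg]
          rintro rfl
          exact hnd.1 hx)
      rw [e, abi_prod_zero, mul_one]
    · rw [if_neg h, xGL_zero, one_mul]
      rcases List.mem_cons.mp hδ with h' | h'
      · exact absurd h'.symm h
      · exact ih hnd.2 h'

/-- The condition on a positive root `q` and a root `γ` of `l`: either `x_q` centralises `x_γ`, or the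
commutator is a single root element of a root `δ` of `l`, and if `δ` is frozen (in `N`) then `γ` is a root
with vanishing coefficient (in `Z`). -/
def AbiAct (D : ChevalleyDatum) (l N Z : List ℕ) (q γ : ℕ) : Prop :=
  q = γ ∨ (γ ≠ q ∧ γ ≠ D.neg q ∧ (D.commTerms q γ = [] ∨
    (D.commTerms q γ = [(((D.commTerms q γ).headD (0, 0, 0, 0)).1,
        ((D.commTerms q γ).headD (0, 0, 0, 0)).2.1, 1, 1)] ∧
      ((D.commTerms q γ).headD (0, 0, 0, 0)).1 ∈ l ∧
      (((D.commTerms q γ).headD (0, 0, 0, 0)).1 ∈ N → γ ∈ Z))))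

instance (D : ChevalleyDatum) (l N Z : List ℕ) (q γ : ℕ) : Decidable (AbiAct D l N Z q γ) := by
  unfold AbiAct
  infer_instance

theorem abi_conj_nil (R : BRel D F η) {q s : ℕ} (hq : q < D.nroots) (hs : s < D.nroots)
    (h1 : s ≠ q) (h2 : s ≠ D.neg q) (h3 : D.commTerms q s = []) (u c : F) :
    xGL R.xadd q u * xGL R.xadd s c * (xGL R.xadd q u)⁻¹ = xGL R.xadd s c := by
  rw [xGL_conj R.xadd (R.cf q hq s hs h1 h2)]
  unfold ChevalleyDatum.commWord
  rw [h3]
  simp only [List.map_nil, wordGL_nil, mul_one]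

/-- Conjugation of one root element of `l` by `x_q(u)`. -/
theorem abi_conj_one (R : BRel D F η) {l N Z : List ℕ} {q γ : ℕ} (hq : q < D.nroots)
    (hγl : γ ∈ l) (hγ : γ < D.nroots) (hact : AbiAct D l N Z q γ) (u a : F) (ha : γ ∈ Z → a = 0) :
    ∃ δ ∈ l, ∃ t : F, (δ ∈ N → t = 0) ∧
      xGL R.xadd q u * xGL R.xadd γ a * (xGL R.xadd q u)⁻¹ = xGL R.xadd γ a * xGL R.xadd δ t := by
  rcases hact with rfl | ⟨h1, h2, h3 | ⟨h3, h4, h5⟩⟩
  · refine ⟨q, hγl, 0, fun _ => rfl, ?_⟩
    rw [xGL_inv, xGL_mul, xGL_mul, xGL_zero, mul_one]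
    congr 1
    ring
  · refine ⟨γ, hγl, 0, fun _ => rfl, ?_⟩
    rw [abi_conj_nil R hq hγ h1 h2 h3, xGL_zero, mul_one]
  · refine ⟨_, h4, _, ?_, chSep_conj_one R hq hγ h1 h2 h3 u a⟩
    intro hN
    rw [ha (h5 hN), mul_zero]

/-- Conjugation by `x_q(u)` of a product over an abelian ideal: the coefficients at the frozen roots do not
change. -/
theorem abi_conj_x (R : BRel D F η) {l N Z : List ℕ} (hnd : l.Nodup) (hc : AbiComm R l)
    (hlt : ∀ γ ∈ l, γ < D.nroots) {q : ℕ} (hq : q < D.nroots)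
    (hact : ∀ γ ∈ l, AbiAct D l N Z q γ) (u : F) (c : ℕ → F) (hZ : ∀ γ ∈ Z, c γ = 0) :
    ∃ d : ℕ → F, (∀ γ ∈ N, d γ = 0) ∧
      xGL R.xadd q u * chRootProd R l c * (xGL R.xadd q u)⁻¹ = chRootProd R l (fun γ => c γ + d γ) := by
  have key : ∀ l' : List ℕ, (∀ γ ∈ l', γ ∈ l) → ∃ d : ℕ → F, (∀ γ ∈ N, d γ = 0) ∧
      xGL R.xadd q u * chRootProd R l' c * (xGL R.xadd q u)⁻¹ =
        chRootProd R l' c * chRootProd R l d := by
    intro l'
    induction l' with
    | nil =>
      intro _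
      refine ⟨fun _ => 0, fun _ _ => rfl, ?_⟩
      rw [abi_prod_nil, abi_prod_zero, mul_one, mul_inv_cancel, mul_one]
    | cons γ l' ih =>
      intro hsub
      have hsub' : ∀ x ∈ l', x ∈ l := fun x hx => hsub x (List.mem_cons_of_mem _ hx)
      have hγl : γ ∈ l := hsub γ List.mem_cons_self
      obtain ⟨d, hd, e⟩ := ih hsub'
      obtain ⟨δ, hδ, t, ht, e1⟩ := abi_conj_one R hq hγl (hlt γ hγl) (hact γ hγl) u (c γ)
        (fun h => hZ γ h)
      refine ⟨fun x => (if x = δ then t else 0) + d x, ?_, ?_⟩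
      · intro x hx
        show (if x = δ then t else 0) + d x = 0
        rw [hd x hx, add_zero]
        by_cases hxd : x = δ
        · rw [if_pos hxd]
          exact ht (hxd ▸ hx)
        · rw [if_neg hxd]
      · rw [abi_prod_cons, ← abi_prod_mul R hc (fun x hx => hx), abi_prod_single R hnd hδ]
        have hcm := abi_comm_prod R hc hsub' hδ t c
        calc xGL R.xadd q u * (xGL R.xadd γ (c γ) * chRootProd R l' c) * (xGL R.xadd q u)⁻¹
            = (xGL R.xadd q u * xGL R.xadd γ (c γ) * (xGL R.xadd q u)⁻¹) *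
                (xGL R.xadd q u * chRootProd R l' c * (xGL R.xadd q u)⁻¹) := by group
          _ = xGL R.xadd γ (c γ) * xGL R.xadd δ t * (chRootProd R l' c * chRootProd R l d) := by
              rw [e1, e]
          _ = xGL R.xadd γ (c γ) * (xGL R.xadd δ t * chRootProd R l' c) * chRootProd R l d := by
              group
          _ = xGL R.xadd γ (c γ) * (chRootProd R l' c * xGL R.xadd δ t) * chRootProd R l d := by
              rw [hcm]
          _ = _ := by group
  obtain ⟨d, hd, e⟩ := key l (fun x hx => hx)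
  refine ⟨d, hd, ?_⟩
  rw [e, abi_prod_mul R hc (fun x hx => hx)]

/-- The torus acts on the products through non-vanishing characters. -/
theorem abi_conj_h (R : BRel D F η) {h : GL D.Idx F} (hh : h ∈ D.diagonalSubgroup F)
    (l : List ℕ) (hl : ∀ γ ∈ l, γ < D.nroots) :
    ∃ χ : ℕ → F, (∀ γ ∈ l, χ γ ≠ 0) ∧
      ∀ c : ℕ → F, h * chRootProd R l c * h⁻¹ = chRootProd R l (fun γ => χ γ * c γ) := by
  have hex : ∀ γ, ∃ χ : F, γ < D.nroots →
      ∀ t : F, h * xGL R.xadd γ t * h⁻¹ = xGL R.xadd γ (χ * t) := by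
    intro γ
    by_cases hγ : γ < D.nroots
    · obtain ⟨χ, hχ⟩ := R.hx h hh γ hγ
      exact ⟨χ, fun _ => hχ⟩
    · exact ⟨0, fun h' => absurd h' hγ⟩
  choose χ hχ using hex
  refine ⟨χ, ?_, ?_⟩
  · intro γ hγ e
    have h1 := hχ γ (hl γ hγ) 1
    rw [e, zero_mul, xGL_zero] at h1
    have h2 : xGL R.xadd γ (1 : F) = 1 := by
      calc xGL R.xadd γ (1 : F) = h⁻¹ * (h * xGL R.xadd γ 1 * h⁻¹) * h := by group
        _ = 1 := by rw [h1]; group
    have h3 := congrArg Units.val h2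
    rw [xGL_val, Units.val_one] at h3
    exact one_ne_zero (R.xinj γ (hl γ hγ) _ h3)
  · intro c
    induction l with
    | nil => rw [abi_prod_nil, abi_prod_nil, mul_one, mul_inv_cancel]
    | cons γ l ih =>
      rw [abi_prod_cons, abi_prod_cons]
      have e : h * (xGL R.xadd γ (c γ) * chRootProd R l c) * h⁻¹ =
          (h * xGL R.xadd γ (c γ) * h⁻¹) * (h * chRootProd R l c * h⁻¹) := by group
      rw [e, hχ γ (hl γ List.mem_cons_self), ih fun x hx => hl x (List.mem_cons_of_mem _ hx)]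

/-- The products over `l` whose coefficients do not vanish on `M` and vanish on `Z`. -/
def AbiSh (R : BRel D F η) (l M Z : List ℕ) (y : GL D.Idx F) : Prop :=
  ∃ c : ℕ → F, (∀ γ ∈ M, c γ ≠ 0) ∧ (∀ γ ∈ Z, c γ = 0) ∧ y = chRootProd R l c

/-- A shape is invariant under conjugation by the Borel subgroup. -/
theorem abi_sh_conj_B (R : BRel D F η) {l M Z : List ℕ} (hnd : l.Nodup) (hc : AbiComm R l)
    (hlt : ∀ γ ∈ l, γ < D.nroots) (hM : ∀ γ ∈ M, γ ∈ l)
    (hact : ∀ q, D.IsPosRoot q → ∀ γ ∈ l, AbiAct D l (M ++ Z) Z q γ)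
    {b : GL D.Idx F} (hb : b ∈ D.borelSubgroup F) {y : GL D.Idx F} (hy : AbiSh R l M Z y) :
    AbiSh R l M Z (b * y * b⁻¹) := by
  apply chLT_conj_B R (AbiSh R l M Z) _ _ hb hy
  · rintro q hq u y ⟨c, hcM, hcZ, rfl⟩
    obtain ⟨d, hd, e⟩ := abi_conj_x R hnd hc hlt hq.1 (hact q hq) u c hcZ
    refine ⟨fun γ => c γ + d γ, ?_, ?_, e⟩
    · intro γ hγ
      show c γ + d γ ≠ 0
      rw [hd γ (List.mem_append_left _ hγ), add_zero]
      exact hcM γ hγ
    · intro γ hγ
      show c γ + d γ = 0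
      rw [hd γ (List.mem_append_right _ hγ), add_zero]
      exact hcZ γ hγ
  · rintro h hh y ⟨c, hcM, hcZ, rfl⟩
    obtain ⟨χ, hχ, e⟩ := abi_conj_h R hh l hlt
    refine ⟨fun γ => χ γ * c γ, ?_, ?_, e c⟩
    · intro γ hγ
      exact mul_ne_zero (hχ γ (hM γ hγ)) (hcM γ hγ)
    · intro γ hγ
      show χ γ * c γ = 0
      rw [hcZ γ hγ, mul_zero]

theorem abi_bruhat_eq {G : Type*} [Group G] (b₁ n h₀ b₂ y z : G)
    (h : (b₁ * (n * h₀) * b₂) * y * (b₁ * (n * h₀) * b₂)⁻¹ = z) :
    n * (h₀ * b₂ * y * (h₀ * b₂)⁻¹) * n⁻¹ = b₁⁻¹ * z * b₁⁻¹⁻¹ := by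
  rw [← h]; group

/-- If an element of the group conjugates an element of the shape `(M, Z)` to an element of the shape
`(M', Z')`, and the roots of `l` outside `Z'` have index at least `m`, then some Weyl group element maps the
roots of `M` to roots of index at least `m`. -/
theorem abi_bruhat {f : ℕ → ℤ} (R : BRel D F η) (hW : WtFacts D f) (hE : RootElts D F)
    {l M Z M' Z' : List ℕ} (hnd : l.Nodup) (hc : AbiComm R l) (hpos : ∀ γ ∈ l, D.IsPosRoot γ)
    (hM : ∀ γ ∈ M, γ ∈ l) (hM' : ∀ γ ∈ M', γ ∈ l)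
    (hact : ∀ q, D.IsPosRoot q → ∀ γ ∈ l, AbiAct D l (M ++ Z) Z q γ)
    (hact' : ∀ q, D.IsPosRoot q → ∀ γ ∈ l, AbiAct D l (M' ++ Z') Z' q γ)
    {h : GL D.Idx F} (hh : h ∈ D.group F) {y z : GL D.Idx F} (hy : AbiSh R l M Z y)
    (hz : AbiSh R l M' Z' z) (heq : h * y * h⁻¹ = z) {m : ℕ} (hm : m < D.nroots)
    (hZ' : ∀ γ ∈ l, γ ∉ Z' → m ≤ γ) :
    ∃ L, ValidW D L ∧ ∀ γ ∈ M, m ≤ wW D L γ ∧ wW D L γ < D.nroots := by
  have hlt : ∀ γ ∈ l, γ < D.nroots := fun γ hγ => (hpos γ hγ).1
  obtain ⟨b₁, hb₁, n, hn, b₂, hb₂, rfl⟩ := R.bruhat h hh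
  obtain ⟨L, hL, h₀, hh₀, rfl⟩ := R.exists_word n hn
  have hHB : D.diagonalSubgroup F ≤ D.borelSubgroup F := le_sup_right
  have hb : h₀ * b₂ ∈ D.borelSubgroup F := mul_mem (hHB hh₀) hb₂
  obtain ⟨c, hcM, hcZ, ey⟩ := abi_sh_conj_B R hnd hc hlt hM hact hb hy
  obtain ⟨c', hcM', hcZ', ez⟩ := abi_sh_conj_B R hnd hc hlt hM' hact' (inv_mem hb₁) hz
  have key := abi_bruhat_eq b₁ (R.nW L) h₀ b₂ _ _ heq
  rw [ey, ez] at key
  have hbw := chLT_bruhat_word R hW hE l hnd hpos hc hL c c' key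
  refine ⟨L, hL, ?_⟩
  intro γ hγ
  obtain ⟨hp, γ', hγ', hc'0, hle⟩ := hbw γ (hM γ hγ) (hcM γ hγ)
  refine ⟨?_, hp.1⟩
  have hγ'Z : γ' ∉ Z' := fun hin => hc'0 (hcZ' γ' hin)
  have h1 : m ≤ γ' := hZ' γ' hγ' hγ'Z
  have h2 : f m ≤ f γ' := chLT_mono_le hW h1 (hlt γ' hγ')
  by_contra hlt'
  rw [not_le] at hlt'
  have h3 := hW.mono _ _ hlt' hm
  omega

/-! ### Orthogonality -/

/-- The pairing `⟨y, x^∨⟩` of two roots. -/
def abiPair (D : ChevalleyDatum) (x y : ℕ) : ℤ :=
  ((List.range D.rank).map fun i => (D.coroot.getD x #[]).getD i 0 * D.cartan i y).sum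

/-- Orthogonality is preserved by the fundamental reflections (a table check). -/
def abiOrthOK (D : ChevalleyDatum) : Bool :=
  (List.range D.rank).all fun i => (List.range D.nroots).all fun x => (List.range D.nroots).all fun y =>
    abiPair D x y != 0 || abiPair D (D.reflectRoot i x) (D.reflectRoot i y) == 0

theorem abi_orth_wW (W : WFacts D) (hO : abiOrthOK D = true) {x y : ℕ} (hx : x < D.nroots)
    (hy : y < D.nroots) (hxy : abiPair D x y = 0) :
    ∀ L : List ℕ, ValidW D L → abiPair D (wW D L x) (wW D L y) = 0 := by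
  intro L
  induction L with
  | nil => intro _; exact hxy
  | cons j L ih =>
    intro hL
    rw [wW_cons, wW_cons]
    have h1 := ih hL.tail
    unfold abiOrthOK at hO
    rw [List.all_eq_true] at hO
    have h2 := hO j (List.mem_range.mpr hL.head)
    rw [List.all_eq_true] at h2
    have h3 := h2 _ (List.mem_range.mpr (W.wW_lt hL.tail hx))
    rw [List.all_eq_true] at h3
    have h4 := h3 _ (List.mem_range.mpr (W.wW_lt hL.tail hy))
    rw [Bool.or_eq_true] at h4
    rcases h4 with h4 | h4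
    · rw [bne_iff_ne] at h4
      exact absurd h1 h4
    · exact beq_iff_eq.mp h4

end AbIdeal

end Cfsg.Agent.Helper17
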