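/-
helper17: the action of a graph automorphism (types D₄, E₆) on all the root elements.

* `permRootL D l`: `ChevalleyDatum.permRoot` for a permutation given by its list of values;
* `symActOK D l`: table check — `permRootL D l` sends `p_i` to `p_{l i}` and commutes with the fundamental
  reflections (`w_j ↦ w_{l j}`);
* `symVals_D4`, `symVals_E6`: the symmetries of the two diagrams;
(`graph_act` is in `ChevGraphActGen`.)
-/
import Cfsg.Agent.Helper36.ChevN
import Cfsg.Agent.Helper36.ChevBN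
import Cfsg.Prelude.Def_ChevAutomorphisms
import Cfsg.Prelude.Def_LieChev
import Cfsg.Prelude.Def_ChevD4

set_option autoImplicit false

namespace Cfsg.Agent.Helper17

open Cfsg Cfsg.Lie Cfsg.Agent.Helper36

/-- `ChevalleyDatum.permRoot` for a permutation of the nodes given by the list `l` of its values. -/
def permRootL (D : ChevalleyDatum) (l : List ℕ) (r : ℕ) : ℕ :=
  ((List.range D.nroots).find? fun s => (List.finRange D.rank).all fun i =>
      (D.coroot.getD s #[]).getD (l.getD i.val 0) 0 == (D.coroot.getD r #[]).getD i.val 0).getD r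

theorem permRoot_eq_permRootL (D : ChevalleyDatum) (π : Equiv.Perm (Fin D.rank)) (l : List ℕ)
    (h : ∀ i : Fin D.rank, (π i).val = l.getD i.val 0) (r : ℕ) : D.permRoot π r = permRootL D l r := by
  unfold ChevalleyDatum.permRoot permRootL
  simp only [h]

/-- The table check: `permRootL D l` permutes the fundamental roots as `l` does and commutes with the
fundamental reflections. -/
def symActOK (D : ChevalleyDatum) (l : List ℕ) : Bool :=
  ((List.range D.rank).all fun j => permRootL D l (D.simple j) == D.simple (l.getD j 0)) &&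
  ((List.range D.rank).all fun j => (List.range D.nroots).all fun s =>
    permRootL D l (D.reflectRoot j s) == D.reflectRoot (l.getD j 0) (permRootL D l s))

theorem symActOK_spec {D : ChevalleyDatum} {l : List ℕ} (h : symActOK D l = true) :
    (∀ j, j < D.rank → permRootL D l (D.simple j) = D.simple (l.getD j 0)) ∧
    (∀ j, j < D.rank → ∀ s, s < D.nroots →
      permRootL D l (D.reflectRoot j s) = D.reflectRoot (l.getD j 0) (permRootL D l s)) := by
  unfold symActOK at h
  rw [Bool.and_eq_true, List.all_eq_true, List.all_eq_true] at h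
  refine ⟨fun j hj => beq_iff_eq.mp (h.1 j (List.mem_range.mpr hj)), fun j hj s hs => ?_⟩
  have h1 := h.2 j (List.mem_range.mpr hj)
  rw [List.all_eq_true] at h1
  exact beq_iff_eq.mp (h1 s (List.mem_range.mpr hs))

def symD4 : List (List ℕ) :=
  [[0, 1, 2, 3], [2, 1, 0, 3], [2, 1, 3, 0], [3, 1, 2, 0], [0, 1, 3, 2], [3, 1, 0, 2]]

def symE6 : List (List ℕ) := [[0, 1, 2, 3, 4, 5], [5, 1, 4, 3, 2, 0]]

theorem symActOK_D4 : ∀ l ∈ symD4, symActOK chevD4 l = true := by decide +kernel

theorem symActOK_E6 : ∀ l ∈ symE6, symActOK chevE6 l = true := by decide +kernel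

/-- The symmetries of the diagram D₄, by their values. -/
theorem symVals_D4 : ∀ a b c d : Fin 4,
    (a ≠ b ∧ chevD4.bonds a b = chevD4.bonds 0 1) →
    (c ≠ a ∧ c ≠ b ∧ chevD4.bonds a c = chevD4.bonds 0 2 ∧ chevD4.bonds b c = chevD4.bonds 1 2) →
    (d ≠ a ∧ d ≠ b ∧ d ≠ c ∧ chevD4.bonds a d = chevD4.bonds 0 3 ∧ chevD4.bonds b d = chevD4.bonds 1 3 ∧
      chevD4.bonds c d = chevD4.bonds 2 3) →
    [a.val, b.val, c.val, d.val] ∈ symD4 := by decide +kernel

set_option synthInstance.maxHeartbeats 2000000 in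
set_option synthInstance.maxSize 4096 in
set_option maxHeartbeats 2000000 in
/-- The symmetries of the diagram E₆, by their values. -/
theorem symVals_E6 : ∀ a b c d e f : Fin 6,
    (a ≠ b ∧ chevE6.bonds a b = chevE6.bonds 0 1) →
    (c ≠ a ∧ c ≠ b ∧ chevE6.bonds a c = chevE6.bonds 0 2 ∧ chevE6.bonds b c = chevE6.bonds 1 2) →
    (d ≠ a ∧ d ≠ b ∧ d ≠ c ∧ chevE6.bonds a d = chevE6.bonds 0 3 ∧ chevE6.bonds b d = chevE6.bonds 1 3 ∧
      chevE6.bonds c d = chevE6.bonds 2 3) →
    (e ≠ a ∧ e ≠ b ∧ e ≠ c ∧ e ≠ d ∧ chevE6.bonds a e = chevE6.bonds 0 4 ∧ chevE6.bonds b e = chevE6.bonds 1 4 ∧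
      chevE6.bonds c e = chevE6.bonds 2 4 ∧ chevE6.bonds d e = chevE6.bonds 3 4) →
    (f ≠ a ∧ f ≠ b ∧ f ≠ c ∧ f ≠ d ∧ f ≠ e ∧ chevE6.bonds a f = chevE6.bonds 0 5 ∧
      chevE6.bonds b f = chevE6.bonds 1 5 ∧ chevE6.bonds c f = chevE6.bonds 2 5 ∧
      chevE6.bonds d f = chevE6.bonds 3 5 ∧ chevE6.bonds e f = chevE6.bonds 4 5) →
    [a.val, b.val, c.val, d.val, e.val, f.val] ∈ symE6 := by decide +kernel

end Cfsg.Agent.Helper17
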