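/-
helper17: an automorphism of a Chevalley group permuting the fundamental root elements (and their negatives)
along a diagram symmetry sends every root element `x_r(t)` to `x_{π·r}(±t)` (`graph_act`).
-/
import Cfsg.Agent.Helper17.ChevGraphAct

set_option autoImplicit false

namespace Cfsg.Agent.Helper17

open Cfsg Cfsg.Lie Cfsg.Agent.Helper36

section

variable {D : ChevalleyDatum} {F : Type*} [Field F] {η : ℕ → ℕ → ℤ}

/-- `permRootL` commutes with the words in the fundamental reflections. -/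
theorem permRootL_wW (W : WFacts D) {l : List ℕ} (h : symActOK D l = true) {L : List ℕ} (hL : ValidW D L)
    {s : ℕ} (hs : s < D.nroots) :
    permRootL D l (wW D L s) = wW D (L.map fun j => l.getD j 0) (permRootL D l s) := by
  induction L with
  | nil => rfl
  | cons i L ih =>
    rw [List.map_cons, wW_cons, wW_cons, (symActOK_spec h).2 i hL.head _ (W.wW_lt hL.tail hs), ih hL.tail]

/-- An automorphism of the group, as a map on the matrices. -/
noncomputable def autGL (φ : ↥(D.group F) ≃* ↥(D.group F)) (g : GL D.Idx F) : GL D.Idx F :=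
  open Classical in if h : g ∈ D.group F then (φ ⟨g, h⟩ : GL D.Idx F) else 1

theorem autGL_of_mem (φ : ↥(D.group F) ≃* ↥(D.group F)) {g : GL D.Idx F} (h : g ∈ D.group F) :
    autGL φ g = (φ ⟨g, h⟩ : GL D.Idx F) := by
  unfold autGL
  rw [dif_pos h]

theorem autGL_mul (φ : ↥(D.group F) ≃* ↥(D.group F)) {a b : GL D.Idx F} (ha : a ∈ D.group F)
    (hb : b ∈ D.group F) : autGL φ (a * b) = autGL φ a * autGL φ b := by
  rw [autGL_of_mem φ ha, autGL_of_mem φ hb, autGL_of_mem φ (mul_mem ha hb)]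
  have e : (⟨a * b, mul_mem ha hb⟩ : ↥(D.group F)) = ⟨a, ha⟩ * ⟨b, hb⟩ := rfl
  rw [e, map_mul]
  rfl

theorem autGL_inv (φ : ↥(D.group F) ≃* ↥(D.group F)) {a : GL D.Idx F} (ha : a ∈ D.group F) :
    autGL φ a⁻¹ = (autGL φ a)⁻¹ := by
  rw [autGL_of_mem φ ha, autGL_of_mem φ (inv_mem ha)]
  have e : (⟨a⁻¹, inv_mem ha⟩ : ↥(D.group F)) = (⟨a, ha⟩ : ↥(D.group F))⁻¹ := rfl
  rw [e, map_inv]
  rfl

/-- An automorphism permuting the root elements of the fundamental roots and of their negatives along `l`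
sends `x_r(t)` to `x_{l·r}(±t)`. -/
theorem graph_act (R : NRel D F η) {l : List ℕ} (hOK : symActOK D l = true)
    (hl : ∀ j, j < D.rank → l.getD j 0 < D.rank)
    (φ : ↥(D.group F) ≃* ↥(D.group F))
    (h1 : ∀ j, j < D.rank → ∀ t : F,
      autGL φ (xGL R.xadd (D.simple j) t) = xGL R.xadd (D.simple (l.getD j 0)) t)
    (h2 : ∀ j, j < D.rank → ∀ t : F,
      autGL φ (xGL R.xadd (D.neg (D.simple j)) t) = xGL R.xadd (D.neg (D.simple (l.getD j 0))) t)
    {r : ℕ} (hr : r < D.nroots) :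
    ∃ ε : F, (ε = 1 ∨ ε = -1) ∧ ∀ t : F,
      autGL φ (xGL R.xadd r t) = xGL R.xadd (permRootL D l r) (ε * t) := by
  have hX := R.xadd
  have hxG : ∀ (s : ℕ) (t : F), xGL R.xadd s t ∈ D.group F := fun s t => xGL_mem_group R.xadd s t
  have hNG := monomialSubgroup_le_group (D := D) (F := F) R.xadd
  have hnN : ∀ j, j < D.rank → R.n j ∈ D.monomialSubgroup F := by
    intro j hj
    have h := R.nW_mem_monomial (L := [j]) (by
      intro i hi
      rw [List.mem_singleton] at hi
      rw [hi]; exact hj)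
    rwa [R.nW_cons, R.nW_nil, mul_one] at h
  -- the elements `n_j`
  have hn : ∀ j, j < D.rank → autGL φ (R.n j) = R.n (l.getD j 0) := by
    intro j hj
    unfold NRel.n
    rw [nGL_eq, nGL_eq, autGL_mul φ (mul_mem (hxG _ _) (hxG _ _)) (hxG _ _),
      autGL_mul φ (hxG _ _) (hxG _ _), h1 j hj, h2 j hj]
  have hvalid : ∀ L : List ℕ, ValidW D L → ValidW D (L.map fun j => l.getD j 0) := by
    intro L hL i hi
    obtain ⟨j, hj, rfl⟩ := List.mem_map.mp hi
    exact hl j (hL j hj)
  have hnW : ∀ L : List ℕ, ValidW D L → autGL φ (R.nW L) = R.nW (L.map fun j => l.getD j 0) := by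
    intro L hL
    induction L with
    | nil =>
      rw [List.map_nil, R.nW_nil, autGL_of_mem φ (one_mem _)]
      have e : (⟨1, one_mem _⟩ : ↥(D.group F)) = 1 := rfl
      rw [e, map_one]
      rfl
    | cons i L ih =>
      rw [List.map_cons, R.nW_cons, R.nW_cons,
        autGL_mul φ (hNG (hnN i hL.head)) (hNG (R.nW_mem_monomial hL.tail)), hn i hL.head,
        ih hL.tail]
  obtain ⟨L, hL, i, hi, hw⟩ := R.wf.reach r hr
  have hp := R.wf.simple_lt i hi
  have hp' := R.wf.simple_lt _ (hl i hi)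
  have hL' := hvalid L hL
  refine ⟨(eW D η (L.map fun j => l.getD j 0) (D.simple (l.getD i 0)) : F) * (eW D η L (D.simple i) : F),
    ?_, fun t => ?_⟩
  · rcases R.eW_sgn hL hp with e1 | e1 <;> rcases R.eW_sgn hL' hp' with e2 | e2 <;> rw [e1, e2] <;> simp
  · have e1 := R.nW_conj_x hL hp ((eW D η L (D.simple i) : F) * t)
    rw [hw, ← mul_assoc, R.eW_mul_self hL hp, one_mul] at e1
    rw [← e1, autGL_mul φ (mul_mem (hNG (R.nW_mem_monomial hL)) (hxG _ _)) (inv_mem (hNG (R.nW_mem_monomial hL))),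
      autGL_mul φ (hNG (R.nW_mem_monomial hL)) (hxG _ _), autGL_inv φ (hNG (R.nW_mem_monomial hL)),
      hnW L hL, h1 i hi, R.nW_conj_x hL' hp', ← hw, permRootL_wW R.wf hOK hL hp,
      (symActOK_spec hOK).1 i hi, mul_assoc]

end

end Cfsg.Agent.Helper17
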