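/-
helper17: pieces NC and ORD of CALL S2175 (helper18) - in `E₆(K)`, characteristic two, the elements
`x_71(1)`, `x_68(1) x_66(1)`, `x_55(1) x_65(1) x_67(1)` have order two and are pairwise non-conjugate.
The eight roots `55, 65, 67, 66, 68, 69, 70, 71` form an abelian ideal; shapes in its root product are
invariant under the Borel subgroup (`Cfsg.Agent.Helper17.AbIdeal`), and the Weyl group preserves orthogonality.
-/
import Cfsg.Agent.Helper17.AbIdeal

set_option autoImplicit false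

namespace Cfsg.Agent.Helper18

open Cfsg Cfsg.Lie Cfsg.Agent.Helper36 Cfsg.Agent.Helper17 Cfsg.Agent.Helper38

section E6INC

variable {F : Type*} [Field F] {η : ℕ → ℕ → ℤ}

/-- The abelian ideal. -/
def e6incI : List ℕ := [55, 65, 67, 66, 68, 69, 70, 71]

set_option maxRecDepth 100000 in
theorem e6inc_commTab : ∀ γ ∈ e6incI, ∀ γ' ∈ e6incI,
    γ = γ' ∨ (γ' ≠ γ ∧ γ' ≠ chevE6.neg γ ∧ chevE6.commTerms γ γ' = []) := by decide +kernel

set_option maxRecDepth 100000 in
theorem e6inc_posTab : ∀ γ ∈ e6incI, chevE6.IsPosRoot γ := by decide +kernel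

set_option maxRecDepth 100000 in
theorem e6inc_act3 : ∀ q ∈ chevE6.posRoots, ∀ γ ∈ e6incI,
    AbiAct chevE6 e6incI ([55, 65, 67] ++ []) [] q γ := by decide +kernel

set_option maxRecDepth 100000 in
theorem e6inc_act2 : ∀ q ∈ chevE6.posRoots, ∀ γ ∈ e6incI,
    AbiAct chevE6 e6incI ([66, 68] ++ [55, 65, 67]) [55, 65, 67] q γ := by decide +kernel

set_option maxRecDepth 100000 in
theorem e6inc_act1 : ∀ q ∈ chevE6.posRoots, ∀ γ ∈ e6incI,
    AbiAct chevE6 e6incI ([71] ++ [55, 65, 67, 66, 68, 69, 70]) [55, 65, 67, 66, 68, 69, 70] q γ := by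
  decide +kernel

set_option maxRecDepth 100000 in
theorem e6inc_act0 : ∀ q ∈ chevE6.posRoots, ∀ γ ∈ e6incI,
    AbiAct chevE6 e6incI ([] ++ e6incI) e6incI q γ := by
  decide +kernel

set_option maxRecDepth 100000 in
theorem e6inc_orthOK : abiOrthOK chevE6 = true := by decide +kernel

set_option maxRecDepth 100000 in
theorem e6inc_orthTab : abiPair chevE6 55 65 = 0 ∧ abiPair chevE6 55 67 = 0 ∧ abiPair chevE6 65 67 = 0 ∧
    abiPair chevE6 66 68 = 0 ∧ abiPair chevE6 71 71 ≠ 0 := by decide +kernel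

set_option maxRecDepth 100000 in
theorem e6inc_noTriple : ∀ a ∈ [66, 67, 68, 69, 70, 71], ∀ b ∈ [66, 67, 68, 69, 70, 71],
    ∀ c ∈ [66, 67, 68, 69, 70, 71], abiPair chevE6 a b = 0 → abiPair chevE6 a c = 0 →
      abiPair chevE6 b c = 0 → False := by decide +kernel

theorem e6inc_comm (R : BRel chevE6 F η) : AbiComm R e6incI := by
  intro γ hγ γ' hγ' a b
  rcases e6inc_commTab γ hγ γ' hγ' with rfl | ⟨h1, h2, h3⟩
  · rw [xGL_mul, xGL_mul, add_comm]
  · have h := abi_conj_nil R (e6inc_posTab γ hγ).1 (e6inc_posTab γ' hγ').1 h1 h2 h3 a b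
    exact (chCent_comm_of_conj h).symm

theorem e6inc_hD7 : chevE6 ∈ [chevG2, chevB2, chevD4, chevF4, chevE6, chevE7, chevE8] := by simp

/-- The three shapes and the shape of the identity. -/
def e6incSh3 (R : BRel chevE6 F η) : GL chevE6.Idx F → Prop := AbiSh R e6incI [55, 65, 67] []
def e6incSh2 (R : BRel chevE6 F η) : GL chevE6.Idx F → Prop := AbiSh R e6incI [66, 68] [55, 65, 67]
def e6incSh1 (R : BRel chevE6 F η) : GL chevE6.Idx F → Prop :=
  AbiSh R e6incI [71] [55, 65, 67, 66, 68, 69, 70]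
def e6incSh0 (R : BRel chevE6 F η) : GL chevE6.Idx F → Prop := AbiSh R e6incI [] e6incI

theorem e6inc_sh1 (R : BRel chevE6 F η) {e : F} (he : e ≠ 0) : e6incSh1 R (xGL R.xadd 71 e) := by
  refine ⟨fun γ => if γ = 71 then e else 0, ?_, ?_, (abi_prod_single R (by decide) (by decide) e).symm⟩
  · intro γ hγ
    simp only [List.mem_cons, List.not_mem_nil, or_false] at hγ
    subst hγ
    simpa using he
  · intro γ hγ
    simp only [List.mem_cons, List.not_mem_nil, or_false] at hγ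
    rcases hγ with rfl | rfl | rfl | rfl | rfl | rfl | rfl <;> simp

theorem e6inc_sh2 (R : BRel chevE6 F η) {d1 d2 : F} (h1 : d1 ≠ 0) (h2 : d2 ≠ 0) :
    e6incSh2 R (xGL R.xadd 68 d1 * xGL R.xadd 66 d2) := by
  refine ⟨fun γ => (if γ = 68 then d1 else 0) + (if γ = 66 then d2 else 0), ?_, ?_, ?_⟩
  · intro γ hγ
    simp only [List.mem_cons, List.not_mem_nil, or_false] at hγ
    rcases hγ with rfl | rfl
    · simpa using h2
    · simpa using h1
  · intro γ hγ
    simp only [List.mem_cons, List.not_mem_nil, or_false] at hγ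
    rcases hγ with rfl | rfl | rfl <;> simp
  · rw [← abi_prod_mul R (e6inc_comm R) (fun x hx => hx), abi_prod_single R (by decide) (by decide),
      abi_prod_single R (by decide) (by decide)]

theorem e6inc_sh3 (R : BRel chevE6 F η) {c1 c2 c3 : F} (h1 : c1 ≠ 0) (h2 : c2 ≠ 0) (h3 : c3 ≠ 0) :
    e6incSh3 R (xGL R.xadd 55 c1 * xGL R.xadd 65 c2 * xGL R.xadd 67 c3) := by
  refine ⟨fun γ => ((if γ = 55 then c1 else 0) + (if γ = 65 then c2 else 0)) +
    (if γ = 67 then c3 else 0), ?_, ?_, ?_⟩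
  · intro γ hγ
    simp only [List.mem_cons, List.not_mem_nil, or_false] at hγ
    rcases hγ with rfl | rfl | rfl
    · simpa using h1
    · simpa using h2
    · simpa using h3
  · intro γ hγ
    exact absurd hγ List.not_mem_nil
  · rw [← abi_prod_mul R (e6inc_comm R) (fun x hx => hx), ← abi_prod_mul R (e6inc_comm R) (fun x hx => hx),
      abi_prod_single R (by decide) (by decide), abi_prod_single R (by decide) (by decide),
      abi_prod_single R (by decide) (by decide)]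

theorem e6inc_sh0 (R : BRel chevE6 F η) : e6incSh0 R (1 : GL chevE6.Idx F) :=
  ⟨fun _ => 0, fun _ h => absurd h List.not_mem_nil, fun _ _ => rfl, (abi_prod_zero R e6incI).symm⟩

theorem e6inc_act_of {N Z : List ℕ}
    (h : ∀ q ∈ chevE6.posRoots, ∀ γ ∈ e6incI, AbiAct chevE6 e6incI N Z q γ) :
    ∀ q, chevE6.IsPosRoot q → ∀ γ ∈ e6incI, AbiAct chevE6 e6incI N Z q γ :=
  fun q hq γ hγ => h q (mem_posRoots.mpr hq) γ hγ

/-- No element of the group conjugates an element of the shape `3` to an element of the shape `2`. -/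
theorem e6inc_nc32 [CharP F 2] (R : BRel chevE6 F η) {h : GL chevE6.Idx F} (hh : h ∈ chevE6.group F)
    {y z : GL chevE6.Idx F} (hy : e6incSh3 R y) (hz : e6incSh2 R z) : h * y * h⁻¹ ≠ z := by
  intro heq
  have hW := wtFacts_of_wtOK chainPackOK_E6 wtOK_E6
  have hE : RootElts chevE6 F := rootElts_of_mem e6inc_hD7
  obtain ⟨L, hL, hr⟩ := abi_bruhat R hW hE (l := e6incI) (by decide) (e6inc_comm R) e6inc_posTab
    (by decide) (by decide) (e6inc_act_of e6inc_act3) (e6inc_act_of e6inc_act2) hh hy hz heq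
    (m := 66) (by decide) (by decide)
  have o1 := abi_orth_wW R.wf e6inc_orthOK (by decide : 55 < chevE6.nroots)
    (by decide : 65 < chevE6.nroots) e6inc_orthTab.1 L hL
  have o2 := abi_orth_wW R.wf e6inc_orthOK (by decide : 55 < chevE6.nroots)
    (by decide : 67 < chevE6.nroots) e6inc_orthTab.2.1 L hL
  have o3 := abi_orth_wW R.wf e6inc_orthOK (by decide : 65 < chevE6.nroots)
    (by decide : 67 < chevE6.nroots) e6inc_orthTab.2.2.1 L hL
  have r1 := hr 55 (by decide)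
  have r2 := hr 65 (by decide)
  have r3 := hr 67 (by decide)
  have hn : chevE6.nroots = 72 := rfl
  rw [hn] at r1 r2 r3
  have m1 : wW chevE6 L 55 ∈ [66, 67, 68, 69, 70, 71] := by
    simp only [List.mem_cons, List.not_mem_nil, or_false]; omega
  have m2 : wW chevE6 L 65 ∈ [66, 67, 68, 69, 70, 71] := by
    simp only [List.mem_cons, List.not_mem_nil, or_false]; omega
  have m3 : wW chevE6 L 67 ∈ [66, 67, 68, 69, 70, 71] := by
    simp only [List.mem_cons, List.not_mem_nil, or_false]; omega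
  exact e6inc_noTriple _ m1 _ m2 _ m3 o1 o2 o3

/-- Two orthogonal roots cannot both be moved to the highest root. -/
theorem e6inc_nc_top [CharP F 2] (R : BRel chevE6 F η) {h : GL chevE6.Idx F} (hh : h ∈ chevE6.group F)
    {M Z M' Z' : List ℕ} {a b : ℕ} (ha : a ∈ M) (hb : b ∈ M) (hab : abiPair chevE6 a b = 0)
    (hM : ∀ γ ∈ M, γ ∈ e6incI) (hM' : ∀ γ ∈ M', γ ∈ e6incI)
    (hact : ∀ q ∈ chevE6.posRoots, ∀ γ ∈ e6incI, AbiAct chevE6 e6incI (M ++ Z) Z q γ)
    (hact' : ∀ q ∈ chevE6.posRoots, ∀ γ ∈ e6incI, AbiAct chevE6 e6incI (M' ++ Z') Z' q γ)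
    (hZ' : ∀ γ ∈ e6incI, γ ∉ Z' → 71 ≤ γ)
    {y z : GL chevE6.Idx F} (hy : AbiSh R e6incI M Z y) (hz : AbiSh R e6incI M' Z' z) :
    h * y * h⁻¹ ≠ z := by
  intro heq
  have hW := wtFacts_of_wtOK chainPackOK_E6 wtOK_E6
  have hE : RootElts chevE6 F := rootElts_of_mem e6inc_hD7
  obtain ⟨L, hL, hr⟩ := abi_bruhat R hW hE (l := e6incI) (by decide) (e6inc_comm R) e6inc_posTab
    hM hM' (e6inc_act_of hact) (e6inc_act_of hact') hh hy hz heq (m := 71) (by decide) hZ'
  have halt : a < chevE6.nroots := (e6inc_posTab a (hM a ha)).1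
  have hblt : b < chevE6.nroots := (e6inc_posTab b (hM b hb)).1
  have o1 := abi_orth_wW R.wf e6inc_orthOK halt hblt hab L hL
  have r1 := hr a ha
  have r2 := hr b hb
  have hn : chevE6.nroots = 72 := rfl
  rw [hn] at r1 r2
  have e1 : wW chevE6 L a = 71 := by omega
  have e2 : wW chevE6 L b = 71 := by omega
  rw [e1, e2] at o1
  exact e6inc_orthTab.2.2.2.2 o1

/-- PIECE NC: the three representatives (with arbitrary non-zero parameters) are pairwise non-conjugate. -/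
theorem e6i_noconj_gen [CharP F 2] (R : BRel chevE6 F η) {h : GL chevE6.Idx F} (hh : h ∈ chevE6.group F)
    {e d1 d2 c1 c2 c3 : F} (he : e ≠ 0) (hd1 : d1 ≠ 0) (hd2 : d2 ≠ 0) (hc1 : c1 ≠ 0) (hc2 : c2 ≠ 0)
    (hc3 : c3 ≠ 0) :
    h * (xGL R.xadd 68 d1 * xGL R.xadd 66 d2) * h⁻¹ ≠ xGL R.xadd 71 e ∧
    h * (xGL R.xadd 55 c1 * xGL R.xadd 65 c2 * xGL R.xadd 67 c3) * h⁻¹ ≠ xGL R.xadd 71 e ∧
    h * (xGL R.xadd 55 c1 * xGL R.xadd 65 c2 * xGL R.xadd 67 c3) * h⁻¹ ≠
      xGL R.xadd 68 d1 * xGL R.xadd 66 d2 := by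
  refine ⟨?_, ?_, ?_⟩
  · exact e6inc_nc_top R hh (a := 66) (b := 68) (by decide) (by decide) e6inc_orthTab.2.2.2.1
      (by decide) (by decide) e6inc_act2 e6inc_act1 (by decide) (e6inc_sh2 R hd1 hd2) (e6inc_sh1 R he)
  · exact e6inc_nc_top R hh (a := 55) (b := 65) (by decide) (by decide) e6inc_orthTab.1
      (by decide) (by decide) e6inc_act3 e6inc_act1 (by decide) (e6inc_sh3 R hc1 hc2 hc3) (e6inc_sh1 R he)
  · exact e6inc_nc32 R hh (e6inc_sh3 R hc1 hc2 hc3) (e6inc_sh2 R hd1 hd2)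

/-- PIECE NC. -/
theorem e6i_noconj [CharP F 2] (R : BRel chevE6 F η) {h : GL chevE6.Idx F} (hh : h ∈ chevE6.group F) :
    h * (xGL R.xadd 68 (1 : F) * xGL R.xadd 66 1) * h⁻¹ ≠ xGL R.xadd 71 1 ∧
    h * (xGL R.xadd 55 (1 : F) * xGL R.xadd 65 1 * xGL R.xadd 67 1) * h⁻¹ ≠ xGL R.xadd 71 1 ∧
    h * (xGL R.xadd 55 (1 : F) * xGL R.xadd 65 1 * xGL R.xadd 67 1) * h⁻¹ ≠
      xGL R.xadd 68 1 * xGL R.xadd 66 1 :=
  e6i_noconj_gen R hh one_ne_zero one_ne_zero one_ne_zero one_ne_zero one_ne_zero one_ne_zero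

theorem e6inc_two {G : Type*} [Group G] {g : G} (h2 : g * g = 1) (h1 : g ≠ 1) : orderOf g = 2 := by
  haveI : Fact (Nat.Prime 2) := ⟨Nat.prime_two⟩
  exact orderOf_eq_prime (by rw [pow_two]; exact h2) h1

theorem e6inc_sq [CharP F 2] (R : BRel chevE6 F η) (r : ℕ) (t : F) :
    xGL R.xadd r t * xGL R.xadd r t = 1 := by
  rw [xGL_mul, CharTwo.add_self_eq_zero, xGL_zero]

theorem e6inc_sq2 {G : Type*} [Group G] {a b : G} (ha : a * a = 1) (hb : b * b = 1) (hc : a * b = b * a) :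
    (a * b) * (a * b) = 1 := by
  calc (a * b) * (a * b) = a * (b * a) * b := by group
    _ = a * (a * b) * b := by rw [hc]
    _ = (a * a) * (b * b) := by group
    _ = 1 := by rw [ha, hb, one_mul]

/-- PIECE ORD. -/
theorem e6i_order [CharP F 2] (R : BRel chevE6 F η) :
    orderOf (xGL R.xadd 71 (1 : F)) = 2 ∧
    orderOf (xGL R.xadd 68 (1 : F) * xGL R.xadd 66 1) = 2 ∧
    orderOf (xGL R.xadd 55 (1 : F) * xGL R.xadd 65 1 * xGL R.xadd 67 1) = 2 := by
  have hone : (1 : GL chevE6.Idx F) ∈ chevE6.group F := one_mem _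
  have c1 : xGL R.xadd 68 (1 : F) * xGL R.xadd 66 1 = xGL R.xadd 66 1 * xGL R.xadd 68 1 :=
    e6inc_comm R 68 (by decide) 66 (by decide) 1 1
  have c2 : xGL R.xadd 55 (1 : F) * xGL R.xadd 65 1 = xGL R.xadd 65 1 * xGL R.xadd 55 1 :=
    e6inc_comm R 55 (by decide) 65 (by decide) 1 1
  have c3 : xGL R.xadd 55 (1 : F) * xGL R.xadd 65 1 * xGL R.xadd 67 1 =
      xGL R.xadd 67 1 * (xGL R.xadd 55 (1 : F) * xGL R.xadd 65 1) := by
    rw [mul_assoc, e6inc_comm R 65 (by decide) 67 (by decide) 1 1, ← mul_assoc,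
      e6inc_comm R 55 (by decide) 67 (by decide) 1 1, mul_assoc]
  refine ⟨?_, ?_, ?_⟩
  · apply e6inc_two (e6inc_sq R 71 1)
    intro h
    have h3 := congrArg Units.val h
    rw [xGL_val, Units.val_one] at h3
    exact one_ne_zero (R.xinj 71 (by decide) _ h3)
  · apply e6inc_two (e6inc_sq2 (e6inc_sq R 68 1) (e6inc_sq R 66 1) c1)
    intro h
    refine e6inc_nc_top R hone (a := 66) (b := 68) (by decide) (by decide) e6inc_orthTab.2.2.2.1
      (by decide) (by decide) e6inc_act2 e6inc_act0 (by decide)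
      (e6inc_sh2 R (one_ne_zero (α := F)) (one_ne_zero (α := F))) (e6inc_sh0 R) ?_
    rw [h]; group
  · apply e6inc_two (e6inc_sq2 (e6inc_sq2 (e6inc_sq R 55 1) (e6inc_sq R 65 1) c2) (e6inc_sq R 67 1) c3)
    intro h
    refine e6inc_nc_top R hone (a := 55) (b := 65) (by decide) (by decide) e6inc_orthTab.1
      (by decide) (by decide) e6inc_act3 e6inc_act0 (by decide)
      (e6inc_sh3 R (one_ne_zero (α := F)) (one_ne_zero (α := F)) (one_ne_zero (α := F))) (e6inc_sh0 R) ?_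
    rw [h]; group

end E6INC

end Cfsg.Agent.Helper18
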