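/-
helper17: the tables of the flip of `E₆` for helper18's theory of `σ = (graph automorphism) ∘ (field automorphism)`
(`Helper18/Tw1`, `TwB`, `TwD`, `TwU3`): `TwTab2`, `HtFacts`, the blocks of the fundamental roots, and the orbits
of the flip on the positive roots.
-/
import Cfsg.Agent.Helper18.Tw1Tab
import Cfsg.Agent.Helper18.TwU3
import Cfsg.Agent.Helper18.TwD

set_option autoImplicit false
set_option maxRecDepth 1000000

namespace Cfsg.Agent.Helper17

open Cfsg Cfsg.Lie Cfsg.Agent.Helper36 Cfsg.Agent.Helper18

theorem e6_twTab2 : TwTab2 chevE6 gautP_E6 e6l where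
  refl := by decide +kernel
  inj := by decide +kernel

theorem e6_htFacts : HtFacts chevE6 where
  chain := by decide +kernel
  neg := by decide +kernel
  pos := by decide +kernel
  comm := by decide +kernel
  unit := by decide +kernel

theorem e6_rho_ht : ∀ r < chevE6.nroots, htR chevE6 (rhoP chevE6 gautP_E6 r) = htR chevE6 r := by
  decide +kernel

/-- The orbits of the flip on the nodes of `E₆` (those with two elements in both orders). -/
def e6Blocks : List (List ℕ) := [[1], [3], [0, 5], [5, 0], [2, 4], [4, 2]]

theorem e6_blocksChk : BlocksChk chevE6 e6l e6Blocks where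
  cover := by decide +kernel
  lt := by decide +kernel
  trans := by decide +kernel
  fix := by decide +kernel
  nodup := by decide +kernel
  comm := by decide +kernel
  rev := by decide +kernel

/-- The positive roots of `E₆`. -/
def e6Pos : List ℕ :=
  [36, 37, 38, 39, 40, 41, 42, 43, 44, 45, 46, 47, 48, 49, 50, 51, 52, 53, 54, 55, 56, 57, 58, 59, 60, 61, 62, 63,
   64, 65, 66, 67, 68, 69, 70, 71]

theorem e6_posRoots : chevE6.posRoots = e6Pos := by decide +kernel

/-- The orbits of the flip on the positive roots of `E₆`, by non-decreasing height. -/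
def e6PosOrbs : List (List ℕ) :=
  [[36, 56], [37, 42], [39], [46], [38, 57], [40, 43], [47], [41, 58], [44], [48, 50], [45, 59], [49, 61], [51],
   [52, 62], [53], [60], [54, 64], [63], [55, 67], [65], [66, 68], [69], [70], [71]]

theorem e6Pos_orb : OrbOK chevE6 gautP_E6 2 e6PosOrbs e6Pos := by decide +kernel

theorem e6Pos_sorted : e6Pos.Pairwise (· < ·) := by decide +kernel

theorem e6Pos_closed : ∀ r ∈ e6Pos, ∀ s ∈ e6Pos, r < s → ∀ c ∈ chevE6.commTerms r s, c.1 ∈ e6Pos := by
  decide +kernel

theorem e6Pos_len : (e6PosOrbs.map List.length).sum = 36 := by decide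

end Cfsg.Agent.Helper17
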