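/-
helper17: in a finite field with `q ^ d` elements (`d ≠ 0`, `1 < q`) exactly `q` elements satisfy `t ^ q = t`.
-/
import Mathlib

set_option autoImplicit false

namespace Cfsg.Agent.Helper17

theorem card_fixed_pow {K : Type*} [Field K] [Fintype K] {q d : ℕ} (hq : 1 < q) (hd : d ≠ 0)
    (hK : Fintype.card K = q ^ d) : Nat.card {t : K // t ^ q = t} = q := by
  classical
  have hq0 : q ≠ 0 := by omega
  have hker : Nat.card (powMonoidHom (q - 1) : Kˣ →* Kˣ).ker = q - 1 := by
    rw [IsCyclic.card_powMonoidHom_ker, Nat.card_eq_fintype_card, Fintype.card_units, hK]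
    apply Nat.gcd_eq_right
    exact Nat.sub_one_dvd_pow_sub_one q d
  have hmem : ∀ u : Kˣ, u ∈ (powMonoidHom (q - 1) : Kˣ →* Kˣ).ker ↔ (u : K) ^ q = u := by
    intro u
    rw [MonoidHom.mem_ker, powMonoidHom_apply]
    have e : (u : K) ^ q = (u : K) ^ (q - 1) * u := by
      rw [← pow_succ]; congr 1; omega
    constructor
    · intro h
      rw [e, ← Units.val_pow_eq_pow_val, h, Units.val_one, one_mul]
    · intro h
      apply Units.ext
      rw [Units.val_pow_eq_pow_val, Units.val_one]
      rw [e] at h
      have h' : (u : K) ^ (q - 1) * u = 1 * u := by rw [h, one_mul]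
      exact mul_right_cancel₀ u.ne_zero h'
  let e : {t : K // t ^ q = t} ≃ Option ↥(powMonoidHom (q - 1) : Kˣ →* Kˣ).ker :=
    { toFun := fun t => if h : t.1 = 0 then none else
        some ⟨Units.mk0 t.1 h, (hmem _).mpr (by rw [Units.val_mk0]; exact t.2)⟩
      invFun := fun o => match o with
        | none => ⟨0, zero_pow hq0⟩
        | some u => ⟨(u.1 : K), (hmem u.1).mp u.2⟩
      left_inv := by
        rintro ⟨t, ht⟩
        by_cases h : t = 0
        · subst h; simp
        · simp [h]
      right_inv := by
        intro o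
        cases o with
        | none => simp
        | some u =>
          have : ((u.1 : Kˣ) : K) ≠ 0 := u.1.ne_zero
          simp [this] }
  rw [Nat.card_congr e, Finite.card_option, hker]
  omega

end Cfsg.Agent.Helper17
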