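/-
helper17: the automorphism `σ = (graph automorphism) ∘ (field endomorphism)` of a Chevalley group
(`twSigma`), its action on the root elements (`exists_twSign`, `twSigma_word`) and the fact that it fixes the
twisted group `twGroup` elementwise (`twGroup_fixed`).
-/
import Cfsg.Agent.Helper17.TwGen
import Cfsg.Agent.Helper17.ChevGraphActGen
import Cfsg.Agent.Helper18.FAut1

set_option autoImplicit false

namespace Cfsg.Agent.Helper17

open Cfsg Cfsg.Lie Cfsg.Agent.Helper36 Cfsg.Agent.Helper18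

section

variable {D : ChevalleyDatum} {F : Type*} [Field F] {η : ℕ → ℕ → ℤ}

/-- `σ`: the field endomorphism `φ` on the matrix entries, followed by the automorphism `α` of the group. -/
noncomputable def twSigma (α : ↥(D.group F) ≃* ↥(D.group F)) (φ : F →+* F) (g : GL D.Idx F) : GL D.Idx F :=
  autGL α (glMap D φ g)

variable (α : ↥(D.group F) ≃* ↥(D.group F)) (φ : F →+* F)

theorem twSigma_mem {a : GL D.Idx F} (ha : a ∈ D.group F) : twSigma α φ a ∈ D.group F := by
  unfold twSigma
  rw [autGL_of_mem α (glMap_group φ ha)]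
  exact (α _).2

theorem twSigma_mul {a b : GL D.Idx F} (ha : a ∈ D.group F) (hb : b ∈ D.group F) :
    twSigma α φ (a * b) = twSigma α φ a * twSigma α φ b := by
  unfold twSigma
  rw [map_mul, autGL_mul α (glMap_group φ ha) (glMap_group φ hb)]

theorem twSigma_one : twSigma α φ (1 : GL D.Idx F) = 1 := by
  unfold twSigma
  rw [map_one, autGL_of_mem α (one_mem _)]
  have e : (⟨1, one_mem _⟩ : ↥(D.group F)) = 1 := rfl
  rw [e, map_one]
  rfl

theorem twSigma_inv {a : GL D.Idx F} (ha : a ∈ D.group F) :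
    twSigma α φ a⁻¹ = (twSigma α φ a)⁻¹ := by
  unfold twSigma
  rw [map_inv, autGL_inv α (glMap_group φ ha)]

theorem glMap_xGL (hX : XAdd D F) (r : ℕ) (t : F) : glMap D φ (xGL hX r t) = xGL hX r (φ t) :=
  Units.ext (by rw [glMap_val, xGL_val, xGL_val, x_map])

theorem wordGL_mem_group (hX : XAdd D F) (w : List (ℕ × F)) : wordGL hX w ∈ D.group F :=
  wordGL_mem hX (D.group F) w fun p _ => Cfsg.Agent.Helper36.xGL_mem_group hX p.1 p.2

/-- `σ` on a word, letter by letter. -/
theorem twSigma_word_map (hX : XAdd D F) (f : ℕ × F → ℕ × F) (w : List (ℕ × F))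
    (h : ∀ p ∈ w, twSigma α φ (xGL hX p.1 p.2) = xGL hX (f p).1 (f p).2) :
    twSigma α φ (wordGL hX w) = wordGL hX (w.map f) := by
  induction w with
  | nil => rw [List.map_nil, wordGL_nil]; exact twSigma_one α φ
  | cons p w ih =>
    rw [List.map_cons, wordGL_cons, wordGL_cons,
      twSigma_mul α φ (Cfsg.Agent.Helper36.xGL_mem_group hX _ _) (wordGL_mem_group hX w),
      h p List.mem_cons_self, ih fun q hq => h q (List.mem_cons_of_mem _ hq)]

/-- The signs of `σ` on the root elements. -/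
theorem exists_twSign (R : NRel D F η) {l : List ℕ} (hOK : symActOK D l = true)
    (hl : ∀ j, j < D.rank → l.getD j 0 < D.rank)
    (h1 : ∀ j, j < D.rank → ∀ t : F,
      autGL α (xGL R.xadd (D.simple j) t) = xGL R.xadd (D.simple (l.getD j 0)) t)
    (h2 : ∀ j, j < D.rank → ∀ t : F,
      autGL α (xGL R.xadd (D.neg (D.simple j)) t) = xGL R.xadd (D.neg (D.simple (l.getD j 0))) t) :
    ∃ ε : ℕ → F, (∀ r, ε r = 1 ∨ ε r = -1) ∧ ∀ r, r < D.nroots → ∀ t : F,
      twSigma α φ (xGL R.xadd r t) = xGL R.xadd (permRootL D l r) (ε r * φ t) := by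
  classical
  have key : ∀ r, ∃ ε : F, (ε = 1 ∨ ε = -1) ∧ (r < D.nroots → ∀ t : F,
      twSigma α φ (xGL R.xadd r t) = xGL R.xadd (permRootL D l r) (ε * φ t)) := by
    intro r
    by_cases hr : r < D.nroots
    · obtain ⟨ε, hε, h⟩ := graph_act R hOK hl α h1 h2 hr
      refine ⟨ε, hε, fun _ t => ?_⟩
      unfold twSigma
      rw [glMap_xGL, h]
    · exact ⟨1, Or.inl rfl, fun h => absurd h hr⟩
  choose ε hε h using key
  exact ⟨ε, hε, h⟩

/-- `σ` on the root elements of the fundamental roots. -/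
theorem twSigma_simple (hX : XAdd D F) {l : List ℕ}
    (h1 : ∀ j, j < D.rank → ∀ t : F,
      autGL α (xGL hX (D.simple j) t) = xGL hX (D.simple (l.getD j 0)) t) {j : ℕ} (hj : j < D.rank) (t : F) :
    twSigma α φ (xGL hX (D.simple j) t) = xGL hX (D.simple (l.getD j 0)) (φ t) := by
  unfold twSigma
  rw [glMap_xGL, h1 j hj]

theorem twSigma_simple_neg (hX : XAdd D F) {l : List ℕ}
    (h2 : ∀ j, j < D.rank → ∀ t : F,
      autGL α (xGL hX (D.neg (D.simple j)) t) = xGL hX (D.neg (D.simple (l.getD j 0))) t) {j : ℕ}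
    (hj : j < D.rank) (t : F) :
    twSigma α φ (xGL hX (D.neg (D.simple j)) t) = xGL hX (D.neg (D.simple (l.getD j 0))) (φ t) := by
  unfold twSigma
  rw [glMap_xGL, h2 j hj]

/-- Reordering the pairwise commuting letters of an orbit word. -/
theorem sw_perm (hX : XAdd D F) {o o' : List ℕ} (hc : OrbComm hX o) (hnd : o.Nodup) (hp : o.Perm o')
    (c : ℕ → F) : wordGL hX (sw D o c) = wordGL hX (sw D o' c) := by
  unfold wordGL sw
  rw [List.map_map, List.map_map]
  apply List.Perm.prod_eq' (hp.map _)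
  rw [List.pairwise_map]
  refine List.Pairwise.imp_of_mem ?_ hnd
  intro i j hi hj hij
  exact (hc i hi j hj hij _ _).1

theorem swN_perm (hX : XAdd D F) {o o' : List ℕ} (hc : OrbComm hX o) (hnd : o.Nodup) (hp : o.Perm o')
    (c : ℕ → F) : wordGL hX (swN D o c) = wordGL hX (swN D o' c) := by
  unfold wordGL swN
  rw [List.map_map, List.map_map]
  apply List.Perm.prod_eq' (hp.map _)
  rw [List.pairwise_map]
  refine List.Pairwise.imp_of_mem ?_ hnd
  intro i j hi hj hij
  exact (hc i hi j hj hij _ _).2.2.2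

theorem twSigma_sw (hX : XAdd D F) {l : List ℕ}
    (h1 : ∀ j, j < D.rank → ∀ t : F,
      autGL α (xGL hX (D.simple j) t) = xGL hX (D.simple (l.getD j 0)) t)
    {o : List ℕ} (ho : ∀ i ∈ o, i < D.rank) (c : ℕ → F) :
    twSigma α φ (wordGL hX (sw D o c)) = wordGL hX (o.map fun i => (D.simple (l.getD i 0), φ (c i))) := by
  induction o with
  | nil => exact twSigma_one α φ
  | cons i o ih =>
    rw [sw_cons, wordGL_cons, List.map_cons, wordGL_cons,
      twSigma_mul α φ (Cfsg.Agent.Helper36.xGL_mem_group hX _ _) (wordGL_mem_group hX _),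
      twSigma_simple α φ hX h1 (ho i List.mem_cons_self), ih fun k hk => ho k (List.mem_cons_of_mem _ hk)]

theorem twSigma_swN (hX : XAdd D F) {l : List ℕ}
    (h2 : ∀ j, j < D.rank → ∀ t : F,
      autGL α (xGL hX (D.neg (D.simple j)) t) = xGL hX (D.neg (D.simple (l.getD j 0))) t)
    {o : List ℕ} (ho : ∀ i ∈ o, i < D.rank) (c : ℕ → F) :
    twSigma α φ (wordGL hX (swN D o c)) =
      wordGL hX (o.map fun i => (D.neg (D.simple (l.getD i 0)), φ (c i))) := by
  induction o with
  | nil => exact twSigma_one α φ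
  | cons i o ih =>
    rw [swN_cons, wordGL_cons, List.map_cons, wordGL_cons,
      twSigma_mul α φ (Cfsg.Agent.Helper36.xGL_mem_group hX _ _) (wordGL_mem_group hX _),
      twSigma_simple_neg α φ hX h2 (ho i List.mem_cons_self),
      ih fun k hk => ho k (List.mem_cons_of_mem _ hk)]

variable {φ} {e : List ℕ} {orbs : List (List ℕ)}

/-- `σ` fixes the twisted group elementwise. -/
theorem twGroup_fixed (R : BRel D F η) {l : List ℕ}
    (h1 : ∀ j, j < D.rank → ∀ t : F,
      autGL α (xGL R.xadd (D.simple j) t) = xGL R.xadd (D.simple (l.getD j 0)) t)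
    (h2 : ∀ j, j < D.rank → ∀ t : F,
      autGL α (xGL R.xadd (D.neg (D.simple j)) t) = xGL R.xadd (D.neg (D.simple (l.getD j 0))) t)
    (hOK : ∀ o ∈ orbs, orbOK D o = true)
    (hperm : ∀ o ∈ orbs, o.Perm (o.map fun i => l.getD i 0))
    (hshift : ∀ o ∈ orbs, ∀ t : F, (o.length = 1 → φ t = t) → ∀ i ∈ o,
      φ (coef φ e t i) = coef φ e t (l.getD i 0))
    {g : GL D.Idx F} (hg : g ∈ twGroup R.xadd φ e orbs) :
    g ∈ D.group F ∧ twSigma α φ g = g := by
  unfold twGroup at hg
  induction hg using Subgroup.closure_induction with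
  | mem x hx =>
    obtain ⟨o, ho, t, ht, hx⟩ := hx
    have hlt := (orbOK_spec (hOK o ho)).2.1
    have hnd := (orbOK_spec (hOK o ho)).1
    have hcm := orbComm_of_OK R (hOK o ho)
    rcases hx with rfl | rfl
    · refine ⟨wordGL_mem_group R.xadd _, ?_⟩
      rw [twSigma_sw α φ R.xadd h1 hlt, sw_perm R.xadd hcm hnd (hperm o ho)]
      unfold sw
      rw [List.map_map]
      congr 1
      exact List.map_congr_left fun i hi => by
        show (D.simple (l.getD i 0), φ (coef φ e t i)) = (D.simple (l.getD i 0), coef φ e t (l.getD i 0))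
        rw [hshift o ho t ht i hi]
    · refine ⟨wordGL_mem_group R.xadd _, ?_⟩
      rw [twSigma_swN α φ R.xadd h2 hlt, swN_perm R.xadd hcm hnd (hperm o ho)]
      unfold swN
      rw [List.map_map]
      congr 1
      exact List.map_congr_left fun i hi => by
        show (D.neg (D.simple (l.getD i 0)), φ (coef φ e t i)) =
          (D.neg (D.simple (l.getD i 0)), coef φ e t (l.getD i 0))
        rw [hshift o ho t ht i hi]
  | one => exact ⟨one_mem _, twSigma_one α φ⟩
  | mul x y _ _ hx hy => exact ⟨mul_mem hx.1 hy.1, by rw [twSigma_mul α φ hx.1 hy.1, hx.2, hy.2]⟩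
  | inv x _ hx => exact ⟨inv_mem hx.1, by rw [twSigma_inv α φ hx.1, hx.2]⟩

end

end Cfsg.Agent.Helper17
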