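/-
helper17: the filtration of the matrices by an additive level `g` on the roots, and the entries of words in
root elements in the row `e_r`, column `h_i`:

* `Lvl D g m M`: the non-zero entries of `M - 1` raise the level by at least `m`;
* `Lvl.mul_entry`: for `0 < m`, the entries of a product at level difference exactly `m` are additive;
* `word_entry`: for a word all of whose roots have level `≥ m = g r > 0`, the entry `(e_r, h_i)` is
  `-A_{p_i, r}` times the sum of the coefficients at `r`.
-/
import Cfsg.Agent.Helper17.ChevAdd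
import Cfsg.Agent.Helper17.ChevPerfect

set_option autoImplicit false

namespace Cfsg.Agent.Helper17

open Cfsg Cfsg.Lie

section

variable {D : ChevalleyDatum} {F : Type*} [Field F] {f g : ℕ → ℤ}

/-- The non-zero entries of `M - 1` raise the level by at least `m`. -/
def Lvl (D : ChevalleyDatum) (g : ℕ → ℤ) (m : ℤ) (M : Matrix D.Idx D.Idx F) : Prop :=
  ∀ a b, (M - 1) a b ≠ 0 → m ≤ idxWt D g a - idxWt D g b

theorem lvl_one (m : ℤ) : Lvl D g m (1 : Matrix D.Idx D.Idx F) := by
  intro a b h
  rw [sub_self] at h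
  exact absurd rfl h

theorem mul_sub_one_eq (M N : Matrix D.Idx D.Idx F) :
    M * N - 1 = (M - 1) + (N - 1) + (M - 1) * (N - 1) := by
  noncomm_ring

theorem Lvl.mul {m : ℤ} (hm : 0 ≤ m) {M N : Matrix D.Idx D.Idx F} (hM : Lvl D g m M) (hN : Lvl D g m N) :
    Lvl D g m (M * N) := by
  intro a b h
  rw [mul_sub_one_eq, Matrix.add_apply, Matrix.add_apply] at h
  by_cases h1 : (M - 1) a b = 0
  · by_cases h2 : (N - 1) a b = 0
    · rw [h1, h2, zero_add, zero_add, Matrix.mul_apply] at h
      obtain ⟨c, -, hc⟩ := Finset.exists_ne_zero_of_sum_ne_zero h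
      have h3 := hM a c (left_ne_zero_of_mul hc)
      have h4 := hN c b (right_ne_zero_of_mul hc)
      omega
    · exact hN a b h2
  · exact hM a b h1

/-- For `0 < m`, entries at level difference exactly `m` are additive on products. -/
theorem Lvl.mul_entry {m : ℤ} (hm : 0 < m) {M N : Matrix D.Idx D.Idx F} (hM : Lvl D g m M)
    (hN : Lvl D g m N) {a b : D.Idx} (hab : idxWt D g a - idxWt D g b = m) :
    (M * N) a b = M a b + N a b := by
  have hne : a ≠ b := by
    rintro rfl
    omega
  have e := congrFun (congrFun (mul_sub_one_eq M N) a) b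
  rw [Matrix.add_apply, Matrix.add_apply, Matrix.sub_apply, Matrix.sub_apply, Matrix.sub_apply,
    Matrix.one_apply_ne hne, sub_zero, sub_zero, sub_zero] at e
  rw [e]
  have h0 : ((M - 1) * (N - 1)) a b = 0 := by
    rw [Matrix.mul_apply]
    apply Finset.sum_eq_zero
    intro c _
    by_contra hc
    have h3 := hM a c (left_ne_zero_of_mul hc)
    have h4 := hN c b (right_ne_zero_of_mul hc)
    omega
  rw [h0, add_zero]

theorem lvl_x (hW : WtFacts D f) (hA : Additive D g) {m : ℤ} {s : ℕ} (hs : s < D.nroots)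
    (h0 : 0 ≤ g s) (hms : m ≤ g s) (t : F) : Lvl D g m (D.x F s t) := by
  intro a b h
  obtain ⟨k, hk, e⟩ := x_sub_one_level hW hA hs t a b h
  rw [e]
  have : (1 : ℤ) ≤ k := by exact_mod_cast hk
  nlinarith

theorem lvl_wordMat (hW : WtFacts D f) (hA : Additive D g) {m : ℤ} (hm : 0 ≤ m) (w : List (ℕ × F))
    (hw : ∀ p ∈ w, p.1 < D.nroots ∧ m ≤ g p.1) : Lvl D g m (D.wordMat F w) := by
  induction w with
  | nil => rw [wordMat_nil]; exact lvl_one m
  | cons p w ih =>
    rw [wordMat_cons]
    obtain ⟨h1, h2⟩ := hw p List.mem_cons_self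
    exact Lvl.mul hm (lvl_x hW hA h1 (le_trans hm h2) h2 _) (ih fun q hq => hw q (List.mem_cons_of_mem _ hq))

/-- The entry of `x_s(t)` in the row `e_r` and the column `h_i`. -/
theorem x_entry_inr_inl {s : ℕ} (hs : s < D.nroots) (t : F) {r : ℕ} (hr : r < D.nroots) (i : Fin D.rank) :
    D.x F s t (Sum.inr ⟨r, hr⟩) (Sum.inl i) = if s = r then -((D.cartan i r : ℤ) : F) * t else 0 := by
  rw [x_eq_xMat hs]
  unfold ChevalleyDatum.xMat ChevalleyDatum.cartan
  by_cases h : s = r
  · subst h
    simp
  · have h' : (⟨r, hr⟩ : Fin D.nroots) ≠ ⟨s, hs⟩ := fun e => h (Fin.mk.inj e).symm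
    simp [h, h']

/-- For a word all of whose roots have level `≥ m = g r > 0`: the entry in the row `e_r` and the column `h_i`
is `-A_{p_i, r}` times the sum of the coefficients at `r`. -/
theorem word_entry (hW : WtFacts D f) (hA : Additive D g) {m : ℤ} (hm : 0 < m) {r : ℕ} (hr : r < D.nroots)
    (hgr : g r = m) (i : Fin D.rank) (w : List (ℕ × F)) (hw : ∀ p ∈ w, p.1 < D.nroots ∧ m ≤ g p.1) :
    D.wordMat F w (Sum.inr ⟨r, hr⟩) (Sum.inl i) =
      -((D.cartan i r : ℤ) : F) * ((w.filter fun p => p.1 = r).map Prod.snd).sum := by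
  induction w with
  | nil =>
    rw [wordMat_nil]
    simp
  | cons p w ih =>
    obtain ⟨h1, h2⟩ := hw p List.mem_cons_self
    have hw' : ∀ q ∈ w, q.1 < D.nroots ∧ m ≤ g q.1 := fun q hq => hw q (List.mem_cons_of_mem _ hq)
    rw [wordMat_cons, Lvl.mul_entry hm (lvl_x hW hA h1 (le_trans hm.le h2) h2 _) (lvl_wordMat hW hA hm.le w hw')
      (by simp only [idxWt]; rw [hgr]; ring), ih hw', x_entry_inr_inl h1 _ hr i]
    by_cases h : p.1 = r
    · rw [if_pos h, List.filter_cons_of_pos (by simpa using h), List.map_cons, List.sum_cons]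
      ring
    · rw [if_neg h, List.filter_cons_of_neg (by simpa using h), zero_add]

/-- The sum of the coefficients at `r` of an ordered product. -/
theorem filter_map_sum {L : List ℕ} (hnd : L.Nodup) (c : ℕ → F) (r : ℕ) :
    (((L.map fun s => (s, c s)).filter fun p => p.1 = r).map Prod.snd).sum = if r ∈ L then c r else 0 := by
  induction L with
  | nil => simp
  | cons s L ih =>
    rw [List.nodup_cons] at hnd
    rw [List.map_cons]
    by_cases h : s = r
    · subst h
      rw [List.filter_cons_of_pos (by simp), List.map_cons, List.sum_cons, ih hnd.2, if_neg hnd.1,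
        if_pos List.mem_cons_self, add_zero]
    · rw [List.filter_cons_of_neg (by simpa using h), ih hnd.2]
      by_cases hr : r ∈ L
      · rw [if_pos hr, if_pos (List.mem_cons_of_mem _ hr)]
      · rw [if_neg hr, if_neg (by
          intro h'
          rcases List.mem_cons.mp h' with h'' | h''
          · exact h h''.symm
          · exact hr h'')]

end

end Cfsg.Agent.Helper17
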