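/-
helper17: the order of `U¹ = U ∩ G¹` for a twisted group `G¹ = twGroup` (see `TwGen`), from a table `rows` of
the orbits of the symmetry on the positive roots: each row `(Ls, k)` is the orbit `w(o)` of the orbit `o` of
fundamental roots with index `k` under the twisted word `w` with indices `Ls`.

`card_posUnipotent_inf_twGroup`: `|U ∩ G¹| = ∏_{rows} |T_row|`, `T_row` the fixed field of `φ` for the orbits
with one root and the whole field otherwise.
-/
import Cfsg.Agent.Helper17.TwGen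
import Cfsg.Agent.Helper17.TwLevel
import Cfsg.Agent.Helper17.ChevGraphAct
import Cfsg.Agent.Helper17.ChevUni

set_option autoImplicit false

namespace Cfsg.Agent.Helper17

open Cfsg Cfsg.Lie Cfsg.Agent.Helper36

/-! ### The table -/

/-- The word in the fundamental reflections of a row. -/
def rowL (orbs : List (List ℕ)) (row : List ℕ × ℕ) : List ℕ := flatO orbs row.1

/-- The orbit of fundamental roots of a row. -/
def rowO (orbs : List (List ℕ)) (row : List ℕ × ℕ) : List ℕ := orbs.getD row.2 []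

/-- The roots of a row. -/
def rowRoots (D : ChevalleyDatum) (orbs : List (List ℕ)) (row : List ℕ × ℕ) : List ℕ :=
  (rowO orbs row).map fun i => wW D (rowL orbs row) (D.simple i)

/-- The level of the first root of a row. -/
def rowHt (D : ChevalleyDatum) (ht : ℕ → ℤ) (orbs : List (List ℕ)) (row : List ℕ × ℕ) : ℤ :=
  ht ((rowRoots D orbs row).headD 0)

/-- The roots of a list of rows. -/
def allRoots (D : ChevalleyDatum) (orbs : List (List ℕ)) (rows : List (List ℕ × ℕ)) : List ℕ :=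
  rows.flatMap (rowRoots D orbs)

/-- The table facts. -/
structure TwTab (D : ChevalleyDatum) (ht : ℕ → ℤ) (l e : List ℕ) (orbs : List (List ℕ))
    (rows : List (List ℕ × ℕ)) : Prop where
  orb_mem : ∀ row ∈ rows, rowO orbs row ∈ orbs
  ne_nil : ∀ row ∈ rows, rowO orbs row ≠ []
  head_e : ∀ row ∈ rows, e.getD ((rowO orbs row).headD 0) 0 = 0
  pos : ∀ row ∈ rows, ∀ r ∈ rowRoots D orbs row, D.IsPosRoot r ∧ ht r = rowHt D ht orbs row
  iter : ∀ row ∈ rows, rowRoots D orbs row =
    List.iterate (permRootL D l) ((rowRoots D orbs row).headD 0) (rowRoots D orbs row).length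
  fix : ∀ row ∈ rows, (rowO orbs row).length = 1 →
    permRootL D l ((rowRoots D orbs row).headD 0) = (rowRoots D orbs row).headD 0
  unit : ∀ r ∈ D.posRoots, ∃ i : Fin D.rank, D.cartan i r = 1 ∨ D.cartan i r = -1
  nodup : (allRoots D orbs rows).Nodup
  sorted : rows.Pairwise fun a b => rowHt D ht orbs a ≤ rowHt D ht orbs b
  cover : ∀ r ∈ D.posRoots, r ∈ allRoots D orbs rows
  ht_perm : ∀ r ∈ D.posRoots, D.IsPosRoot (permRootL D l r) ∧ ht (permRootL D l r) = ht r
  perm_nodup : (D.posRoots.map (permRootL D l)).Nodup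
  ht_pos : ∀ r ∈ D.posRoots, 0 < ht r

/-- The positive roots in the rows `rs`, in increasing order. -/
def rowsList (D : ChevalleyDatum) (orbs : List (List ℕ)) (rs : List (List ℕ × ℕ)) : List ℕ :=
  D.posRoots.filter fun r => decide (r ∈ allRoots D orbs rs)

theorem mem_rowsList {D : ChevalleyDatum} {orbs : List (List ℕ)} {rs : List (List ℕ × ℕ)} {r : ℕ} :
    r ∈ rowsList D orbs rs ↔ D.IsPosRoot r ∧ r ∈ allRoots D orbs rs := by
  unfold rowsList
  rw [List.mem_filter, decide_eq_true_eq, mem_posRoots]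

theorem allRoots_cons (D : ChevalleyDatum) (orbs : List (List ℕ)) (row : List ℕ × ℕ)
    (rs : List (List ℕ × ℕ)) : allRoots D orbs (row :: rs) = rowRoots D orbs row ++ allRoots D orbs rs := by
  simp [allRoots]

theorem mem_allRoots {D : ChevalleyDatum} {orbs : List (List ℕ)} {rs : List (List ℕ × ℕ)} {r : ℕ} :
    r ∈ allRoots D orbs rs ↔ ∃ row ∈ rs, r ∈ rowRoots D orbs row := by
  unfold allRoots
  rw [List.mem_flatMap]

/-! ### Sums of coefficients -/

section sums

variable {F : Type*} [Field F]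

/-- The sum of the coefficients at `ρ x₀` of a word `∏_{x ∈ X} x_{ρ x}(d x)`, `ρ` injective on `X`. -/
theorem filter_map_sum_inj {X : List ℕ} (ρ : ℕ → ℕ) (d : ℕ → F) (hnd : (X.map ρ).Nodup) {x₀ : ℕ}
    (hx : x₀ ∈ X) :
    (((X.map fun x => (ρ x, d x)).filter fun p => p.1 = ρ x₀).map Prod.snd).sum = d x₀ := by
  induction X with
  | nil => simp at hx
  | cons x X ih =>
    rw [List.map_cons, List.nodup_cons] at hnd
    rw [List.map_cons]
    rcases List.mem_cons.mp hx with rfl | hx'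
    · rw [List.filter_cons_of_pos (by simp), List.map_cons, List.sum_cons]
      have h0 : (((X.map fun x => (ρ x, d x)).filter fun p => p.1 = ρ x₀).map Prod.snd).sum = 0 := by
        have : (X.map fun x => (ρ x, d x)).filter (fun p => p.1 = ρ x₀) = [] := by
          rw [List.filter_eq_nil_iff]
          intro p hp
          obtain ⟨y, hy, rfl⟩ := List.mem_map.mp hp
          simp only [decide_eq_true_eq]
          intro h
          exact hnd.1 (h ▸ List.mem_map_of_mem hy)
        rw [this]; rfl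
      rw [h0, add_zero]
    · have hne : ρ x ≠ ρ x₀ := fun h => hnd.1 (h ▸ List.mem_map_of_mem hx')
      rw [List.filter_cons_of_neg (by simpa using hne), ih hnd.2 hx']

/-- Dropping the letters with coefficient `0`. -/
theorem wordMat_filter_zero {D : ChevalleyDatum} (hE : RootElts D F) (L : List ℕ) (hL : ∀ r ∈ L, r < D.nroots)
    (P : ℕ → Bool) (c : ℕ → F) (h : ∀ r ∈ L, P r = false → c r = 0) :
    D.wordMat F (L.map fun r => (r, c r)) = D.wordMat F ((L.filter P).map fun r => (r, c r)) := by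
  induction L with
  | nil => rfl
  | cons r L ih =>
    have ih' := ih (fun s hs => hL s (List.mem_cons_of_mem _ hs)) (fun s hs => h s (List.mem_cons_of_mem _ hs))
    rw [List.map_cons, wordMat_cons]
    by_cases hP : P r = true
    · rw [List.filter_cons_of_pos hP, List.map_cons, wordMat_cons, ih']
    · rw [List.filter_cons_of_neg hP, ih']
      have : c r = 0 := h r List.mem_cons_self (by simpa using hP)
      show D.x F r (c r) * _ = _
      rw [this, hE.x_zero r (hL r List.mem_cons_self), one_mul]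

end sums

/-! ### The count -/

section count

variable {D : ChevalleyDatum} {F : Type*} [Field F] {η : ℕ → ℕ → ℤ} {f ht : ℕ → ℤ}
  {l e : List ℕ} {orbs : List (List ℕ)} {rows : List (List ℕ × ℕ)} {φ : F →+* F}

/-- The parameters of a row: the fixed field of `φ` for an orbit with one root, the whole field otherwise. -/
def RowPar (φ : F →+* F) (orbs : List (List ℕ)) (row : List ℕ × ℕ) : Type _ :=
  {t : F // (rowO orbs row).length = 1 → φ t = t}

/-- The word of the conjugate `n_w (∏ x_{p_i}(c i)) n_w⁻¹`. -/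
def conjWord (D : ChevalleyDatum) (η : ℕ → ℕ → ℤ) (L o : List ℕ) (c : ℕ → F) : List (ℕ × F) :=
  o.map fun i => (wW D L (D.simple i), (eW D η L (D.simple i) : F) * c i)

theorem nW_conj_sw (R : BRel D F η) {L : List ℕ} (hL : ValidW D L) {o : List ℕ} (ho : ∀ i ∈ o, i < D.rank)
    (c : ℕ → F) :
    R.nW L * wordGL R.xadd (sw D o c) * (R.nW L)⁻¹ = wordGL R.xadd (conjWord D η L o c) := by
  induction o with
  | nil => simp [sw, conjWord, wordGL_nil]
  | cons i o ih =>
    have e1 : R.nW L * wordGL R.xadd (sw D (i :: o) c) * (R.nW L)⁻¹ =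
        (R.nW L * xGL R.xadd (D.simple i) (c i) * (R.nW L)⁻¹) *
          (R.nW L * wordGL R.xadd (sw D o c) * (R.nW L)⁻¹) := by
      rw [sw_cons, wordGL_cons]; group
    rw [e1, ih fun k hk => ho k (List.mem_cons_of_mem _ hk),
      R.nW_conj_x hL (R.wf.simple_lt i (ho i List.mem_cons_self))]
    unfold conjWord
    rw [List.map_cons, wordGL_cons]


/-- The hypotheses of the count: the relations, the table, and the automorphism `sg` fixing the twisted group
and acting on the words in root elements through the symmetry `l`, signs `ε` and the field endomorphism `φ`. -/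
structure TwHyp (D : ChevalleyDatum) (F : Type*) [Field F] (η : ℕ → ℕ → ℤ) (f ht : ℕ → ℤ) (l e : List ℕ)
    (orbs : List (List ℕ)) (rows : List (List ℕ × ℕ)) (φ : F →+* F) (sg : GL D.Idx F → GL D.Idx F)
    (ε : ℕ → F) : Prop where
  R : BRel D F η
  hW : WtFacts D f
  hA : Additive D ht
  hE : RootElts D F
  CF : CommFormulaPos D F
  tab : TwTab D ht l e orbs rows
  hOK : ∀ o ∈ orbs, orbOK D o = true
  sgn : ∀ r, ε r = 1 ∨ ε r = -1
  fixed : ∀ g ∈ twGroup R.xadd φ e orbs, sg g = g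
  word : ∀ w : List (ℕ × F), (∀ p ∈ w, p.1 < D.nroots) →
    sg (wordGL R.xadd w) = wordGL R.xadd (w.map fun p => (permRootL D l p.1, ε p.1 * φ p.2))

/-- The elements of the twisted group in the subgroup generated by the root subgroups of the rows `rs`. -/
def twU (hX : XAdd D F) (φ : F →+* F) (e : List ℕ) (orbs : List (List ℕ)) (rs : List (List ℕ × ℕ)) :
    Subgroup (GL D.Idx F) :=
  rootsSubgroup D F (rowsList D orbs rs) ⊓ twGroup hX φ e orbs

variable {sg : GL D.Idx F → GL D.Idx F} {ε : ℕ → F}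

theorem rowsList_sublist (D : ChevalleyDatum) (orbs : List (List ℕ)) (rs : List (List ℕ × ℕ)) :
    (rowsList D orbs rs).Sublist D.posRoots := List.filter_sublist

theorem TwHyp.closed (H : TwHyp D F η f ht l e orbs rows φ sg ε) {rs : List (List ℕ × ℕ)}
    (hsuf : rs <:+ rows) :
    ∀ r ∈ rowsList D orbs rs, ∀ s ∈ rowsList D orbs rs, r < s → ∀ c ∈ D.commTerms r s,
      c.1 ∈ rowsList D orbs rs := by
  obtain ⟨pre, hpre⟩ := hsuf
  intro r hr s hs hrs c hc
  have hrp := (mem_rowsList.mp hr).1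
  have hsp := (mem_rowsList.mp hs).1
  have hcpos : c.1 ∈ D.posRoots :=
    posRoots_closed H.hW r (mem_posRoots.mpr hrp) s (mem_posRoots.mpr hsp) hrs c hc
  obtain ⟨-, h1, h2, h3⟩ := commTerms_add H.hW H.hA hrp.1 hsp.1 c hc
  have hr0 := H.tab.ht_pos r (mem_posRoots.mpr hrp)
  have hs0 := H.tab.ht_pos s (mem_posRoots.mpr hsp)
  have h1' : (1 : ℤ) ≤ c.2.2.1 := by exact_mod_cast h1
  have h2' : (1 : ℤ) ≤ c.2.2.2 := by exact_mod_cast h2
  have hgt : ht r < ht c.1 := by rw [h3]; nlinarith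
  obtain ⟨rowr, hrowr, hr3⟩ := mem_allRoots.mp (mem_rowsList.mp hr).2
  have hrowr' : rowr ∈ rows := by rw [← hpre]; exact List.mem_append_right _ hrowr
  have hhtr := (H.tab.pos rowr hrowr' r hr3).2
  have hcall := H.tab.cover c.1 hcpos
  rw [← hpre] at hcall
  unfold allRoots at hcall
  rw [List.flatMap_append, List.mem_append] at hcall
  refine mem_rowsList.mpr ⟨mem_posRoots.mp hcpos, ?_⟩
  rcases hcall with h4 | h4
  · exfalso
    obtain ⟨rowc, hrowc, hc3⟩ := List.mem_flatMap.mp h4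
    have hrowc' : rowc ∈ rows := by rw [← hpre]; exact List.mem_append_left _ hrowc
    have hhtc := (H.tab.pos rowc hrowc' c.1 hc3).2
    have hsorted := H.tab.sorted
    rw [← hpre, List.pairwise_append] at hsorted
    have h5 := hsorted.2.2 rowc hrowc rowr hrowr
    omega
  · exact h4

theorem TwHyp.exists_coeff (H : TwHyp D F η f ht l e orbs rows φ sg ε) {rs : List (List ℕ × ℕ)}
    (hsuf : rs <:+ rows) {g : GL D.Idx F} (hg : g ∈ rootsSubgroup D F (rowsList D orbs rs)) :
    ∃ c : ℕ → F, (g : Matrix D.Idx D.Idx F) = D.wordMat F ((rowsList D orbs rs).map fun r => (r, c r)) :=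
  Cfsg.Agent.Helper17.exists_coeff H.hW H.hE H.CF _ ((posRoots_sorted (D := D)).sublist (rowsList_sublist D orbs rs))
    (fun _ hr => (mem_rowsList.mp hr).1) (H.closed hsuf) g hg

/-- The entry `(e_r, h_i)` of an ordered product over a list of positive roots of level `≥ m = ht r`. -/
theorem TwHyp.entry (H : TwHyp D F η f ht l e orbs rows φ sg ε) {S : List ℕ} (hsub : S.Sublist D.posRoots)
    {m : ℤ} (hm : 0 < m) (hS : ∀ s ∈ S, m ≤ ht s) {r : ℕ} (hr : r < D.nroots) (hgr : ht r = m)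
    (i : Fin D.rank) (c : ℕ → F) :
    D.wordMat F (S.map fun s => (s, c s)) (Sum.inr ⟨r, hr⟩) (Sum.inl i) =
      -((D.cartan i r : ℤ) : F) * (if r ∈ S then c r else 0) := by
  rw [word_entry H.hW H.hA hm hr hgr i _ (by
    intro p hp
    obtain ⟨s, hs, rfl⟩ := List.mem_map.mp hp
    exact ⟨(mem_posRoots.mp (hsub.subset hs)).1, hS s hs⟩),
    filter_map_sum ((posRoots_nodup (D := D)).sublist hsub)]

/-- The coefficients of an element fixed by `sg`. -/
theorem TwHyp.sigma_coeff (H : TwHyp D F η f ht l e orbs rows φ sg ε) {S : List ℕ}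
    (hsub : S.Sublist D.posRoots) {m : ℤ} (hm : 0 < m) (hS : ∀ s ∈ S, m ≤ ht s)
    {a : GL D.Idx F} {c : ℕ → F}
    (ha : (a : Matrix D.Idx D.Idx F) = D.wordMat F (S.map fun s => (s, c s))) (hfix : sg a = a)
    {s₀ : ℕ} (hs₀ : s₀ ∈ S) (hρ : permRootL D l s₀ ∈ S) (hht : ht s₀ = m) :
    c (permRootL D l s₀) = ε s₀ * φ (c s₀) := by
  have hpos : ∀ s ∈ S, D.IsPosRoot s := fun s hs => mem_posRoots.mp (hsub.subset hs)
  have hρpos := H.tab.ht_perm s₀ (hsub.subset hs₀)
  obtain ⟨i, hi⟩ := H.tab.unit (permRootL D l s₀) (mem_posRoots.mpr hρpos.1)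
  have ea : a = wordGL H.R.xadd (S.map fun s => (s, c s)) := Units.ext (by rw [ha, wordGL_val])
  have e1 := H.word (S.map fun s => (s, c s)) (by
    intro p hp
    obtain ⟨s, hs, rfl⟩ := List.mem_map.mp hp
    exact (hpos s hs).1)
  rw [← ea, hfix, List.map_map] at e1
  have e2 : (a : Matrix D.Idx D.Idx F) (Sum.inr ⟨permRootL D l s₀, hρpos.1.1⟩) (Sum.inl i) =
      D.wordMat F (S.map fun s => (permRootL D l s, ε s * φ (c s)))
        (Sum.inr ⟨permRootL D l s₀, hρpos.1.1⟩) (Sum.inl i) := by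
    conv_lhs => rw [e1, wordGL_val]
    rfl
  rw [ha, H.entry hsub hm hS hρpos.1.1 (hρpos.2.trans hht) i c, if_pos hρ,
    word_entry H.hW H.hA hm hρpos.1.1 (hρpos.2.trans hht) i _ (by
      intro p hp
      obtain ⟨s, hs, rfl⟩ := List.mem_map.mp hp
      have := H.tab.ht_perm s (hsub.subset hs)
      exact ⟨this.1.1, by rw [this.2]; exact hS s hs⟩),
    filter_map_sum_inj (permRootL D l) (fun s => ε s * φ (c s)) (H.tab.perm_nodup.sublist (hsub.map _)) hs₀] at e2
  have hA0 : -((D.cartan i (permRootL D l s₀) : ℤ) : F) ≠ 0 := by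
    rcases hi with h | h <;> rw [h] <;> simp
  exact mul_left_cancel₀ hA0 e2


/-- The conjugate `n_w (∏ x_{p_i}(φ^{e_i} t)) n_w⁻¹` of a row. -/
noncomputable def rowElt (R : BRel D F η) (φ : F →+* F) (e : List ℕ) (orbs : List (List ℕ))
    (row : List ℕ × ℕ) (t : F) : GL D.Idx F :=
  R.nW (rowL orbs row) * wordGL R.xadd (sw D (rowO orbs row) (coef φ e t)) * (R.nW (rowL orbs row))⁻¹

theorem TwHyp.rowElt_eq (H : TwHyp D F η f ht l e orbs rows φ sg ε) {row : List ℕ × ℕ} (hrow : row ∈ rows)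
    (t : F) :
    rowElt H.R φ e orbs row t =
      wordGL H.R.xadd (conjWord D η (rowL orbs row) (rowO orbs row) (coef φ e t)) :=
  nW_conj_sw H.R (validW_flatO H.hOK row.1) (orbOK_spec (H.hOK _ (H.tab.orb_mem row hrow))).2.1 _

theorem TwHyp.rowElt_mem (H : TwHyp D F η f ht l e orbs rows φ sg ε) {row : List ℕ × ℕ} (hrow : row ∈ rows)
    {t : F} (ht' : (rowO orbs row).length = 1 → φ t = t) :
    rowElt H.R φ e orbs row t ∈ twGroup H.R.xadd φ e orbs :=
  mul_mem (mul_mem (nW_flat_mem H.R H.hOK row.1) (sw_mem_twGroup H.R.xadd (H.tab.orb_mem row hrow) ht'))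
    (inv_mem (nW_flat_mem H.R H.hOK row.1))

theorem TwHyp.card_step (H : TwHyp D F η f ht l e orbs rows φ sg ε) {row : List ℕ × ℕ}
    {rs' : List (List ℕ × ℕ)} (hsuf : (row :: rs') <:+ rows) :
    Nat.card ↥(twU H.R.xadd φ e orbs (row :: rs')) =
      Nat.card (RowPar φ orbs row) * Nat.card ↥(twU H.R.xadd φ e orbs rs') := by
  classical
  have hsuf' : rs' <:+ rows := (List.suffix_cons row rs').trans hsuf
  obtain ⟨pre, hpre⟩ := id hsuf
  have hrow : row ∈ rows := by rw [← hpre]; simp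
  have hrs'sub : ∀ r' ∈ rs', r' ∈ rows := fun r' hr' => by rw [← hpre]; simp [hr']
  -- the row
  have hL : ValidW D (rowL orbs row) := validW_flatO H.hOK row.1
  have ho : rowO orbs row ∈ orbs := H.tab.orb_mem row hrow
  have holt : ∀ i ∈ rowO orbs row, i < D.rank := (orbOK_spec (H.hOK _ ho)).2.1
  obtain ⟨i₀, o', ho'⟩ := List.exists_cons_of_ne_nil (H.tab.ne_nil row hrow)
  have hroots : rowRoots D orbs row = (rowO orbs row).map fun i => wW D (rowL orbs row) (D.simple i) := rfl
  have hi₀ : i₀ ∈ rowO orbs row := by rw [ho']; exact List.mem_cons_self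
  obtain ⟨r₀, hr₀⟩ : ∃ r₀, r₀ = wW D (rowL orbs row) (D.simple i₀) := ⟨_, rfl⟩
  have hhead : (rowRoots D orbs row).headD 0 = r₀ := by rw [hroots, ho', hr₀]; rfl
  have hheadO : (rowO orbs row).headD 0 = i₀ := by rw [ho']; rfl
  obtain ⟨m, hm_def⟩ : ∃ m, m = rowHt D ht orbs row := ⟨_, rfl⟩
  have hmr₀ : ht r₀ = m := by rw [hm_def]; unfold rowHt; rw [hhead]
  have hr₀mem : r₀ ∈ rowRoots D orbs row := by
    rw [hroots, hr₀]; exact List.mem_map_of_mem hi₀
  have hrowpos : ∀ r ∈ rowRoots D orbs row, D.IsPosRoot r ∧ ht r = m := by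
    intro r hr; rw [hm_def]; exact H.tab.pos row hrow r hr
  have hr₀pos : D.IsPosRoot r₀ := (hrowpos r₀ hr₀mem).1
  have hm : 0 < m := by rw [← hmr₀]; exact H.tab.ht_pos r₀ (mem_posRoots.mpr hr₀pos)
  -- disjointness and order of the rows
  have hnd : (rowRoots D orbs row ++ allRoots D orbs rs').Nodup := by
    have h1 := H.tab.nodup
    rw [← hpre] at h1
    unfold allRoots at h1
    rw [List.flatMap_append] at h1
    have h2 := (List.nodup_append.mp h1).2.1
    rwa [List.flatMap_cons] at h2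
  have hndrow : (rowRoots D orbs row).Nodup := (List.nodup_append.mp hnd).1
  have hdisj : ∀ r ∈ rowRoots D orbs row, r ∉ allRoots D orbs rs' := fun r hr hr' =>
    (List.nodup_append.mp hnd).2.2 r hr r hr' rfl
  have hsorted : ∀ row' ∈ rs', m ≤ rowHt D ht orbs row' := by
    have h1 := H.tab.sorted
    rw [← hpre, List.pairwise_append] at h1
    rw [hm_def]
    exact fun row' h' => (List.pairwise_cons.mp h1.2.1).1 row' h'
  -- the lists of roots
  obtain ⟨S, hS_def⟩ : ∃ S, S = rowsList D orbs (row :: rs') := ⟨_, rfl⟩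
  obtain ⟨S', hS'_def⟩ : ∃ S', S' = rowsList D orbs rs' := ⟨_, rfl⟩
  have hSsub : S.Sublist D.posRoots := by rw [hS_def]; exact rowsList_sublist D orbs _
  have hS'sub : S'.Sublist D.posRoots := by rw [hS'_def]; exact rowsList_sublist D orbs _
  have hSht : ∀ s ∈ S, m ≤ ht s := by
    intro s hs
    rw [hS_def] at hs
    obtain ⟨-, hs2⟩ := mem_rowsList.mp hs
    rw [allRoots_cons, List.mem_append] at hs2
    rcases hs2 with h1 | h1
    · rw [(hrowpos s h1).2]
    · obtain ⟨row', hrow', hs3⟩ := mem_allRoots.mp h1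
      rw [(H.tab.pos row' (hrs'sub row' hrow') s hs3).2]
      exact hsorted row' hrow'
  have hS'S : ∀ s ∈ S', s ∈ S := by
    intro s hs
    rw [hS'_def] at hs
    rw [hS_def]
    obtain ⟨h1, h2⟩ := mem_rowsList.mp hs
    exact mem_rowsList.mpr ⟨h1, by rw [allRoots_cons]; exact List.mem_append_right _ h2⟩
  have hS'ht : ∀ s ∈ S', m ≤ ht s := fun s hs => hSht s (hS'S s hs)
  have hrowS : ∀ r ∈ rowRoots D orbs row, r ∈ S := by
    intro r hr
    rw [hS_def]
    exact mem_rowsList.mpr ⟨(hrowpos r hr).1, by rw [allRoots_cons]; exact List.mem_append_left _ hr⟩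
  have hr₀S' : r₀ ∉ S' := by
    rw [hS'_def]
    exact fun h => hdisj r₀ hr₀mem (mem_rowsList.mp h).2
  have hSpos : ∀ s ∈ S, s < D.nroots := fun s hs => (mem_posRoots.mp (hSsub.subset hs)).1
  have hS'pos : ∀ s ∈ S', s < D.nroots := fun s hs => (mem_posRoots.mp (hS'sub.subset hs)).1
  have hSS'le : rootsSubgroup D F S' ≤ rootsSubgroup D F S := by
    unfold rootsSubgroup
    apply Subgroup.closure_mono
    rintro g ⟨r, hr, t, hg⟩
    exact ⟨r, hS'S r hr, t, hg⟩
  have hcoefS : ∀ g ∈ rootsSubgroup D F S, ∃ c : ℕ → F,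
      (g : Matrix D.Idx D.Idx F) = D.wordMat F (S.map fun r => (r, c r)) := by
    intro g hg; rw [hS_def] at hg ⊢; exact H.exists_coeff hsuf hg
  have hcoefS' : ∀ g ∈ rootsSubgroup D F S', ∃ c : ℕ → F,
      (g : Matrix D.Idx D.Idx F) = D.wordMat F (S'.map fun r => (r, c r)) := by
    intro g hg; rw [hS'_def] at hg ⊢; exact H.exists_coeff hsuf' hg
  have hlvl : ∀ g ∈ rootsSubgroup D F S, Lvl D ht m (g : Matrix D.Idx D.Idx F) := by
    intro g hg
    obtain ⟨c, hc⟩ := hcoefS g hg
    rw [hc]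
    refine lvl_wordMat H.hW H.hA hm.le _ ?_
    intro p hp
    obtain ⟨s, hs, rfl⟩ := List.mem_map.mp hp
    exact ⟨hSpos s hs, hSht s hs⟩
  -- the coordinate at `r₀`
  obtain ⟨i', hi'⟩ := H.tab.unit r₀ (mem_posRoots.mpr hr₀pos)
  obtain ⟨A, hA_def⟩ : ∃ A : F, A = -((D.cartan i' r₀ : ℤ) : F) := ⟨_, rfl⟩
  have hA0 : A ≠ 0 := by
    rw [hA_def]
    rcases hi' with h | h <;> rw [h] <;> simp
  have hκmul : ∀ g ∈ rootsSubgroup D F S, ∀ g' ∈ rootsSubgroup D F S,
      ((g * g' : GL D.Idx F) : Matrix D.Idx D.Idx F) (Sum.inr ⟨r₀, hr₀pos.1⟩) (Sum.inl i') =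
        (g : Matrix D.Idx D.Idx F) (Sum.inr ⟨r₀, hr₀pos.1⟩) (Sum.inl i') +
          (g' : Matrix D.Idx D.Idx F) (Sum.inr ⟨r₀, hr₀pos.1⟩) (Sum.inl i') := by
    intro g hg g' hg'
    rw [Units.val_mul]
    exact Lvl.mul_entry hm (hlvl g hg) (hlvl g' hg') (by simp only [idxWt]; rw [hmr₀]; ring)
  have hκS : ∀ (g : GL D.Idx F) (c : ℕ → F),
      (g : Matrix D.Idx D.Idx F) = D.wordMat F (S.map fun r => (r, c r)) →
      (g : Matrix D.Idx D.Idx F) (Sum.inr ⟨r₀, hr₀pos.1⟩) (Sum.inl i') = A * c r₀ := by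
    intro g c hc
    rw [hc, H.entry hSsub hm hSht hr₀pos.1 hmr₀ i' c, if_pos (hrowS r₀ hr₀mem), hA_def]
  have hκS' : ∀ g ∈ rootsSubgroup D F S',
      (g : Matrix D.Idx D.Idx F) (Sum.inr ⟨r₀, hr₀pos.1⟩) (Sum.inl i') = 0 := by
    intro g hg
    obtain ⟨c, hc⟩ := hcoefS' g hg
    rw [hc, H.entry hS'sub hm hS'ht hr₀pos.1 hmr₀ i' c, if_neg hr₀S', mul_zero]
  -- the elements of the row
  obtain ⟨ε₀, hε₀⟩ : ∃ ε₀ : F, ε₀ = (eW D η (rowL orbs row) (D.simple i₀) : F) := ⟨_, rfl⟩
  have hsi₀ : D.simple i₀ < D.nroots := H.R.wf.simple_lt i₀ (holt i₀ hi₀)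
  have hε₀sq : ε₀ * ε₀ = 1 := by rw [hε₀]; exact H.R.eW_mul_self hL hsi₀
  have hε₀0 : ε₀ ≠ 0 := fun h => by rw [h, mul_zero] at hε₀sq; exact zero_ne_one hε₀sq
  have hφε₀ : φ ε₀ = ε₀ := by rw [hε₀, map_intCast]
  have hyS : ∀ t : F, rowElt H.R φ e orbs row t ∈ rootsSubgroup D F S := by
    intro t
    rw [H.rowElt_eq hrow]
    apply wordGL_mem
    intro p hp
    obtain ⟨i, hi, rfl⟩ := List.mem_map.mp hp
    exact Subgroup.subset_closure ⟨_, hrowS _ (by rw [hroots]; exact List.mem_map_of_mem hi), _, xGL_val _ _ _⟩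
  have hκy : ∀ t : F, ((rowElt H.R φ e orbs row t : GL D.Idx F) : Matrix D.Idx D.Idx F)
      (Sum.inr ⟨r₀, hr₀pos.1⟩) (Sum.inl i') = A * (ε₀ * t) := by
    intro t
    rw [H.rowElt_eq hrow, wordGL_val]
    unfold conjWord
    rw [word_entry H.hW H.hA hm hr₀pos.1 hmr₀ i' _ (by
      intro p hp
      obtain ⟨i, hi, rfl⟩ := List.mem_map.mp hp
      have h1 := hrowpos _ (by rw [hroots]; exact List.mem_map_of_mem hi)
      exact ⟨h1.1.1, h1.2.ge⟩), hr₀,
      filter_map_sum_inj (fun i => wW D (rowL orbs row) (D.simple i))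
        (fun i => (eW D η (rowL orbs row) (D.simple i) : F) * coef φ e t i) (by rw [← hroots]; exact hndrow) hi₀,
      ← hr₀, ← hA_def, ← hε₀]
    have : coef φ e t i₀ = t := by
      unfold coef
      rw [← hheadO, H.tab.head_e row hrow]
      rfl
    rw [this]
  -- the bijection
  have hmemU : ∀ a : GL D.Idx F, a ∈ twU H.R.xadd φ e orbs (row :: rs') ↔
      a ∈ rootsSubgroup D F S ∧ a ∈ twGroup H.R.xadd φ e orbs := by
    intro a
    rw [hS_def]
    unfold twU
    exact Subgroup.mem_inf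
  have hmemU' : ∀ a : GL D.Idx F, a ∈ twU H.R.xadd φ e orbs rs' ↔
      a ∈ rootsSubgroup D F S' ∧ a ∈ twGroup H.R.xadd φ e orbs := by
    intro a
    rw [hS'_def]
    unfold twU
    exact Subgroup.mem_inf
  let Ψ : RowPar φ orbs row × ↥(twU H.R.xadd φ e orbs rs') → ↥(twU H.R.xadd φ e orbs (row :: rs')) :=
    fun p => ⟨rowElt H.R φ e orbs row p.1.1 * p.2.1,
      (hmemU _).mpr ⟨mul_mem (hyS _) (hSS'le ((hmemU' _).mp p.2.2).1),
        mul_mem (H.rowElt_mem hrow p.1.2) ((hmemU' _).mp p.2.2).2⟩⟩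
  have hinj : Function.Injective Ψ := by
    rintro ⟨⟨t, ht1⟩, ⟨a, ha⟩⟩ ⟨⟨t', ht1'⟩, ⟨a', ha'⟩⟩ hΨ
    have hΨ' : rowElt H.R φ e orbs row t * a = rowElt H.R φ e orbs row t' * a' := congrArg Subtype.val hΨ
    have ha1 : a ∈ rootsSubgroup D F S' := ((hmemU' a).mp ha).1
    have ha1' : a' ∈ rootsSubgroup D F S' := ((hmemU' a').mp ha').1
    have e1 : ((rowElt H.R φ e orbs row t * a : GL D.Idx F) : Matrix D.Idx D.Idx F)
        (Sum.inr ⟨r₀, hr₀pos.1⟩) (Sum.inl i') =
        ((rowElt H.R φ e orbs row t' * a' : GL D.Idx F) : Matrix D.Idx D.Idx F)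
          (Sum.inr ⟨r₀, hr₀pos.1⟩) (Sum.inl i') := by rw [hΨ']
    rw [hκmul _ (hyS t) _ (hSS'le ha1), hκmul _ (hyS t') _ (hSS'le ha1'), hκS' a ha1, hκS' a' ha1', hκy, hκy,
      add_zero, add_zero] at e1
    have htt : t = t' := mul_left_cancel₀ hε₀0 (mul_left_cancel₀ hA0 e1)
    subst htt
    have haa : a = a' := mul_left_cancel hΨ'
    subst haa
    rfl
  have hsurj : Function.Surjective Ψ := by
    rintro ⟨g, hg⟩
    obtain ⟨hg1, hg2⟩ := (hmemU g).mp hg
    obtain ⟨c, hc⟩ := hcoefS g hg1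
    -- the parameter
    have ht₀ : (rowO orbs row).length = 1 → φ (ε₀ * c r₀) = ε₀ * c r₀ := by
      intro hlen
      have hfix := H.tab.fix row hrow hlen
      rw [hhead] at hfix
      have h1 := H.sigma_coeff hSsub hm hSht hc (H.fixed g hg2) (hrowS r₀ hr₀mem)
        (by rw [hfix]; exact hrowS r₀ hr₀mem) hmr₀
      rw [hfix] at h1
      -- the sign at `r₀` is `1`
      have hy1 := H.rowElt_mem hrow (t := (1 : F)) (fun _ => map_one φ)
      obtain ⟨c1, hc1⟩ := hcoefS _ (hyS 1)
      have h2 := H.sigma_coeff hSsub hm hSht hc1 (H.fixed _ hy1) (hrowS r₀ hr₀mem)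
        (by rw [hfix]; exact hrowS r₀ hr₀mem) hmr₀
      rw [hfix] at h2
      have h3 : c1 r₀ = ε₀ := by
        have h4 := hκS _ c1 hc1
        rw [hκy, mul_one] at h4
        exact (mul_left_cancel₀ hA0 h4).symm
      rw [h3, hφε₀] at h2
      have h5 : ε r₀ = 1 := by
        have : 1 * ε₀ = ε r₀ * ε₀ := by rw [one_mul]; exact h2
        exact (mul_right_cancel₀ hε₀0 this).symm
      rw [h5, one_mul] at h1
      rw [map_mul, hφε₀, ← h1]
    -- the remainder
    obtain ⟨a, ha_def⟩ : ∃ a, a = (rowElt H.R φ e orbs row (ε₀ * c r₀))⁻¹ * g := ⟨_, rfl⟩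
    have hga : g = rowElt H.R φ e orbs row (ε₀ * c r₀) * a := by rw [ha_def]; group
    have haS : a ∈ rootsSubgroup D F S := by rw [ha_def]; exact mul_mem (inv_mem (hyS _)) hg1
    have haG : a ∈ twGroup H.R.xadd φ e orbs := by
      rw [ha_def]; exact mul_mem (inv_mem (H.rowElt_mem hrow ht₀)) hg2
    obtain ⟨c', hc'⟩ := hcoefS a haS
    have hc'0 : c' r₀ = 0 := by
      have h1 := hκmul _ (hyS (ε₀ * c r₀)) a haS
      rw [← hga, hκS g c hc, hκy, hκS a c' hc', ← mul_assoc ε₀, hε₀sq, one_mul] at h1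
      have h2 : A * c' r₀ = 0 := by linear_combination -h1
      rcases mul_eq_zero.mp h2 with h3 | h3
      · exact absurd h3 hA0
      · exact h3
    have hiter := H.tab.iter row hrow
    rw [hhead] at hiter
    have hc'k : ∀ k, k < (rowRoots D orbs row).length → c' ((permRootL D l)^[k] r₀) = 0 := by
      intro k
      induction k with
      | zero => intro _; exact hc'0
      | succ k ih =>
        intro hk
        have hk' : k < (rowRoots D orbs row).length := Nat.lt_of_succ_lt hk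
        have hmem1 : (permRootL D l)^[k] r₀ ∈ rowRoots D orbs row := by
          rw [hiter, List.mem_iterate]; exact ⟨k, hk', rfl⟩
        have hmem2 : (permRootL D l)^[k + 1] r₀ ∈ rowRoots D orbs row := by
          rw [hiter, List.mem_iterate]; exact ⟨k + 1, hk, rfl⟩
        rw [Function.iterate_succ_apply'] at hmem2 ⊢
        rw [H.sigma_coeff hSsub hm hSht hc' (H.fixed a haG) (hrowS _ hmem1) (hrowS _ hmem2)
          (hrowpos _ hmem1).2, ih hk', map_zero, mul_zero]
    have hc'row : ∀ r ∈ rowRoots D orbs row, c' r = 0 := by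
      intro r hr
      rw [hiter, List.mem_iterate] at hr
      obtain ⟨k, hk, rfl⟩ := hr
      exact hc'k k hk
    have hfilter : S.filter (fun r => decide (r ∈ allRoots D orbs rs')) = S' := by
      rw [hS_def, hS'_def]
      unfold rowsList
      rw [List.filter_filter]
      apply List.filter_congr
      intro r _
      rw [allRoots_cons]
      by_cases h : r ∈ allRoots D orbs rs'
      · simp [h]
      · simp [h]
    have haS' : a ∈ rootsSubgroup D F S' := by
      have h1 := wordMat_filter_zero H.hE S hSpos (fun r => decide (r ∈ allRoots D orbs rs')) c' (by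
        intro r hr hP
        rw [decide_eq_false_iff_not] at hP
        rw [hS_def] at hr
        have h2 := (mem_rowsList.mp hr).2
        rw [allRoots_cons, List.mem_append] at h2
        rcases h2 with h3 | h3
        · exact hc'row r h3
        · exact absurd h3 hP)
      rw [hfilter] at h1
      obtain ⟨g', hg'1, hg'2⟩ := exists_wordGL H.hE S' (S'.map fun r => (r, c' r)) (by
        intro p hp
        obtain ⟨s, hs, rfl⟩ := List.mem_map.mp hp
        exact hs)
      have : a = g' := Units.ext (by rw [hc', h1, hg'2])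
      rw [this]; exact hg'1
    exact ⟨(⟨ε₀ * c r₀, ht₀⟩, ⟨a, (hmemU' a).mpr ⟨haS', haG⟩⟩), Subtype.ext hga.symm⟩
  rw [← Nat.card_prod]
  exact (Nat.card_congr (Equiv.ofBijective Ψ ⟨hinj, hsurj⟩)).symm

/-- The order of `U ∩ G¹`. -/
theorem TwHyp.card_posUnipotent_inf (H : TwHyp D F η f ht l e orbs rows φ sg ε) :
    Nat.card ↥(D.posUnipotent F ⊓ twGroup H.R.xadd φ e orbs) =
      (rows.map fun row => Nat.card (RowPar φ orbs row)).prod := by
  have key : ∀ rs : List (List ℕ × ℕ), rs <:+ rows →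
      Nat.card ↥(twU H.R.xadd φ e orbs rs) = (rs.map fun row => Nat.card (RowPar φ orbs row)).prod := by
    intro rs
    induction rs with
    | nil =>
      intro _
      have h1 : rowsList D orbs [] = [] := by
        unfold rowsList allRoots
        rw [List.filter_eq_nil_iff]
        intro r _
        simp
      have h2 : twU H.R.xadd φ e orbs [] = ⊥ := by
        unfold twU
        rw [h1, rootsSubgroup_nil, bot_inf_eq]
      rw [h2, List.map_nil, List.prod_nil]
      exact Subgroup.card_bot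
    | cons row rs' ih =>
      intro hsuf
      rw [H.card_step hsuf, ih ((List.suffix_cons row rs').trans hsuf), List.map_cons, List.prod_cons]
  have h1 : rowsList D orbs rows = D.posRoots := by
    unfold rowsList
    rw [List.filter_eq_self]
    intro r hr
    rw [decide_eq_true_eq]
    exact H.tab.cover r hr
  have h2 := key rows List.suffix_rfl
  unfold twU at h2
  rw [h1, ← posUnipotent_eq] at h2
  exact h2

end count

end Cfsg.Agent.Helper17
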