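/-
helper17: the order of `U ∩ G¹` for the twisted groups (`card_twisted_unipotent`), assembled from `TwCount`
(the count), `TwSigma` (the automorphism `σ`) and the tables; `htW`: the height of a root from the packed
coordinate tables of `ChevCoord`.
-/
import Cfsg.Agent.Helper17.TwCount
import Cfsg.Agent.Helper17.TwSigma
import Cfsg.Agent.Helper17.TwFixCard
import Cfsg.Agent.Helper17.ChevCoord
import Cfsg.Agent.Helper17.ChevUniMem

set_option autoImplicit false

namespace Cfsg.Agent.Helper17

open Cfsg Cfsg.Lie Cfsg.Agent.Helper36 Cfsg.Agent.Helper18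

/-- The height of a root: the sum of its coordinates in the packed tables `Ws`. -/
def htW (D : ChevalleyDatum) (Ws : List ℕ) (r : ℕ) : ℤ :=
  ((List.range D.rank).map fun k => wt (Ws.getD k 0) r).sum

theorem additive_list_sum {D : ChevalleyDatum} (L : List ℕ) (ω : ℕ → ℕ → ℤ)
    (h : ∀ k ∈ L, Additive D (ω k)) : Additive D (fun r => (L.map fun k => ω k r).sum) := by
  induction L with
  | nil => exact ⟨fun _ _ => by simp, fun _ _ _ _ _ _ _ _ => by simp⟩
  | cons k L ih =>
    have h1 := h k List.mem_cons_self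
    have h2 := ih fun j hj => h j (List.mem_cons_of_mem _ hj)
    constructor
    · intro r hr
      have e1 := h1.neg r hr
      have e2 := h2.neg r hr
      simp only [List.map_cons, List.sum_cons] at e2 ⊢
      rw [e1, e2]; ring
    · intro r s d u c hr hs hd
      have e1 := h1.chain r s d u c hr hs hd
      have e2 := h2.chain r s d u c hr hs hd
      simp only [List.map_cons, List.sum_cons] at e2 ⊢
      rw [e1, e2]; ring

theorem htW_additive {D : ChevalleyDatum} {Ws : List ℕ}
    (hC : RootCoords D (fun k r => wt (Ws.getD k 0) r)) : Additive D (htW D Ws) :=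
  additive_list_sum (List.range D.rank) (fun k r => wt (Ws.getD k 0) r)
    fun k hk => hC.add k (List.mem_range.mp hk)

section

variable {D : ChevalleyDatum} {F : Type*} [Field F]

/-- The order of `U ∩ G¹` for a twisted group. -/
theorem card_twisted_unipotent (hD : D ∈ [chevG2, chevB2, chevD4, chevF4, chevE6, chevE7, chevE8])
    (φ : F →+* F) (e l : List ℕ) (orbs : List (List ℕ)) (rows : List (List ℕ × ℕ)) (Ws : List ℕ)
    (hC : RootCoords D (fun k r => wt (Ws.getD k 0) r))
    (tab : TwTab D (htW D Ws) l e orbs rows)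
    (hOK : ∀ o ∈ orbs, orbOK D o = true)
    (hsym : symActOK D l = true) (hl : ∀ j, j < D.rank → l.getD j 0 < D.rank)
    (α : ↥(D.group F) ≃* ↥(D.group F))
    (hα : ∀ (g : ↥(D.group F)) (i : ℕ) (t : F), i < D.rank →
      (((g : GL D.Idx F) : Matrix D.Idx D.Idx F) = D.x F (D.simple i) t →
        ((α g : GL D.Idx F) : Matrix D.Idx D.Idx F) = D.x F (D.simple (l.getD i 0)) t) ∧
      (((g : GL D.Idx F) : Matrix D.Idx D.Idx F) = D.x F (D.neg (D.simple i)) t →
        ((α g : GL D.Idx F) : Matrix D.Idx D.Idx F) = D.x F (D.neg (D.simple (l.getD i 0))) t))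
    (hperm : ∀ o ∈ orbs, o.Perm (o.map fun i => l.getD i 0))
    (hshift : ∀ o ∈ orbs, ∀ t : F, (o.length = 1 → φ t = t) → ∀ i ∈ o,
      φ (coef φ e t i) = coef φ e t (l.getD i 0)) :
    Nat.card ↥(D.posUnipotent F ⊓ twGroup (bRel_of_mem (F := F) hD).xadd φ e orbs) =
      (rows.map fun row => Nat.card (RowPar φ orbs row)).prod := by
  obtain ⟨f, hW⟩ := wtFacts_of_mem hD
  have R := bRel_of_mem (F := F) hD
  have h1 : ∀ j, j < D.rank → ∀ t : F,
      autGL α (xGL R.xadd (D.simple j) t) = xGL R.xadd (D.simple (l.getD j 0)) t := by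
    intro j hj t
    rw [autGL_of_mem α (Cfsg.Agent.Helper36.xGL_mem_group R.xadd _ _)]
    apply Units.ext
    rw [(hα ⟨xGL R.xadd (D.simple j) t, Cfsg.Agent.Helper36.xGL_mem_group R.xadd _ _⟩ j t hj).1 rfl]
    rfl
  have h2 : ∀ j, j < D.rank → ∀ t : F,
      autGL α (xGL R.xadd (D.neg (D.simple j)) t) = xGL R.xadd (D.neg (D.simple (l.getD j 0))) t := by
    intro j hj t
    rw [autGL_of_mem α (Cfsg.Agent.Helper36.xGL_mem_group R.xadd _ _)]
    apply Units.ext
    rw [(hα ⟨xGL R.xadd (D.neg (D.simple j)) t, Cfsg.Agent.Helper36.xGL_mem_group R.xadd _ _⟩ j t hj).2 rfl]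
    rfl
  obtain ⟨ε, hε, hx⟩ := exists_twSign α φ R.toNRel hsym hl h1 h2
  have H : TwHyp D F (etaN D) f (htW D Ws) l e orbs rows φ (twSigma α φ) ε :=
    { R := R
      hW := hW
      hA := htW_additive hC
      hE := rootElts_of_mem hD
      CF := commFormulaPos_of_full hW fun r s hr hs a b => R.cf r hr s hs a b
      tab := tab
      hOK := hOK
      sgn := hε
      fixed := fun g hg => (twGroup_fixed α R h1 h2 hOK hperm hshift hg).2
      word := fun w hw => twSigma_word_map α φ R.xadd _ w fun p hp => hx p.1 (hw p hp) p.2 }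
  exact H.card_posUnipotent_inf

/-- The number of parameters of a row. -/
theorem card_rowPar [Fintype F] {φ : F →+* F} {q d : ℕ} (hφ : ∀ t, φ t = t ^ q) (hq : 1 < q) (hd : d ≠ 0)
    (hK : Fintype.card F = q ^ d) (orbs : List (List ℕ)) (row : List ℕ × ℕ) :
    Nat.card (RowPar φ orbs row) = if (rowO orbs row).length = 1 then q else q ^ d := by
  unfold RowPar
  by_cases h : (rowO orbs row).length = 1
  · rw [if_pos h, ← card_fixed_pow hq hd hK]
    exact Nat.card_congr (Equiv.subtypeEquivRight fun t => by simp [h, hφ])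
  · rw [if_neg h, ← hK, ← Nat.card_eq_fintype_card]
    exact Nat.card_congr (Equiv.subtypeUnivEquiv fun t h' => absurd h' h)

theorem prod_ite_pow {α : Type*} (rows : List α) (P : α → Prop) [DecidablePred P] (q d : ℕ) :
    (rows.map fun r => if P r then q else q ^ d).prod = q ^ (rows.map fun r => if P r then 1 else d).sum := by
  induction rows with
  | nil => simp
  | cons r rows ih =>
    rw [List.map_cons, List.prod_cons, List.map_cons, List.sum_cons, pow_add, ih]
    by_cases h : P r
    · rw [if_pos h, if_pos h, pow_one]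
    · rw [if_neg h, if_neg h]

end

end Cfsg.Agent.Helper17
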