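/-
helper17: the table of the orbits of the diagram symmetry on the positive roots of `E₆` (for `²E₆`).
-/
import Cfsg.Agent.Helper17.TwMain
import Cfsg.Agent.Helper17.TwE6
import Cfsg.Agent.Helper18.GAutTab

set_option autoImplicit false

namespace Cfsg.Agent.Helper17

open Cfsg Cfsg.Lie Cfsg.Agent.Helper36 Cfsg.Agent.Helper18

/-- The symmetry `p₁ ↔ p₆`, `p₃ ↔ p₅` of the diagram `E₆` (indices from `0`). -/
def lE6 : List ℕ := [5, 1, 4, 3, 2, 0]

/-- The orbits on the positive roots of `E₆`: twisted word (indices of orbits) and orbit of fundamental roots. -/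
def rowsE6 : List (List ℕ × ℕ) := [([], 0), ([], 1), ([], 2), ([], 3), ([1], 0), ([3], 2), ([1], 3), ([3], 1),
  ([1, 3], 2), ([0, 1], 3), ([3, 1], 0), ([0, 1, 3], 2), ([3, 1, 3], 2), ([2, 3], 1), ([1, 3, 1], 0),
  ([3, 0, 1, 3], 2), ([2, 3, 1], 0), ([1, 3, 0, 1, 3], 2), ([2, 1, 3, 1], 0), ([3, 1, 3, 0, 1, 3], 2),
  ([2, 3, 1, 3, 0, 1, 3], 2), ([3, 2, 1, 3, 1], 0), ([1, 3, 2, 1, 3, 1], 0), ([0, 1, 3, 2, 1, 3, 1], 0)]

theorem twTab_E6 : TwTab chevE6 (htW chevE6 coordWE6) lE6 eE6 orbsE6 rowsE6 where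
  orb_mem := by decide +kernel
  ne_nil := by decide +kernel
  head_e := by decide +kernel
  pos := by decide +kernel
  iter := by decide +kernel
  fix := by decide +kernel
  unit := by decide +kernel
  nodup := by decide +kernel
  sorted := by decide +kernel
  cover := by decide +kernel
  ht_perm := by decide +kernel
  perm_nodup := by decide +kernel
  ht_pos := by decide +kernel

end Cfsg.Agent.Helper17
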