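/-
helper17: `²E₆(q)` inside the fixed points of `σ = (flip of E₆) ∘ (t ↦ t^q)` on `E₆(q²)`, with helper18's `twSig`:

* `twGroup_le_twFix`: a twisted group `twGroup` is fixed by `σ` (generic);
* `e6_fixedU_le`: the elements of `U` fixed by `σ` lie in `²E₆(q)` (by the orders, `S1086` and `card_fixed_roots`);
* `e6_fixed_le`: the elements of `E₆(K)` fixed by `σ` lie in `²E₆(q)` as soon as those of `H` do
  (helper18's `fixed_bruhat`).
-/
import Cfsg.Agent.Helper17.E6SigTab
import Cfsg.Agent.Helper17.TwE6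
import Cfsg.Agent.Helper17.TwSigma
import Cfsg.Agent.Helper17.TwFixCard
import Cfsg.Agent.Helper17.TwField
import Cfsg.Agent.Helper18.WAll
import Cfsg.Agent.Helper17.ChevDiagCard
import Cfsg.Agent.Helper17.ChevUniMem
import Cfsg.Agent.Helper17.ChevH
import Cfsg.Agent.S1086

set_option autoImplicit false

namespace Cfsg.Agent.Helper17

open Cfsg Cfsg.Lie Cfsg.Agent.Helper36 Cfsg.Agent.Helper18

section generic

variable {D : ChevalleyDatum} {K : Type*} [Field K] {P Q : ℕ} {l l' : ℕ → ℕ} {η : ℕ → ℕ → ℤ}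
  (hinv : chkInv (D.rank + D.nroots) P Q = true) (hroots : chkGRoots D P = true)
  (φ : K →+* K) (T : Cfsg.Agent.Helper18.TwTab D P l l')

include hroots T in
theorem twSig_sw (hX : XAdd D K) {o : List ℕ} (ho : ∀ i ∈ o, i < D.rank)
    (hsl : ∀ i < D.rank, D.simple i < D.nroots) (c : ℕ → K) :
    twSig D (spGL K D P Q hinv) φ (wordGL hX (sw D o c)) =
      wordGL hX (o.map fun i => (D.simple (l i), φ (c i))) := by
  rw [twSig_wordGL hinv hroots φ hX (by
    intro p hp
    obtain ⟨i, hi, rfl⟩ := List.mem_map.mp hp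
    exact hsl i (ho i hi))]
  unfold sw
  rw [List.map_map]
  congr 1
  apply List.map_congr_left
  intro i hi
  have h1 := T.simp i (ho i hi)
  simp only [Function.comp_apply]
  rw [h1.1, h1.2, Int.cast_one, one_mul]

include hroots T in
theorem twSig_swN (hX : XAdd D K) {o : List ℕ} (ho : ∀ i ∈ o, i < D.rank)
    (hsl : ∀ i < D.rank, D.simple i < D.nroots) (hnl : ∀ s < D.nroots, D.neg s < D.nroots) (c : ℕ → K) :
    twSig D (spGL K D P Q hinv) φ (wordGL hX (swN D o c)) =
      wordGL hX (o.map fun i => (D.neg (D.simple (l i)), φ (c i))) := by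
  rw [twSig_wordGL hinv hroots φ hX (by
    intro p hp
    obtain ⟨i, hi, rfl⟩ := List.mem_map.mp hp
    exact hnl _ (hsl i (ho i hi)))]
  unfold swN
  rw [List.map_map]
  congr 1
  apply List.map_congr_left
  intro i hi
  have h1 := T.simp i (ho i hi)
  have h2 := T.negr _ (hsl i (ho i hi))
  simp only [Function.comp_apply]
  rw [h2.1, h2.2, h1.1, h1.2, Int.cast_one, one_mul]

include hroots T in
/-- `σ` fixes a twisted group elementwise. -/
theorem twGroup_le_twFix (R : BRel D K η) {e : List ℕ} {orbs : List (List ℕ)}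
    (hOK : ∀ o ∈ orbs, orbOK D o = true)
    (hperm : ∀ o ∈ orbs, o.Perm (o.map l))
    (hshift : ∀ o ∈ orbs, ∀ t : K, (o.length = 1 → φ t = t) → ∀ i ∈ o,
      φ (coef φ e t i) = coef φ e t (l i))
    {g : GL D.Idx K} (hg : g ∈ twGroup R.xadd φ e orbs) :
    twSig D (spGL K D P Q hinv) φ g = g := by
  have hle : twGroup R.xadd φ e orbs ≤ twFix D (spGL K D P Q hinv) φ := by
    unfold twGroup
    rw [Subgroup.closure_le]
    rintro x ⟨o, ho, t, ht, hx⟩
    have hlt := (orbOK_spec (hOK o ho)).2.1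
    have hnd := (orbOK_spec (hOK o ho)).1
    have hcm := orbComm_of_OK R (hOK o ho)
    apply mem_twFix.mpr
    rcases hx with rfl | rfl
    · rw [twSig_sw hinv hroots φ T R.xadd hlt R.wf.simple_lt, sw_perm R.xadd hcm hnd (hperm o ho)]
      unfold sw
      rw [List.map_map]
      congr 1
      exact List.map_congr_left fun i hi => by
        show (D.simple (l i), φ (coef φ e t i)) = (D.simple (l i), coef φ e t (l i))
        rw [hshift o ho t ht i hi]
    · rw [twSig_swN hinv hroots φ T R.xadd hlt R.wf.simple_lt R.wf.neg_lt,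
        swN_perm R.xadd hcm hnd (hperm o ho)]
      unfold swN
      rw [List.map_map]
      congr 1
      exact List.map_congr_left fun i hi => by
        show (D.neg (D.simple (l i)), φ (coef φ e t i)) = (D.neg (D.simple (l i)), coef φ e t (l i))
        rw [hshift o ho t ht i hi]
  exact mem_twFix.mp (hle hg)

end generic

/-! ### `E₆` -/

theorem e6_hn : 0 < chevE6.nroots := by decide

theorem e6_hinv : chkInv (chevE6.rank + chevE6.nroots) gautP_E6 gautQ_E6 = true := by
  have h := gaut_chk_E6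
  unfold chkGAll at h
  rw [Bool.and_eq_true] at h
  exact h.1

theorem e6R (K : Type*) [Field K] : BRel chevE6 K (etaN chevE6) := bRel_of_mem hD_E6

theorem e6_hH (K : Type*) [Field K] : chevE6.diagonalSubgroup K = torus chevE6 K :=
  diagonalSubgroup_eq_torus (simpleOK_of_mem hD_E6) (hDiag_of_mem hD_E6) (rootElts_of_mem hD_E6)

theorem e6_perm : ∀ o ∈ orbsE6, o.Perm (o.map e6l) := by decide

section

variable {K : Type*} [Field K]

/-- `σ`: the flip of `E₆` followed by the field endomorphism `f`. -/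
noncomputable abbrev e6Sig (f : K →+* K) : GL chevE6.Idx K →* GL chevE6.Idx K :=
  twSig chevE6 (spGL K chevE6 gautP_E6 gautQ_E6 e6_hinv) f

theorem e6_shift (φ : K →+* K) (hφ2 : ∀ t : K, φ (φ t) = t) :
    ∀ o ∈ orbsE6, ∀ t : K, (o.length = 1 → φ t = t) → ∀ i ∈ o,
      φ (coef φ eE6 t i) = coef φ eE6 t (e6l i) := by
  intro o ho t ht i hi
  simp only [orbsE6, List.mem_cons, List.not_mem_nil, or_false] at ho
  rcases ho with rfl | rfl | rfl | rfl
  · simp only [List.mem_cons, List.not_mem_nil, or_false] at hi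
    subst hi
    exact ht rfl
  · simp only [List.mem_cons, List.not_mem_nil, or_false] at hi
    subst hi
    exact ht rfl
  · simp only [List.mem_cons, List.not_mem_nil, or_false] at hi
    rcases hi with rfl | rfl
    · rfl
    · exact hφ2 t
  · simp only [List.mem_cons, List.not_mem_nil, or_false] at hi
    rcases hi with rfl | rfl
    · rfl
    · exact hφ2 t

/-- `²E₆` is fixed by `σ`. -/
theorem e6_tw_fixed (φ : K →+* K) (hφ2 : ∀ t : K, φ (φ t) = t) {g : GL chevE6.Idx K}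
    (hg : g ∈ twGroup (e6R K).xadd φ eE6 orbsE6) : e6Sig φ g = g :=
  twGroup_le_twFix e6_hinv gaut_roots_E6 φ Cfsg.Agent.Helper18.twTab_E6 (e6R K) orbOK_E6 e6_perm
    (e6_shift φ hφ2) hg

theorem e6_n_eq (i : ℕ) : (e6R K).n i = nGL (e6R K).xadd (chevE6.simple i) 1 := rfl

theorem e6_n_comm : Commute ((e6R K).n 0) ((e6R K).n 5) ∧ Commute ((e6R K).n 2) ((e6R K).n 4) := by
  rw [e6_n_eq, e6_n_eq, e6_n_eq, e6_n_eq]
  exact ⟨nGL_comm (e6R K).xadd (orbComm_of_OK (e6R K) (orbOK_E6 [0, 5] (by decide))) (by decide)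
      (by decide) (by decide) 1 1,
    nGL_comm (e6R K).xadd (orbComm_of_OK (e6R K) (orbOK_E6 [2, 4] (by decide))) (by decide)
      (by decide) (by decide) 1 1⟩

theorem e6_nW_rev : (e6R K).nW [5, 0] = (e6R K).nW [0, 5] ∧ (e6R K).nW [4, 2] = (e6R K).nW [2, 4] := by
  obtain ⟨c05, c24⟩ := e6_n_comm (K := K)
  simp only [NRel.nW_cons, NRel.nW_nil, mul_one]
  exact ⟨c05.eq.symm, c24.eq.symm⟩

theorem e6_hnfix : ∀ b ∈ e6Blocks, (e6R K).nW (b.map e6l) = (e6R K).nW b := by
  obtain ⟨r05, r24⟩ := e6_nW_rev (K := K)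
  intro b hb
  simp only [e6Blocks, List.mem_cons, List.not_mem_nil, or_false] at hb
  rcases hb with rfl | rfl | rfl | rfl | rfl | rfl
  · rfl
  · rfl
  · have e : [0, 5].map e6l = [5, 0] := by decide
    rw [e, r05]
  · have e : [5, 0].map e6l = [0, 5] := by decide
    rw [e, r05]
  · have e : [2, 4].map e6l = [4, 2] := by decide
    rw [e, r24]
  · have e : [4, 2].map e6l = [2, 4] := by decide
    rw [e, r24]

theorem e6_nW_block_mem (φ : K →+* K) :
    ∀ b ∈ e6Blocks, (e6R K).nW b ∈ twGroup (e6R K).xadd φ eE6 orbsE6 := by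
  obtain ⟨r05, r24⟩ := e6_nW_rev (K := K)
  intro b hb
  simp only [e6Blocks, List.mem_cons, List.not_mem_nil, or_false] at hb
  rcases hb with rfl | rfl | rfl | rfl | rfl | rfl
  · exact nW_orb_mem (e6R K) (by decide) (orbOK_E6 _ (by decide))
  · exact nW_orb_mem (e6R K) (by decide) (orbOK_E6 _ (by decide))
  · exact nW_orb_mem (e6R K) (by decide) (orbOK_E6 _ (by decide))
  · rw [r05]; exact nW_orb_mem (e6R K) (by decide) (orbOK_E6 _ (by decide))
  · exact nW_orb_mem (e6R K) (by decide) (orbOK_E6 _ (by decide))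
  · rw [r24]; exact nW_orb_mem (e6R K) (by decide) (orbOK_E6 _ (by decide))

theorem e6_nW_flatten_mem (φ : K →+* K) (bs : List (List ℕ)) (hbs : ∀ b ∈ bs, b ∈ e6Blocks) :
    (e6R K).nW bs.flatten ∈ twGroup (e6R K).xadd φ eE6 orbsE6 := by
  induction bs with
  | nil => rw [List.flatten_nil, NRel.nW_nil]; exact one_mem _
  | cons b bs ih =>
    rw [List.flatten_cons, NRel.nW_append]
    exact mul_mem (e6_nW_block_mem φ b (hbs b List.mem_cons_self))
      (ih (fun c hc => hbs c (List.mem_cons_of_mem _ hc)))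

variable [Fintype K] {q : ℕ} (hq : IsPrimePow q) (hK : Fintype.card K = q ^ 2)
  (φ : K →+* K) (hφ : ∀ t : K, φ t = t ^ q)

include hK hφ in
theorem e6_phi2 (t : K) : φ (φ t) = t := by
  rw [hφ, hφ]
  have : (t ^ q) ^ q = t ^ (q ^ 2) := by ring
  rw [this, ← hK, FiniteField.pow_card]

include hq hK hφ in
theorem e6_card_fix : Nat.card {t : K // φ t = t} = q := by
  rw [← card_fixed_pow hq.one_lt (by norm_num : (2 : ℕ) ≠ 0) hK]
  exact Nat.card_congr (Equiv.subtypeEquivRight fun t => by rw [hφ])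

include hq hK hφ in
/-- The number of elements of `U` fixed by `σ`. -/
theorem e6_card_U :
    Nat.card {u : GL chevE6.Idx K // u ∈ chevE6.posUnipotent K ∧ e6Sig φ u = u} = q ^ 36 := by
  obtain ⟨fw, hW⟩ := wtFacts_of_mem hD_E6
  rw [posUnipotent_eq, e6_posRoots, ← e6Pos_len]
  exact card_fixed_roots hW (rootElts_of_mem hD_E6) (e6R K).xadd e6_htFacts e6_hinv gaut_roots_E6 φ
    Cfsg.Agent.Helper18.twTab_E6 e6_rho_ht e6_twTab2.inj (e6R K).cf
    (commFormulaPos_of_full hW (fun r s hr hs h1 h2 => (e6R K).cf r hr s hs h1 h2)) 2 q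
    (e6_card_fix hq hK φ hφ) (by rw [Nat.card_eq_fintype_card, hK])
    (fun t => e6_phi2 hK φ hφ t)
    _ _ e6Pos_orb e6Pos_sorted
    (fun s hs => by rw [← e6_posRoots, mem_posRoots] at hs; exact hs)
    e6Pos_closed

include hq hK hφ in
/-- The elements of `U` fixed by `σ` lie in `²E₆`. -/
theorem e6_fixedU_le {u : GL chevE6.Idx K} (hu : u ∈ chevE6.posUnipotent K) (hfix : e6Sig φ u = u) :
    u ∈ twGroup (e6R K).xadd φ eE6 orbsE6 := by
  have hle : chevE6.posUnipotent K ⊓ twGroup (e6R K).xadd φ eE6 orbsE6 ≤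
      chevE6.posUnipotent K ⊓ twFix chevE6 (spGL K chevE6 gautP_E6 gautQ_E6 e6_hinv) φ :=
    inf_le_inf_left _ fun g hg => mem_twFix.mpr (e6_tw_fixed φ (e6_phi2 hK φ hφ) hg)
  have h1 : Nat.card ↥(chevE6.posUnipotent K ⊓ twGroup (e6R K).xadd φ eE6 orbsE6) = q ^ 36 := by
    rw [← twistedE6_eq q φ hφ (e6R K).xadd]
    exact Cfsg.Agent.S1086.result hq hK
  have h2 : Nat.card ↥(chevE6.posUnipotent K ⊓
      twFix chevE6 (spGL K chevE6 gautP_E6 gautQ_E6 e6_hinv) φ) = q ^ 36 := by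
    rw [← e6_card_U hq hK φ hφ]
    exact Nat.card_congr (Equiv.subtypeEquivRight fun u => Iff.rfl)
  have heq := Subgroup.eq_of_le_of_card_ge hle (by rw [h1, h2])
  have hmem : u ∈ chevE6.posUnipotent K ⊓ twFix chevE6 (spGL K chevE6 gautP_E6 gautQ_E6 e6_hinv) φ :=
    ⟨hu, mem_twFix.mpr hfix⟩
  rw [← heq] at hmem
  exact hmem.2

include hq hK hφ in
/-- The elements of `E₆(K)` fixed by `σ` lie in `²E₆`, if those of `H` do. -/
theorem e6_fixed_le
    (hH1 : ∀ a ∈ chevE6.diagonalSubgroup K, e6Sig φ a = a → a ∈ twGroup (e6R K).xadd φ eE6 orbsE6)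
    {g : GL chevE6.Idx K} (hg : g ∈ chevE6.group K) (hfix : e6Sig φ g = g) :
    g ∈ twGroup (e6R K).xadd φ eE6 orbsE6 := by
  obtain ⟨bs, hbs, b, hb, hbfix, u, hu, hufix, rfl⟩ :=
    fixed_bruhat (e6R K) e6_hn (weylOK_E6 (e6R K).wf e6_hn) e6_hinv gaut_roots_E6 φ
      Cfsg.Agent.Helper18.twTab_E6 e6_twTab2
      (blocks_of_checks Cfsg.Agent.Helper18.twTab_E6 e6_twTab2 (e6R K).wf e6_hn e6_blocksChk)
      e6_hnfix (e6_hH K) hg hfix
  obtain ⟨u₁, hu₁, hu₁fix, a, ha, hafix, rfl⟩ :=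
    fixed_borel (e6R K) e6_hinv gaut_roots_E6 φ Cfsg.Agent.Helper18.twTab_E6 (e6_hH K) hb hbfix
  have hv : ValidW chevE6 bs.flatten := validW_flatten e6_blocksChk.lt hbs
  have huU : u ∈ chevE6.posUnipotent K :=
    unGens_le_posUnipotent _ (Subgroup.closure_mono ((e6R K).umGens_subset hv) hu)
  exact mul_mem (mul_mem (mul_mem (e6_fixedU_le hq hK φ hφ hu₁ hu₁fix) (hH1 a ha hafix))
    (e6_nW_flatten_mem φ bs hbs)) (e6_fixedU_le hq hK φ hφ huU hufix)

end

end Cfsg.Agent.Helper17
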