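/-
helper17: the elements of the torus of `E₆(K)` fixed by `σ = (flip) ∘ f`, `f` an involution of `K`:

* `e6_ker_iff`: the kernel of the parametrisation of the torus is `{(ω, 1, ω², 1, ω, ω²) : ω³ = 1}`;
* `e6_fixedH_param`: the fixed elements are the `torusHom (a, b, c, d, f c, f a)` with `f b = b`, `f d = d`;
* `e6_fixedH_le`: they lie in `²E₆`;
* `e6_card_fixedH`: `gcd(3, q + 1)` times their number is `(q² - 1)² (q - 1)²`.
-/
import Cfsg.Agent.Helper17.E6SigFix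
import Cfsg.Agent.Helper17.ChevSmith
import Cfsg.Agent.Helper18.TwD4d

set_option autoImplicit false

namespace Cfsg.Agent.Helper17

open Cfsg Cfsg.Lie Cfsg.Agent.Helper36 Cfsg.Agent.Helper18

theorem e6_cartan :
    chevE6.cartan 0 (chevE6.simple 0) = 2 ∧ chevE6.cartan 0 (chevE6.simple 1) = 0 ∧
    chevE6.cartan 0 (chevE6.simple 2) = -1 ∧ chevE6.cartan 0 (chevE6.simple 3) = 0 ∧
    chevE6.cartan 0 (chevE6.simple 4) = 0 ∧ chevE6.cartan 0 (chevE6.simple 5) = 0 ∧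
    chevE6.cartan 1 (chevE6.simple 0) = 0 ∧ chevE6.cartan 1 (chevE6.simple 1) = 2 ∧
    chevE6.cartan 1 (chevE6.simple 2) = 0 ∧ chevE6.cartan 1 (chevE6.simple 3) = -1 ∧
    chevE6.cartan 1 (chevE6.simple 4) = 0 ∧ chevE6.cartan 1 (chevE6.simple 5) = 0 ∧
    chevE6.cartan 2 (chevE6.simple 0) = -1 ∧ chevE6.cartan 2 (chevE6.simple 1) = 0 ∧
    chevE6.cartan 2 (chevE6.simple 2) = 2 ∧ chevE6.cartan 2 (chevE6.simple 3) = -1 ∧
    chevE6.cartan 2 (chevE6.simple 4) = 0 ∧ chevE6.cartan 2 (chevE6.simple 5) = 0 ∧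
    chevE6.cartan 3 (chevE6.simple 0) = 0 ∧ chevE6.cartan 3 (chevE6.simple 1) = -1 ∧
    chevE6.cartan 3 (chevE6.simple 2) = -1 ∧ chevE6.cartan 3 (chevE6.simple 3) = 2 ∧
    chevE6.cartan 3 (chevE6.simple 4) = -1 ∧ chevE6.cartan 3 (chevE6.simple 5) = 0 ∧
    chevE6.cartan 4 (chevE6.simple 0) = 0 ∧ chevE6.cartan 4 (chevE6.simple 1) = 0 ∧
    chevE6.cartan 4 (chevE6.simple 2) = 0 ∧ chevE6.cartan 4 (chevE6.simple 3) = -1 ∧
    chevE6.cartan 4 (chevE6.simple 4) = 2 ∧ chevE6.cartan 4 (chevE6.simple 5) = -1 ∧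
    chevE6.cartan 5 (chevE6.simple 0) = 0 ∧ chevE6.cartan 5 (chevE6.simple 1) = 0 ∧
    chevE6.cartan 5 (chevE6.simple 2) = 0 ∧ chevE6.cartan 5 (chevE6.simple 3) = 0 ∧
    chevE6.cartan 5 (chevE6.simple 4) = -1 ∧ chevE6.cartan 5 (chevE6.simple 5) = 2 := by
  decide +kernel

theorem e6_simples : chevE6.simple 0 = 56 ∧ chevE6.simple 1 = 46 ∧ chevE6.simple 2 = 42 ∧
    chevE6.simple 3 = 39 ∧ chevE6.simple 4 = 37 ∧ chevE6.simple 5 = 36 := by decide +kernel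

section

variable {K : Type*} [Field K]

/-- The six parameters of the torus. -/
def e6Z (z0 z1 z2 z3 z4 z5 : Kˣ) : Fin chevE6.rank → Kˣ :=
  fun i => if i.val = 0 then z0 else if i.val = 1 then z1 else if i.val = 2 then z2 else
    if i.val = 3 then z3 else if i.val = 4 then z4 else z5

theorem e6Z_eta (z : Fin chevE6.rank → Kˣ) :
    z = e6Z (z ⟨0, by decide⟩) (z ⟨1, by decide⟩) (z ⟨2, by decide⟩) (z ⟨3, by decide⟩)
      (z ⟨4, by decide⟩) (z ⟨5, by decide⟩) := by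
  funext i
  obtain ⟨i, hi⟩ := i
  have hi' : i < 6 := hi
  interval_cases i <;> rfl

theorem e6Z_mul (a0 a1 a2 a3 a4 a5 b0 b1 b2 b3 b4 b5 : Kˣ) :
    e6Z a0 a1 a2 a3 a4 a5 * e6Z b0 b1 b2 b3 b4 b5 =
      e6Z (a0 * b0) (a1 * b1) (a2 * b2) (a3 * b3) (a4 * b4) (a5 * b5) := by
  funext i
  obtain ⟨i, hi⟩ := i
  have hi' : i < 6 := hi
  interval_cases i <;> rfl

theorem e6Z_one : e6Z (1 : Kˣ) 1 1 1 1 1 = 1 := by
  funext i
  obtain ⟨i, hi⟩ := i
  have hi' : i < 6 := hi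
  interval_cases i <;> rfl

theorem e6Z_inv (a0 a1 a2 a3 a4 a5 : Kˣ) :
    (e6Z a0 a1 a2 a3 a4 a5)⁻¹ = e6Z a0⁻¹ a1⁻¹ a2⁻¹ a3⁻¹ a4⁻¹ a5⁻¹ := by
  funext i
  obtain ⟨i, hi⟩ := i
  have hi' : i < 6 := hi
  interval_cases i <;> rfl

theorem e6_mu (z : ℕ → Kˣ) :
    mu chevE6.rank (fun a b => chevE6.cartan a (chevE6.simple b)) z 0 = z 0 ^ 2 * (z 2)⁻¹ ∧
    mu chevE6.rank (fun a b => chevE6.cartan a (chevE6.simple b)) z 1 = z 1 ^ 2 * (z 3)⁻¹ ∧
    mu chevE6.rank (fun a b => chevE6.cartan a (chevE6.simple b)) z 2 = (z 0)⁻¹ * z 2 ^ 2 * (z 3)⁻¹ ∧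
    mu chevE6.rank (fun a b => chevE6.cartan a (chevE6.simple b)) z 3 =
      (z 1)⁻¹ * (z 2)⁻¹ * z 3 ^ 2 * (z 4)⁻¹ ∧
    mu chevE6.rank (fun a b => chevE6.cartan a (chevE6.simple b)) z 4 = (z 3)⁻¹ * z 4 ^ 2 * (z 5)⁻¹ ∧
    mu chevE6.rank (fun a b => chevE6.cartan a (chevE6.simple b)) z 5 = (z 4)⁻¹ * z 5 ^ 2 := by
  have hr : List.range chevE6.rank = [0, 1, 2, 3, 4, 5] := by decide
  obtain ⟨a00, a01, a02, a03, a04, a05, a10, a11, a12, a13, a14, a15, a20, a21, a22, a23, a24, a25,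
    a30, a31, a32, a33, a34, a35, a40, a41, a42, a43, a44, a45, a50, a51, a52, a53, a54, a55⟩ := e6_cartan
  unfold mu
  rw [hr]
  refine ⟨?_, ?_, ?_, ?_, ?_, ?_⟩ <;>
    simp only [List.map_cons, List.map_nil, List.prod_cons, List.prod_nil, mul_one, a00, a01, a02, a03, a04,
      a05, a10, a11, a12, a13, a14, a15, a20, a21, a22, a23, a24, a25, a30, a31, a32, a33, a34, a35, a40,
      a41, a42, a43, a44, a45, a50, a51, a52, a53, a54, a55,
      zpow_zero, one_mul, zpow_neg, zpow_one, zpow_ofNat, pow_one, pow_zero, mul_assoc]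

/-- The solution of the equations of the kernel, in the field. -/
theorem e6_ker_solve {a b c : K} (ha : a ≠ 0) (hb : b ≠ 0) (h1 : a ^ 3 = b ^ 2) (h2 : c ^ 3 = b ^ 2)
    (h3 : b ^ 3 = a ^ 2 * c ^ 2) : a ^ 3 = 1 ∧ b = 1 ∧ c = a ^ 2 := by
  have s1 : a ^ 4 * (a ^ 5 - c ^ 4) = 0 := by
    linear_combination (a ^ 6 + a ^ 3 * b ^ 2 + b ^ 4) * h1 + (b ^ 3 + a ^ 2 * c ^ 2) * h3
  have s1' : a ^ 5 = c ^ 4 := by
    rcases mul_eq_zero.mp s1 with h | h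
    · exact absurd (pow_eq_zero_iff (by norm_num) |>.mp h) ha
    · exact sub_eq_zero.mp h
  have s2 : a ^ 3 * (a ^ 2 - c) = 0 := by
    linear_combination s1' + c * h2 - c * h1
  have s2' : c = a ^ 2 := by
    rcases mul_eq_zero.mp s2 with h | h
    · exact absurd (pow_eq_zero_iff (by norm_num) |>.mp h) ha
    · exact (sub_eq_zero.mp h).symm
  subst s2'
  have s3 : a ^ 3 * (a ^ 3 - 1) = 0 := by linear_combination h2 - h1
  have s3' : a ^ 3 = 1 := by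
    rcases mul_eq_zero.mp s3 with h | h
    · exact absurd (pow_eq_zero_iff (by norm_num) |>.mp h) ha
    · exact sub_eq_zero.mp h
  have hb2 : b ^ 2 = 1 := by rw [← h1, s3']
  have hb3 : b ^ 3 = 1 := by
    rw [h3]
    linear_combination (a ^ 3 + 1) * s3'
  refine ⟨s3', ?_, rfl⟩
  linear_combination hb3 - b * hb2

/-- The kernel of the parametrisation of the torus of `E₆`. -/
theorem e6_ker_iff (z0 z1 z2 z3 z4 z5 : Kˣ) : e6Z z0 z1 z2 z3 z4 z5 ∈ (torusHom chevE6 K).ker ↔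
    z1 = 1 ∧ z3 = 1 ∧ z0 ^ 3 = 1 ∧ z2 = z0 ^ 2 ∧ z4 = z0 ∧ z5 = z0 ^ 2 := by
  rw [mem_ker_torusHom (simpleOK_of_mem hD_E6) smithData_E6]
  obtain ⟨m0, m1, m2, m3, m4, m5⟩ := e6_mu (extOne (e6Z z0 z1 z2 z3 z4 z5))
  have e0 : extOne (e6Z z0 z1 z2 z3 z4 z5) 0 = z0 := extOne_of_lt _ (by decide)
  have e1 : extOne (e6Z z0 z1 z2 z3 z4 z5) 1 = z1 := extOne_of_lt _ (by decide)
  have e2 : extOne (e6Z z0 z1 z2 z3 z4 z5) 2 = z2 := extOne_of_lt _ (by decide)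
  have e3 : extOne (e6Z z0 z1 z2 z3 z4 z5) 3 = z3 := extOne_of_lt _ (by decide)
  have e4 : extOne (e6Z z0 z1 z2 z3 z4 z5) 4 = z4 := extOne_of_lt _ (by decide)
  have e5 : extOne (e6Z z0 z1 z2 z3 z4 z5) 5 = z5 := extOne_of_lt _ (by decide)
  rw [e0, e2] at m0
  rw [e1, e3] at m1
  rw [e0, e2, e3] at m2
  rw [e1, e2, e3, e4] at m3
  rw [e3, e4, e5] at m4
  rw [e4, e5] at m5
  have key : muT (fun a b => chevE6.cartan a (chevE6.simple b)) (e6Z z0 z1 z2 z3 z4 z5) = 1 ↔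
      z0 ^ 2 * z2⁻¹ = 1 ∧ z1 ^ 2 * z3⁻¹ = 1 ∧ z0⁻¹ * z2 ^ 2 * z3⁻¹ = 1 ∧
      z1⁻¹ * z2⁻¹ * z3 ^ 2 * z4⁻¹ = 1 ∧ z3⁻¹ * z4 ^ 2 * z5⁻¹ = 1 ∧ z4⁻¹ * z5 ^ 2 = 1 := by
    constructor
    · intro h
      have h0 := congrFun h ⟨0, by decide⟩
      have h1 := congrFun h ⟨1, by decide⟩
      have h2 := congrFun h ⟨2, by decide⟩
      have h3 := congrFun h ⟨3, by decide⟩
      have h4 := congrFun h ⟨4, by decide⟩
      have h5 := congrFun h ⟨5, by decide⟩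
      exact ⟨m0 ▸ h0, m1 ▸ h1, m2 ▸ h2, m3 ▸ h3, m4 ▸ h4, m5 ▸ h5⟩
    · rintro ⟨h0, h1, h2, h3, h4, h5⟩
      funext j
      obtain ⟨j, hj⟩ := j
      have hj' : j < 6 := hj
      interval_cases j
      · exact m0.trans h0
      · exact m1.trans h1
      · exact m2.trans h2
      · exact m3.trans h3
      · exact m4.trans h4
      · exact m5.trans h5
  rw [key]
  constructor
  · rintro ⟨h0, h1, h2, h3, h4, h5⟩
    have a0 : z2 = z0 ^ 2 := (mul_inv_eq_one.mp h0).symm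
    have a1 : z3 = z1 ^ 2 := (mul_inv_eq_one.mp h1).symm
    have a5 : z4 = z5 ^ 2 := (inv_mul_eq_one.mp h5)
    subst a0 a1 a5
    -- in the field
    have v : ∀ (u : Kˣ) (n : ℕ), ((u ^ n : Kˣ) : K) = (u : K) ^ n := fun u n => Units.val_pow_eq_pow_val u n
    have k2 : (z0 : K) ^ 3 = (z1 : K) ^ 2 := by
      have := congrArg Units.val h2
      simp only [Units.val_mul, Units.val_inv_eq_inv_val, v, Units.val_one] at this
      have hz0 := z0.ne_zero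
      have hz1 := z1.ne_zero
      field_simp at this
      linear_combination this
    have k4 : (z5 : K) ^ 3 = (z1 : K) ^ 2 := by
      have := congrArg Units.val h4
      simp only [Units.val_mul, Units.val_inv_eq_inv_val, v, Units.val_one] at this
      have hz5 := z5.ne_zero
      have hz1 := z1.ne_zero
      field_simp at this
      linear_combination this
    have k3 : (z1 : K) ^ 3 = (z0 : K) ^ 2 * (z5 : K) ^ 2 := by
      have := congrArg Units.val h3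
      simp only [Units.val_mul, Units.val_inv_eq_inv_val, v, Units.val_one] at this
      have hz0 := z0.ne_zero
      have hz5 := z5.ne_zero
      have hz1 := z1.ne_zero
      field_simp at this
      linear_combination this
    obtain ⟨r1, r2, r3⟩ := e6_ker_solve z0.ne_zero z1.ne_zero k2 k4 k3
    have q1 : z1 = 1 := Units.ext (by rw [r2, Units.val_one])
    have q0 : z0 ^ 3 = 1 := Units.ext (by rw [v, r1, Units.val_one])
    have q5 : z5 = z0 ^ 2 := Units.ext (by rw [v, r3])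
    refine ⟨q1, by rw [q1, one_pow], q0, rfl, ?_, q5⟩
    rw [q5, ← pow_mul]
    calc z0 ^ (2 * 2) = z0 ^ 3 * z0 := by rw [← pow_succ]
      _ = z0 := by rw [q0, one_mul]
  · rintro ⟨rfl, rfl, h0, rfl, h4, rfl⟩
    obtain rfl := h4.symm
    have hinv : z0⁻¹ = z0 ^ 2 := by
      rw [inv_eq_iff_mul_eq_one, ← pow_succ']
      exact h0
    refine ⟨?_, ?_, ?_, ?_, ?_, ?_⟩
    · rw [mul_inv_cancel]
    · rw [one_pow, inv_one, mul_one]
    · rw [inv_one, mul_one, hinv, ← pow_mul, ← pow_add]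
      calc z0 ^ (2 + 2 * 2) = (z0 ^ 3) ^ 2 := by rw [← pow_mul]
        _ = 1 := by rw [h0, one_pow]
    · rw [inv_one, one_mul, one_pow, mul_one, ← mul_inv, inv_eq_one, ← pow_succ]
      exact h0
    · rw [inv_one, one_mul, mul_inv_cancel]
    · rw [hinv, ← pow_mul, ← pow_add]
      calc z0 ^ (2 + 2 * 2) = (z0 ^ 3) ^ 2 := by rw [← pow_mul]
        _ = 1 := by rw [h0, one_pow]

variable (f : K →+* K)

theorem e6_twZ (z0 z1 z2 z3 z4 z5 : Kˣ) :
    twZ Cfsg.Agent.Helper18.twTab_E6 f (e6Z z0 z1 z2 z3 z4 z5) =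
      e6Z (Units.map (f : K →* K) z5) (Units.map (f : K →* K) z1) (Units.map (f : K →* K) z4)
        (Units.map (f : K →* K) z3) (Units.map (f : K →* K) z2) (Units.map (f : K →* K) z0) := by
  funext i
  obtain ⟨i, hi⟩ := i
  have hi' : i < 6 := hi
  interval_cases i <;> rfl

variable (hf2 : ∀ t : K, f (f t) = t)

include hf2 in
theorem e6_units_map2 (a : Kˣ) : Units.map (f : K →* K) (Units.map (f : K →* K) a) = a :=
  Units.ext (hf2 (a : K))

include hf2 in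
/-- The elements of `H` fixed by `σ` are parametrised by the parameters fixed by `σ`. -/
theorem e6_fixedH_param {h : GL chevE6.Idx K} (hh : h ∈ chevE6.diagonalSubgroup K)
    (hfix : e6Sig f h = h) :
    ∃ a b c d : Kˣ, Units.map (f : K →* K) b = b ∧ Units.map (f : K →* K) d = d ∧
      h = torusHom chevE6 K (e6Z a b c d (Units.map (f : K →* K) c) (Units.map (f : K →* K) a)) := by
  rw [e6_hH, ← range_torusHom] at hh
  obtain ⟨z, rfl⟩ := hh
  rw [e6Z_eta z] at hfix ⊢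
  generalize z ⟨0, by decide⟩ = z0 at hfix ⊢
  generalize z ⟨1, by decide⟩ = z1 at hfix ⊢
  generalize z ⟨2, by decide⟩ = z2 at hfix ⊢
  generalize z ⟨3, by decide⟩ = z3 at hfix ⊢
  generalize z ⟨4, by decide⟩ = z4 at hfix ⊢
  generalize z ⟨5, by decide⟩ = z5 at hfix ⊢
  rw [twSig_torusHom e6_hinv f Cfsg.Agent.Helper18.twTab_E6, e6_twZ] at hfix
  have hFF := e6_units_map2 f hf2
  generalize Units.map (f : K →* K) = F at hfix hFF ⊢
  have hker : e6Z (z0⁻¹ * F z5) (z1⁻¹ * F z1) (z2⁻¹ * F z4) (z3⁻¹ * F z3) (z4⁻¹ * F z2)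
      (z5⁻¹ * F z0) ∈ (torusHom chevE6 K).ker := by
    have e : e6Z (z0⁻¹ * F z5) (z1⁻¹ * F z1) (z2⁻¹ * F z4) (z3⁻¹ * F z3) (z4⁻¹ * F z2)
        (z5⁻¹ * F z0) =
        (e6Z z0 z1 z2 z3 z4 z5)⁻¹ * e6Z (F z5) (F z1) (F z4) (F z3) (F z2) (F z0) := by
      rw [e6Z_inv, e6Z_mul]
    rw [MonoidHom.mem_ker, e, map_mul, map_inv, hfix, inv_mul_cancel]
  obtain ⟨k1, k3, k0, k2, k4, k5⟩ := (e6_ker_iff _ _ _ _ _ _).mp hker
  have hz5 : F z5 = z0 * (z0⁻¹ * F z5) := by rw [mul_inv_cancel_left]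
  generalize z0⁻¹ * F z5 = ω at k0 k2 k4 k5 hz5
  have hz1 : F z1 = z1 := (inv_mul_eq_one.mp k1).symm
  have hz3 : F z3 = z3 := (inv_mul_eq_one.mp k3).symm
  have hz4 : F z4 = z2 * ω ^ 2 := by rw [← k2, mul_inv_cancel_left]
  have hz2 : F z2 = z4 * ω := by rw [← k4, mul_inv_cancel_left]
  have hz0 : F z0 = z5 * ω ^ 2 := by rw [← k5, mul_inv_cancel_left]
  have h4 : ω ^ 4 = ω := by
    calc ω ^ 4 = ω ^ 3 * ω := by rw [← pow_succ]
      _ = ω := by rw [k0, one_mul]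
  have hFω : F ω = ω := by
    have h1 : z5 * (ω ^ 2 * F ω) = z5 * 1 := by
      rw [mul_one]
      conv_rhs => rw [← hFF z5, hz5, map_mul, hz0]
      rw [mul_assoc]
    have h2 : ω ^ 2 * F ω = ω ^ 2 * ω := by
      rw [← pow_succ, k0]
      exact mul_left_cancel h1
    exact mul_left_cancel h2
  have hd : e6Z (ω ^ 2) 1 ω 1 (ω ^ 2) ω ∈ (torusHom chevE6 K).ker := by
    rw [e6_ker_iff]
    refine ⟨rfl, rfl, ?_, ?_, rfl, ?_⟩
    · calc (ω ^ 2) ^ 3 = (ω ^ 3) ^ 2 := by rw [← pow_mul, ← pow_mul]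
        _ = 1 := by rw [k0, one_pow]
    · rw [← pow_mul]; exact h4.symm
    · rw [← pow_mul]; exact h4.symm
  refine ⟨z0 * ω ^ 2, z1, z2 * ω, z3, hz1, hz3, ?_⟩
  have e1 : F (z2 * ω) = z4 * ω ^ 2 := by rw [map_mul, hz2, hFω, mul_assoc, ← pow_two]
  have e2 : F (z0 * ω ^ 2) = z5 * ω := by
    rw [map_mul, map_pow, hz0, hFω, mul_assoc, ← pow_add]
    congr 1
  rw [e1, e2]
  have e3 : e6Z (z0 * ω ^ 2) z1 (z2 * ω) z3 (z4 * ω ^ 2) (z5 * ω) =
      e6Z z0 z1 z2 z3 z4 z5 * e6Z (ω ^ 2) 1 ω 1 (ω ^ 2) ω := by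
    rw [e6Z_mul, mul_one, mul_one]
  rw [e3, map_mul, MonoidHom.mem_ker.mp hd, mul_one]

omit hf2

theorem e6_torusHom_eq (z0 z1 z2 z3 z4 z5 : Kˣ) : torusHom chevE6 K (e6Z z0 z1 z2 z3 z4 z5) =
    hGL (e6R K).xadd 56 z0 * hGL (e6R K).xadd 46 z1 * hGL (e6R K).xadd 42 z2 *
      hGL (e6R K).xadd 39 z3 * hGL (e6R K).xadd 37 z4 * hGL (e6R K).xadd 36 z5 := by
  apply Units.ext
  rw [torusHom_val, charDiag_torusChar_eq_wordMat (simpleOK_of_mem hD_E6) (hDiag_of_mem hD_E6)]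
  have hr : List.range chevE6.rank = [0, 1, 2, 3, 4, 5] := by decide
  obtain ⟨s0, s1, s2, s3, s4, s5⟩ := e6_simples
  have e0 : extOne (e6Z z0 z1 z2 z3 z4 z5) 0 = z0 := extOne_of_lt _ (by decide)
  have e1 : extOne (e6Z z0 z1 z2 z3 z4 z5) 1 = z1 := extOne_of_lt _ (by decide)
  have e2 : extOne (e6Z z0 z1 z2 z3 z4 z5) 2 = z2 := extOne_of_lt _ (by decide)
  have e3 : extOne (e6Z z0 z1 z2 z3 z4 z5) 3 = z3 := extOne_of_lt _ (by decide)
  have e4 : extOne (e6Z z0 z1 z2 z3 z4 z5) 4 = z4 := extOne_of_lt _ (by decide)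
  have e5 : extOne (e6Z z0 z1 z2 z3 z4 z5) 5 = z5 := extOne_of_lt _ (by decide)
  rw [hr]
  simp only [List.flatMap_cons, List.flatMap_nil, List.append_nil, wordMat_append, s0, s1, s2, s3, s4, s5,
    Units.val_mul, hGL_val, e0, e1, e2, e3, e4, e5, mul_assoc]
  rfl

theorem e6_H_comm {x y : GL chevE6.Idx K} (hx : x ∈ chevE6.diagonalSubgroup K)
    (hy : y ∈ chevE6.diagonalSubgroup K) : Commute x y := by
  rw [e6_hH, ← range_torusHom] at hx hy
  obtain ⟨u, rfl⟩ := hx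
  obtain ⟨v, rfl⟩ := hy
  show _ * _ = _ * _
  rw [← map_mul, ← map_mul, mul_comm]

theorem reorder6 {G : Type*} [Monoid G] {x0 x1 x2 x3 x4 x5 : G} (h15 : Commute x1 x5) (h25 : Commute x2 x5)
    (h35 : Commute x3 x5) (h45 : Commute x4 x5) (h34 : Commute x3 x4) :
    x0 * x1 * x2 * x3 * x4 * x5 = (x0 * x5) * x1 * (x2 * x4) * x3 := by
  have c5 : Commute (x1 * x2 * x3 * x4) x5 := ((h15.mul_left h25).mul_left h35).mul_left h45
  calc x0 * x1 * x2 * x3 * x4 * x5 = x0 * ((x1 * x2 * x3 * x4) * x5) := by simp only [mul_assoc]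
    _ = x0 * (x5 * (x1 * x2 * x3 * x4)) := by rw [c5.eq]
    _ = (x0 * x5) * x1 * x2 * (x3 * x4) := by simp only [mul_assoc]
    _ = (x0 * x5) * x1 * x2 * (x4 * x3) := by rw [h34.eq]
    _ = (x0 * x5) * x1 * (x2 * x4) * x3 := by simp only [mul_assoc]

include hf2 in
/-- The elements of `H` fixed by `σ` lie in `²E₆`. -/
theorem e6_fixedH_le {h : GL chevE6.Idx K} (hh : h ∈ chevE6.diagonalSubgroup K)
    (hfix : e6Sig f h = h) : h ∈ twGroup (e6R K).xadd f eE6 orbsE6 := by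
  obtain ⟨a, b, c, d, hb, hd, rfl⟩ := e6_fixedH_param f hf2 hh hfix
  have hb' : f (b : K) = b := congrArg Units.val hb
  have hd' : f (d : K) = d := congrArg Units.val hd
  obtain ⟨s0, s1, s2, s3, s4, s5⟩ := e6_simples
  have hm : ∀ (r : ℕ) (u : Kˣ), r < chevE6.nroots → hGL (e6R K).xadd r (u : K) ∈ chevE6.diagonalSubgroup K :=
    fun r u hr => hGL_mem (e6R K).xadd hr u.ne_zero
  rw [e6_torusHom_eq, reorder6
    (e6_H_comm (hm 46 b (by decide)) (hm 36 _ (by decide)))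
    (e6_H_comm (hm 42 c (by decide)) (hm 36 _ (by decide)))
    (e6_H_comm (hm 39 d (by decide)) (hm 36 _ (by decide)))
    (e6_H_comm (hm 37 _ (by decide)) (hm 36 _ (by decide)))
    (e6_H_comm (hm 39 d (by decide)) (hm 37 _ (by decide)))]
  have o05 : hOrb (e6R K).xadd [0, 5] (coef f eE6 (a : K)) =
      hGL (e6R K).xadd 56 (a : K) * hGL (e6R K).xadd 36 ((Units.map (f : K →* K) a : Kˣ) : K) := by
    simp [hOrb, coef, eE6, s0, s5]
  have o1 : hOrb (e6R K).xadd [1] (coef f eE6 (b : K)) = hGL (e6R K).xadd 46 (b : K) := by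
    simp [hOrb, coef, eE6, s1]
  have o24 : hOrb (e6R K).xadd [2, 4] (coef f eE6 (c : K)) =
      hGL (e6R K).xadd 42 (c : K) * hGL (e6R K).xadd 37 ((Units.map (f : K →* K) c : Kˣ) : K) := by
    simp [hOrb, coef, eE6, s2, s4]
  have o3 : hOrb (e6R K).xadd [3] (coef f eE6 (d : K)) = hGL (e6R K).xadd 39 (d : K) := by
    simp [hOrb, coef, eE6, s3]
  rw [← o05, ← o1, ← o24, ← o3]
  exact mul_mem (mul_mem (mul_mem
    (hOrb_mem (e6R K) (by decide) (orbOK_E6 _ (by decide)) (fun h => absurd h (by decide)))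
    (hOrb_mem (e6R K) (by decide) (orbOK_E6 _ (by decide)) (fun _ => hb')))
    (hOrb_mem (e6R K) (by decide) (orbOK_E6 _ (by decide)) (fun h => absurd h (by decide))))
    (hOrb_mem (e6R K) (by decide) (orbOK_E6 _ (by decide)) (fun _ => hd'))

end

end Cfsg.Agent.Helper17
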