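/-
helper17: `²E₆(q)` is the group of the elements of `E₆(q²)` fixed by `σ = (flip) ∘ (t ↦ t^q)` (`e6_mem_tw_iff`),
and the order of its torus `H¹ = H ⊓ ²E₆(q)` (`e6_card_diag`).
-/
import Cfsg.Agent.Helper17.E6SigH

set_option autoImplicit false

namespace Cfsg.Agent.Helper17

open Cfsg Cfsg.Lie Cfsg.Agent.Helper36 Cfsg.Agent.Helper18

theorem twGroup_le_group {D : ChevalleyDatum} {F : Type*} [Field F] (hX : XAdd D F) (φ : F →+* F)
    (e : List ℕ) (orbs : List (List ℕ)) : twGroup hX φ e orbs ≤ D.group F := by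
  unfold twGroup
  rw [Subgroup.closure_le]
  rintro x ⟨o, ho, t, ht, rfl | rfl⟩ <;> exact wordGL_mem_group hX _

section

variable {K : Type*} [Field K]

/-- The units fixed by `f`. -/
def fixU (f : K →+* K) : Subgroup Kˣ := (Units.map (f : K →* K)).eqLocus (MonoidHom.id Kˣ)

theorem mem_fixU {f : K →+* K} {b : Kˣ} : b ∈ fixU f ↔ Units.map (f : K →* K) b = b := Iff.rfl

variable (f : K →+* K)

/-- The parameters `(a, c, b, d) ↦ (a, b, c, d, f c, f a)` of the fixed elements of the torus. -/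
noncomputable def e6ParZ : Kˣ × Kˣ × fixU f × fixU f →* (Fin chevE6.rank → Kˣ) where
  toFun p := e6Z p.1 p.2.2.1.1 p.2.1 p.2.2.2.1 (Units.map (f : K →* K) p.2.1)
    (Units.map (f : K →* K) p.1)
  map_one' := by
    show e6Z 1 1 1 1 (Units.map (f : K →* K) 1) (Units.map (f : K →* K) 1) = 1
    rw [map_one, e6Z_one]
  map_mul' := by
    intro p p'
    show e6Z (p.1 * p'.1) (p.2.2.1.1 * p'.2.2.1.1) (p.2.1 * p'.2.1) (p.2.2.2.1 * p'.2.2.2.1)
      (Units.map (f : K →* K) (p.2.1 * p'.2.1)) (Units.map (f : K →* K) (p.1 * p'.1)) = _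
    rw [map_mul, map_mul, ← e6Z_mul]

/-- The parametrisation of the fixed elements of the torus. -/
noncomputable def e6Par : Kˣ × Kˣ × fixU f × fixU f →* GL chevE6.Idx K :=
  (torusHom chevE6 K).comp (e6ParZ f)

theorem e6Par_apply (p : Kˣ × Kˣ × fixU f × fixU f) :
    e6Par f p = torusHom chevE6 K (e6Z p.1 p.2.2.1.1 p.2.1 p.2.2.2.1 (Units.map (f : K →* K) p.2.1)
      (Units.map (f : K →* K) p.1)) := rfl

theorem e6Par_ker (p : Kˣ × Kˣ × fixU f × fixU f) : p ∈ (e6Par f).ker ↔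
    p.2.2.1.1 = 1 ∧ p.2.2.2.1 = 1 ∧ p.1 ^ 3 = 1 ∧ p.2.1 = p.1 ^ 2 ∧
      Units.map (f : K →* K) p.2.1 = p.1 ∧ Units.map (f : K →* K) p.1 = p.1 ^ 2 := by
  rw [MonoidHom.mem_ker, e6Par_apply, ← MonoidHom.mem_ker, e6_ker_iff]

variable (hf2 : ∀ t : K, f (f t) = t)

include hf2 in
theorem e6Par_range (h : GL chevE6.Idx K) :
    h ∈ (e6Par f).range ↔ h ∈ chevE6.diagonalSubgroup K ∧ e6Sig f h = h := by
  constructor
  · rintro ⟨⟨a, c, ⟨b, hb⟩, ⟨d, hd⟩⟩, rfl⟩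
    have hb' : Units.map (f : K →* K) b = b := hb
    have hd' : Units.map (f : K →* K) d = d := hd
    rw [e6Par_apply]
    refine ⟨?_, ?_⟩
    · rw [e6_hH, ← range_torusHom]; exact ⟨_, rfl⟩
    · rw [twSig_torusHom e6_hinv f Cfsg.Agent.Helper18.twTab_E6, e6_twZ, e6_units_map2 f hf2,
        e6_units_map2 f hf2, hb', hd']
  · rintro ⟨hh, hfix⟩
    obtain ⟨a, b, c, d, hb, hd, rfl⟩ := e6_fixedH_param f hf2 hh hfix
    exact ⟨(a, c, ⟨b, hb⟩, ⟨d, hd⟩), rfl⟩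

omit hf2

theorem e6_card_ker :
    Nat.card (e6Par f).ker = Nat.card {ω : Kˣ // ω ^ 3 = 1 ∧ Units.map (f : K →* K) ω = ω ^ 2} := by
  refine Nat.card_congr
    { toFun := fun p => ⟨p.1.1, ((e6Par_ker f p.1).mp p.2).2.2.1, ((e6Par_ker f p.1).mp p.2).2.2.2.2.2⟩
      invFun := fun ω => ⟨(ω.1, ω.1 ^ 2, 1, 1), (e6Par_ker f _).mpr ⟨rfl, rfl, ω.2.1, rfl, by
        show Units.map (f : K →* K) (ω.1 ^ 2) = ω.1
        rw [map_pow, ω.2.2, ← pow_mul]
        calc ω.1 ^ (2 * 2) = ω.1 ^ 3 * ω.1 := by rw [← pow_succ]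
          _ = ω.1 := by rw [ω.2.1, one_mul], ω.2.2⟩⟩
      left_inv := ?_
      right_inv := ?_ }
  · rintro ⟨⟨a, c, ⟨b, hb⟩, ⟨d, hd⟩⟩, hp⟩
    obtain ⟨h1, h2, h3, h4, h5, h6⟩ := (e6Par_ker f _).mp hp
    have h1' : b = 1 := h1
    have h2' : d = 1 := h2
    have h4' : c = a ^ 2 := h4
    subst h1' h2' h4'
    rfl
  · rintro ⟨ω, h1, h2⟩
    rfl

variable [Fintype K] {q : ℕ}

theorem e6_card_Z (hK : Fintype.card K = q ^ 2) (hφ : ∀ t : K, f t = t ^ q) :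
    Nat.card {ω : Kˣ // ω ^ 3 = 1 ∧ Units.map (f : K →* K) ω = ω ^ 2} = Nat.gcd 3 (q + 1) := by
  classical
  have hmem : ∀ ω : Kˣ, (ω ^ 3 = 1 ∧ Units.map (f : K →* K) ω = ω ^ 2) ↔
      ω ∈ (powMonoidHom (Nat.gcd 3 (q + 1)) : Kˣ →* Kˣ).ker := by
    intro ω
    have hF : Units.map (f : K →* K) ω = ω ^ q := Units.ext (by
      show f (ω : K) = ((ω ^ q : Kˣ) : K)
      rw [hφ, Units.val_pow_eq_pow_val])
    rw [MonoidHom.mem_ker, powMonoidHom_apply, pow_gcd_eq_one, hF]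
    constructor
    · rintro ⟨h3, hq'⟩
      refine ⟨h3, ?_⟩
      rw [pow_succ, hq', ← pow_succ]
      exact h3
    · rintro ⟨h3, hq'⟩
      refine ⟨h3, ?_⟩
      have : ω ^ q * ω = ω ^ 2 * ω := by rw [← pow_succ, hq', ← pow_succ, h3]
      exact mul_right_cancel this
  rw [Nat.card_congr (Equiv.subtypeEquivRight hmem), IsCyclic.card_powMonoidHom_ker,
    Nat.card_eq_fintype_card, Fintype.card_units, hK]
  apply Nat.gcd_eq_right
  refine (Nat.gcd_dvd_right 3 (q + 1)).trans ⟨q - 1, ?_⟩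
  have := Nat.sq_sub_sq q 1
  rw [one_pow] at this
  exact this

variable (hq : IsPrimePow q) (hK : Fintype.card K = q ^ 2) (hφ : ∀ t : K, f t = t ^ q)

include hq hK hφ in
/-- `gcd(3, q + 1)` times the number of elements of `H` fixed by `σ` is `(q² - 1)² (q - 1)²`. -/
theorem e6_card_fixedH :
    Nat.gcd 3 (q + 1) * Nat.card {a : GL chevE6.Idx K // a ∈ chevE6.diagonalSubgroup K ∧ e6Sig f a = a} =
      (q ^ 2 - 1) ^ 2 * (q - 1) ^ 2 := by
  have hf2 := e6_phi2 hK f hφ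
  have h1 : Nat.card {a : GL chevE6.Idx K // a ∈ chevE6.diagonalSubgroup K ∧ e6Sig f a = a} =
      Nat.card (e6Par f).range :=
    Nat.card_congr (Equiv.subtypeEquivRight fun a => (e6Par_range f hf2 a).symm)
  have h2 := Subgroup.card_mul_index (e6Par f).ker
  rw [Subgroup.index_ker, e6_card_ker, e6_card_Z f hK hφ] at h2
  rw [h1, h2, Nat.card_prod, Nat.card_prod, Nat.card_prod, Nat.card_units, Nat.card_eq_fintype_card, hK]
  have h3 : Nat.card (fixU f) = q - 1 := by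
    rw [← card_units_fixed f q (e6_card_fix hq hK f hφ)]
    exact Nat.card_congr (Equiv.subtypeEquivRight fun b => Iff.rfl)
  rw [h3]
  ring

include hq hK hφ in
/-- `²E₆(q)` is the group of the elements of `E₆(q²)` fixed by `σ`. -/
theorem e6_mem_tw_iff {g : GL chevE6.Idx K} :
    g ∈ twGroup (e6R K).xadd f eE6 orbsE6 ↔ g ∈ chevE6.group K ∧ e6Sig f g = g := by
  have hf2 := e6_phi2 hK f hφ
  constructor
  · intro hg
    exact ⟨twGroup_le_group _ _ _ _ hg, e6_tw_fixed f hf2 hg⟩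
  · rintro ⟨hg, hfix⟩
    exact e6_fixed_le hq hK f hφ (fun a ha hafix => e6_fixedH_le f hf2 ha hafix) hg hfix

include hq hK hφ in
/-- The order of `H¹ = H ⊓ ²E₆(q)`. -/
theorem e6_card_diag :
    Nat.gcd 3 (q + 1) * Nat.card ↥(chevE6.diagonalSubgroup K ⊓ twistedE6 K q) =
      (q - 1) ^ 4 * (q + 1) ^ 2 := by
  have hf2 := e6_phi2 hK f hφ
  have h1 : Nat.card ↥(chevE6.diagonalSubgroup K ⊓ twistedE6 K q) =
      Nat.card {a : GL chevE6.Idx K // a ∈ chevE6.diagonalSubgroup K ∧ e6Sig f a = a} := by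
    rw [twistedE6_eq q f hφ (e6R K).xadd]
    exact Nat.card_congr (Equiv.subtypeEquivRight fun a =>
      ⟨fun h => ⟨h.1, e6_tw_fixed f hf2 h.2⟩, fun h => ⟨h.1, e6_fixedH_le f hf2 h.1 h.2⟩⟩)
  rw [h1, e6_card_fixedH f hq hK hφ]
  have h2 := Nat.sq_sub_sq q 1
  rw [one_pow] at h2
  rw [h2]
  ring

end

end Cfsg.Agent.Helper17
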