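/-
helper17: the checks on the table `e6WT` of the elements of the Weyl group of `E₆` fixed by the flip, written
with recursors so that the kernel evaluates them quickly, and what they mean:

* `wkDig`, `wkPack`: digits in base `128` (`wkDig_pack`);
* `wkBlk`, `wkAct`: the packed action of a block and the action of a word in the blocks (`wkAct_spec`);
* `wkActOK`, `wkStepOK`, `wkSorted`, `wkStabOK`, `wkSumsOK`, `wkLenOK`: the checks on the entries;
* `orbOK_filter`: helper18's `OrbOK` passes to a union of orbits;
* `sum_pow_count`: `∑ q ^ ℓ` over a list as a polynomial with the multiplicities as coefficients.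
-/
import Cfsg.Agent.Helper17.E6WData
import Cfsg.Agent.Helper17.E6SigTab
import Cfsg.Agent.Helper17.TwE6
import Cfsg.Agent.Helper18.NLong
import Cfsg.Agent.Helper18.TwC

set_option autoImplicit false

namespace Cfsg.Agent.Helper17

open Cfsg Cfsg.Lie Cfsg.Agent.Helper36 Cfsg.Agent.Helper18

/-- An entry of the table: the word in the blocks, the packed action, the indices of the four products, the
number of positive roots made negative. -/
abbrev WEnt : Type := List (List ℕ) × ℕ × ℕ × ℕ × ℕ × ℕ × ℕ

/-! ### Digits in base `128` -/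

/-- The digit of index `r` of `P` in base `128`. -/
noncomputable def wkDig (P r : ℕ) : ℕ := Nat.mod (Nat.div P (Nat.pow 128 r)) 128

theorem wkDig_eq (P r : ℕ) : wkDig P r = P / 128 ^ r % 128 := rfl

theorem wkDig_lt (P r : ℕ) : wkDig P r < 128 := Nat.mod_lt _ (by norm_num)

/-- The number with the digits `f 0, …, f (n - 1)` in base `128`. -/
noncomputable def wkPack (f : ℕ → ℕ) (n : ℕ) : ℕ :=
  Nat.rec (motive := fun _ => ℕ) 0 (fun k acc => Nat.add (Nat.mul (f k) (Nat.pow 128 k)) acc) n

theorem wkPack_zero (f : ℕ → ℕ) : wkPack f 0 = 0 := rfl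

theorem wkPack_succ (f : ℕ → ℕ) (n : ℕ) : wkPack f (n + 1) = f n * 128 ^ n + wkPack f n := rfl

theorem wkPack_lt (f : ℕ → ℕ) (n : ℕ) (hf : ∀ i < n, f i < 128) : wkPack f n < 128 ^ n := by
  induction n with
  | zero => rw [wkPack_zero]; norm_num
  | succ n ih =>
    have h1 := ih (fun i hi => hf i (Nat.lt_succ_of_lt hi))
    have h2 := hf n (Nat.lt_succ_self n)
    have h3 : f n * 128 ^ n ≤ 127 * 128 ^ n := Nat.mul_le_mul_right _ (by omega)
    rw [wkPack_succ, pow_succ]
    linarith

theorem wkDig_pack (f : ℕ → ℕ) (n : ℕ) (hf : ∀ i < n, f i < 128) :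
    ∀ k < n, wkDig (wkPack f n) k = f k := by
  induction n with
  | zero => intro k hk; omega
  | succ n ih =>
    intro k hk
    have hf' : ∀ i < n, f i < 128 := fun i hi => hf i (Nat.lt_succ_of_lt hi)
    have h1 := wkPack_lt f n hf'
    rw [wkDig_eq, wkPack_succ]
    rcases Nat.lt_succ_iff_lt_or_eq.mp hk with h | rfl
    · have e : f n * 128 ^ n = (f n * 128 ^ (n - k - 1)) * 128 * 128 ^ k := by
        have : 128 ^ n = 128 ^ (n - k - 1) * 128 * 128 ^ k := by
          rw [← pow_succ, ← pow_add]; congr 1; omega
        rw [this]; ring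
      rw [Nat.add_comm, e, Nat.add_mul_div_right _ _ (by positivity), Nat.add_mul_mod_self_right]
      exact ih hf' k h
    · rw [Nat.add_comm, Nat.add_mul_div_right _ _ (by positivity), Nat.div_eq_of_lt h1, zero_add]
      exact Nat.mod_eq_of_lt (hf k (Nat.lt_succ_self k))

theorem wkPack_congr (f g : ℕ → ℕ) (n : ℕ) (h : ∀ i < n, f i = g i) : wkPack f n = wkPack g n := by
  induction n with
  | zero => rfl
  | succ n ih =>
    rw [wkPack_succ, wkPack_succ, h n (Nat.lt_succ_self n), ih (fun i hi => h i (Nat.lt_succ_of_lt hi))]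

/-! ### Lists -/

/-- All the elements of the list satisfy `p`. -/
noncomputable def wkAll {α : Type} (p : α → Bool) (L : List α) : Bool :=
  List.rec (motive := fun _ => Bool) true (fun a _ ih => Bool.and (p a) ih) L

theorem wkAll_cons {α : Type} (p : α → Bool) (a : α) (L : List α) :
    wkAll p (a :: L) = (p a && wkAll p L) := rfl

theorem wkAll_eq_all {α : Type} (p : α → Bool) (L : List α) : wkAll p L = L.all p := by
  induction L with
  | nil => rfl
  | cons a L ih => rw [wkAll_cons, ih, List.all_cons]

theorem wkAll_iff {α : Type} (p : α → Bool) (L : List α) : wkAll p L = true ↔ ∀ a ∈ L, p a = true := by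
  rw [wkAll_eq_all, List.all_eq_true]

/-- The packed action of the entry of index `n` (`0` out of range). -/
noncomputable def wkNth (L : List WEnt) (n : ℕ) : ℕ :=
  List.rec (motive := fun _ => ℕ → ℕ) (fun _ => 0)
    (fun a _ ih n => Nat.rec (motive := fun _ => ℕ) a.2.1 (fun m _ => ih m) n) L n

theorem wkNth_mem (L : List WEnt) : ∀ n, n < L.length → ∃ y ∈ L, wkNth L n = y.2.1 := by
  induction L with
  | nil => intro n hn; simp at hn
  | cons a L ih =>
    intro n hn
    cases n with
    | zero => exact ⟨a, List.mem_cons_self, rfl⟩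
    | succ n =>
      obtain ⟨y, hy, e⟩ := ih n (by simpa using hn)
      exact ⟨y, List.mem_cons_of_mem _ hy, e⟩

/-- The packed actions are increasing, starting above `prev`. -/
noncomputable def wkSortedGo (L : List WEnt) : ℕ → Bool :=
  List.rec (motive := fun _ => ℕ → Bool) (fun _ => true)
    (fun a _ ih prev => Bool.and (Nat.blt prev a.2.1) (ih a.2.1)) L

theorem wkSortedGo_spec (L : List WEnt) : ∀ prev, wkSortedGo L prev = true →
    (∀ a ∈ L, prev < a.2.1) ∧ (L.map fun x => x.2.1).Pairwise (· < ·) := by
  induction L with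
  | nil => intro prev _; exact ⟨fun a ha => absurd ha List.not_mem_nil, List.Pairwise.nil⟩
  | cons a L ih =>
    intro prev h
    have e : wkSortedGo (a :: L) prev = (Nat.blt prev a.2.1 && wkSortedGo L a.2.1) := rfl
    rw [e, Bool.and_eq_true, blt_iff] at h
    obtain ⟨h1, h2⟩ := ih a.2.1 h.2
    refine ⟨?_, ?_⟩
    · intro c hc
      rcases List.mem_cons.mp hc with rfl | hc
      · exact h.1
      · exact lt_trans h.1 (h1 c hc)
    · rw [List.map_cons, List.pairwise_cons]
      refine ⟨?_, h2⟩
      intro p hp
      obtain ⟨c, hc, rfl⟩ := List.mem_map.mp hp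
      exact h1 c hc

/-! ### The action of the words in the blocks -/

theorem e6_nroots : chevE6.nroots = 72 := by decide

/-- The packed action of a block on the roots of `E₆`. -/
noncomputable def wkBlk (b : List ℕ) : ℕ := wkPack (fwdN chevE6 b) 72

theorem wkDig_blk (b : List ℕ) (hb : ∀ i ∈ b, i < chevE6.rank) (s : ℕ) (hs : s < 72) :
    wkDig (wkBlk b) s = wW chevE6 b s ∧ wW chevE6 b s < 72 := by
  have h := fun i (hi : i < 72) => fwdN_spec chevE6 hD_E6 b hb i (by rw [e6_nroots]; exact hi)
  have h2 : ∀ i < 72, fwdN chevE6 b i < 128 := fun i hi => by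
    have := (h i hi).2
    rw [e6_nroots] at this
    omega
  have e : wW chevE6 b s = fwdN chevE6 b s := (h s hs).1.symm
  rw [wkBlk, wkDig_pack _ 72 h2 s hs, e]
  have := (h s hs).2
  rw [e6_nroots] at this
  exact ⟨rfl, this⟩

/-- The action of a word in the blocks on a root, read off the packed actions of the blocks. -/
noncomputable def wkAct (bs : List (List ℕ)) (s : ℕ) : ℕ :=
  List.rec (motive := fun _ => ℕ) s (fun b _ ih => wkDig (wkBlk b) ih) bs

theorem wkAct_spec (bs : List (List ℕ)) (hbs : ∀ b ∈ bs, ∀ i ∈ b, i < chevE6.rank) (s : ℕ) (hs : s < 72) :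
    wkAct bs s = wW chevE6 bs.flatten s ∧ wkAct bs s < 72 := by
  induction bs with
  | nil => exact ⟨rfl, hs⟩
  | cons b bs ih =>
    obtain ⟨h1, h2⟩ := ih (fun c hc => hbs c (List.mem_cons_of_mem _ hc))
    have hb := hbs b List.mem_cons_self
    have e : wkAct (b :: bs) s = wkDig (wkBlk b) (wkAct bs s) := rfl
    obtain ⟨h3, h4⟩ := wkDig_blk b hb _ h2
    rw [e, h3, List.flatten_cons, wW_append, ← h1]
    exact ⟨rfl, h4⟩

/-! ### The checks on an entry -/

/-- The packed action of the entry is the action of its word. -/
noncomputable def wkActOK (x : WEnt) : Bool := Nat.beq x.2.1 (wkPack (wkAct x.1) 72)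

/-- The entry of index `j` is the product of the block `b` and the entry `x`. -/
noncomputable def wkStep (b : List ℕ) (x : WEnt) (j : ℕ) : Bool :=
  Bool.and (Nat.blt j 1152)
    (Nat.beq (wkNth e6WT j) (wkPack (fun r => wkDig (wkBlk b) (wkDig x.2.1 r)) 72))

/-- The four products of the entry with the blocks are where the entry says. -/
noncomputable def wkStepOK (x : WEnt) : Bool :=
  Bool.and (wkStep [1] x x.2.2.1) (Bool.and (wkStep [3] x x.2.2.2.1)
    (Bool.and (wkStep [0, 5] x x.2.2.2.2.1) (wkStep [2, 4] x x.2.2.2.2.2.1)))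

/-- The packed action `P` makes the root `r` negative. -/
noncomputable def wkT (P r : ℕ) : Bool := Nat.blt (wkDig P r) 36

/-- `T` is constant on the list `O`. -/
noncomputable def wkConst (T : ℕ → Bool) (O : List ℕ) : Bool :=
  Bool.or (wkAll T O) (wkAll (fun r => Bool.not (T r)) O)

theorem wkConst_spec (T : ℕ → Bool) (O : List ℕ) (h : wkConst T O = true) :
    (∀ r ∈ O, T r = true) ∨ (∀ r ∈ O, T r = false) := by
  unfold wkConst at h
  rcases Bool.or_eq_true_iff.mp h with h | h
  · exact Or.inl ((wkAll_iff _ _).mp h)
  · refine Or.inr fun r hr => ?_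
    have := (wkAll_iff _ _).mp h r hr
    simpa using this

/-- The set of positive roots made negative by the entry is a union of orbits of the flip. -/
noncomputable def wkStabOK (x : WEnt) : Bool := wkAll (wkConst (wkT x.2.1)) e6PosOrbs

/-- The set of positive roots made negative by the entry is closed. -/
noncomputable def wkSumsOK (x : WEnt) : Bool :=
  wkAll (fun t => Bool.or (Bool.not (Bool.and (wkT x.2.1 t.1) (wkT x.2.1 t.2.1))) (wkT x.2.1 t.2.2))
    e6WSums

/-- The length of a list. -/
noncomputable def wkLenL (O : List ℕ) : ℕ := List.rec (motive := fun _ => ℕ) 0 (fun _ _ ih => Nat.add ih 1) O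

theorem wkLenL_eq (O : List ℕ) : wkLenL O = O.length := by
  induction O with
  | nil => rfl
  | cons a O ih =>
    have e : wkLenL (a :: O) = wkLenL O + 1 := rfl
    rw [e, ih, List.length_cons]

/-- The number of elements in the orbits on which `T` holds. -/
noncomputable def wkLenT (T : ℕ → Bool) (orbs : List (List ℕ)) : ℕ :=
  List.rec (motive := fun _ => ℕ) 0 (fun O _ ih => bsel (wkAll T O) (Nat.add (wkLenL O) ih) ih) orbs

theorem wkLenT_eq (T : ℕ → Bool) (orbs : List (List ℕ)) :
    wkLenT T orbs = ((orbs.filter fun O => O.all T).map List.length).sum := by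
  induction orbs with
  | nil => rfl
  | cons O orbs ih =>
    have e : wkLenT T (O :: orbs) = bsel (wkAll T O) (wkLenL O + wkLenT T orbs) (wkLenT T orbs) := rfl
    rw [e, wkAll_eq_all, wkLenL_eq, ih]
    by_cases h : O.all T = true
    · rw [List.filter_cons_of_pos (p := fun O => O.all T) (l := orbs) h, h, bsel_true, List.map_cons, List.sum_cons]
    · rw [List.filter_cons_of_neg (p := fun O => O.all T) (l := orbs) h]
      rw [Bool.not_eq_true] at h
      rw [h, bsel_false]

/-- The last component of the entry is the number of positive roots in the orbits made negative. -/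
noncomputable def wkLenOK (x : WEnt) : Bool := Nat.beq (wkLenT (wkT x.2.1) e6PosOrbs) x.2.2.2.2.2.2

/-! ### Unions of orbits -/

/-- helper18's `OrbOK` passes from a set of roots to a union of some of its orbits. -/
theorem orbOK_filter (D : ChevalleyDatum) (P M : ℕ) (T : ℕ → Bool) :
    ∀ (orbs : List (List ℕ)) (S : List ℕ), OrbOK D P M orbs S →
      (∀ O ∈ orbs, (∀ r ∈ O, T r = true) ∨ (∀ r ∈ O, T r = false)) →
      OrbOK D P M (orbs.filter fun O => O.all T) (S.filter T) := by
  intro orbs
  induction orbs with
  | nil =>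
    intro S hS _
    have hS' : S = [] := hS
    subst hS'
    exact (rfl : ([] : List ℕ) = [])
  | cons O rest ih =>
    intro S hS hst
    obtain ⟨hc, hrest⟩ := hS
    have ih' := ih (S.filter fun s => decide (s ∉ O)) hrest
      (fun O' h => hst O' (List.mem_cons_of_mem _ h))
    rcases hst O List.mem_cons_self with hT | hF
    · have hall : O.all T = true := List.all_eq_true.mpr hT
      rw [List.filter_cons_of_pos (p := fun O => O.all T) (l := rest) hall]
      refine ⟨?_, ?_⟩
      · obtain ⟨c1, c2, c3, c4, c5, c6⟩ := hc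
        exact ⟨c1, c2, fun r hr => List.mem_filter.mpr ⟨c3 r hr, hT r hr⟩,
          fun r hr s hs => c4 r hr s (List.mem_of_mem_filter hs), c5, c6⟩
      · have e : (S.filter T).filter (fun s => decide (s ∉ O)) =
            (S.filter fun s => decide (s ∉ O)).filter T := by
          rw [List.filter_filter, List.filter_filter]
          congr 1
          funext s
          rw [Bool.and_comm]
        rw [e]
        exact ih'
    · have hall : ¬ O.all T = true := by
        obtain ⟨r0, L, rfl⟩ := orbSh_ne_nil _ O hc.1
        rw [List.all_cons, hF r0 List.mem_cons_self, Bool.false_and]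
        exact Bool.false_ne_true
      rw [List.filter_cons_of_neg (p := fun O => O.all T) (l := rest) hall]
      have e : (S.filter fun s => decide (s ∉ O)).filter T = S.filter T := by
        rw [List.filter_filter]
        apply List.filter_congr
        intro s _
        by_cases hs : s ∈ O
        · simp [hF s hs]
        · simp [hs]
      rw [← e]
      exact ih'

/-! ### Sums of powers -/

theorem sum_pow_count (q n : ℕ) (L : List ℕ) (hL : ∀ x ∈ L, x < n) :
    (L.map (q ^ ·)).sum = ∑ k ∈ Finset.range n, L.count k * q ^ k := by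
  induction L with
  | nil => simp
  | cons a L ih =>
    rw [List.map_cons, List.sum_cons, ih (fun x hx => hL x (List.mem_cons_of_mem _ hx))]
    have ha := hL a List.mem_cons_self
    simp only [List.count_cons, add_mul]
    rw [Finset.sum_add_distrib]
    have e : ∑ k ∈ Finset.range n, (if (a == k) = true then 1 else 0) * q ^ k = q ^ a := by
      simp [ite_mul, ha]
    rw [e, add_comm]

end Cfsg.Agent.Helper17
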