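/-
helper17: the order of `²E₆(q)`.  With helper18's `card_fixed`, the number of the elements of `E₆(q²)` fixed by
`σ` is `|U^σ| · |H^σ| · ∑_w |U_w^σ|`, the sum over the table `e6WT` of the `1152` elements of the Weyl group
fixed by the flip, and `|U_w^σ| = q ^ ℓ(w)`, `ℓ(w)` the number of positive roots made negative by `w`.
-/
import Cfsg.Agent.Helper17.E6WChk
import Cfsg.Agent.Helper17.E6SigMain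

set_option autoImplicit false

namespace Cfsg.Agent.Helper17

open Cfsg Cfsg.Lie Cfsg.Agent.Helper36 Cfsg.Agent.Helper18

section

variable {K : Type*} [Field K] [Fintype K] {q : ℕ} (hq : IsPrimePow q) (hK : Fintype.card K = q ^ 2)
  (φ : K →+* K) (hφ : ∀ t : K, φ t = t ^ q)

include hq hK hφ in
/-- The number of elements of `U_w⁻` fixed by `σ`, for an entry of the table. -/
theorem e6W_card_Uw {x : WEnt} (hx : x ∈ e6WT) :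
    Nat.card {u : GL chevE6.Idx K // u ∈ Subgroup.closure (umGens (e6R K).xadd x.1.flatten) ∧
      e6Sig φ u = u} = q ^ x.2.2.2.2.2.2 := by
  obtain ⟨fw, hW⟩ := wtFacts_of_mem hD_E6
  rw [closure_umGens_eq (e6R K).xadd x.1.flatten (wkS x.2.1) (e6W_hS hx), ← e6W_lenEq hx]
  exact card_fixed_roots hW (rootElts_of_mem hD_E6) (e6R K).xadd e6_htFacts e6_hinv gaut_roots_E6 φ
    Cfsg.Agent.Helper18.twTab_E6 e6_rho_ht e6_twTab2.inj (e6R K).cf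
    (commFormulaPos_of_full hW (fun r s hr hs h1 h2 => (e6R K).cf r hr s hs h1 h2)) 2 q
    (e6_card_fix hq hK φ hφ) (by rw [Nat.card_eq_fintype_card, hK])
    (fun t => e6_phi2 hK φ hφ t)
    (wkO x.2.1) (wkS x.2.1) (e6W_orbOK hx) (e6Pos_sorted.filter _)
    (fun s hs => ((e6W_hS hx s).mp hs).1)
    (e6W_closedS hx)

include hq hK hφ in
/-- The number of elements of `E₆(q²)` fixed by `σ`. -/
theorem e6_card_fixed :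
    Nat.card {g : GL chevE6.Idx K // g ∈ chevE6.group K ∧ e6Sig φ g = g} =
      q ^ 36 * Nat.card {a : GL chevE6.Idx K // a ∈ chevE6.diagonalSubgroup K ∧ e6Sig φ a = a} *
        (1 + 2 * q + 4 * q ^ 2 + 6 * q ^ 3 + 9 * q ^ 4 + 13 * q ^ 5 + 17 * q ^ 6 + 22 * q ^ 7 + 26 * q ^ 8 + 32 * q ^ 9 + 37 * q ^ 10 + 43 * q ^ 11 + 47 * q ^ 12 + 51 * q ^ 13 + 55 * q ^ 14 + 58 * q ^ 15 + 61 * q ^ 16 + 61 * q ^ 17 + 62 * q ^ 18 + 61 * q ^ 19 + 61 * q ^ 20 + 58 * q ^ 21 + 55 * q ^ 22 + 51 * q ^ 23 + 47 * q ^ 24 + 43 * q ^ 25 + 37 * q ^ 26 + 32 * q ^ 27 + 26 * q ^ 28 + 22 * q ^ 29 + 17 * q ^ 30 + 13 * q ^ 31 + 9 * q ^ 32 + 6 * q ^ 33 + 4 * q ^ 34 + 2 * q ^ 35 + q ^ 36) := by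
  have h1 := card_fixed (e6R K) e6_hn (weylOK_E6 (e6R K).wf e6_hn) e6_hinv gaut_roots_E6 φ
    Cfsg.Agent.Helper18.twTab_E6 e6_twTab2 e6_cwOK
    (blocks_of_checks Cfsg.Agent.Helper18.twTab_E6 e6_twTab2 (e6R K).wf e6_hn e6_blocksChk)
    e6_hnfix (e6_hH K)
  have hsum : (e6Cw.map fun bs : List (List ℕ) => Nat.card {u : GL chevE6.Idx K //
      u ∈ Subgroup.closure (umGens (e6R K).xadd bs.flatten) ∧ e6Sig φ u = u}).sum =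
      (e6WT.map fun x => q ^ x.2.2.2.2.2.2).sum := by
    rw [e6Cw, List.map_map]
    exact congrArg List.sum (List.map_congr_left (fun x hx => e6W_card_Uw hq hK φ hφ hx))
  rw [h1, e6_card_U hq hK φ hφ, hsum, e6W_poly q]

end

/-- `gcd(3, q + 1) · |²E₆(q)| = q³⁶ (q² - 1)(q⁵ + 1)(q⁶ - 1)(q⁸ - 1)(q⁹ + 1)(q¹² - 1)`. -/
theorem card_twistedE6 {K : Type*} [Field K] [Fintype K] {q : ℕ} (hq : IsPrimePow q)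
    (hK : Fintype.card K = q ^ 2) :
    Nat.gcd 3 (q + 1) * Nat.card ↥(twistedE6 K q) =
      q ^ 36 * (q ^ 2 - 1) * (q ^ 5 + 1) * (q ^ 6 - 1) * (q ^ 8 - 1) * (q ^ 9 + 1) * (q ^ 12 - 1) := by
  obtain ⟨φ, hφ⟩ := exists_frob hq (by norm_num : (2 : ℕ) ≠ 0) hK
  have e : Nat.card ↥(twistedE6 K q) =
      Nat.card {g : GL chevE6.Idx K // g ∈ chevE6.group K ∧ e6Sig φ g = g} := by
    rw [twistedE6_eq q φ hφ (e6R K).xadd]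
    exact Nat.card_congr (Equiv.subtypeEquivRight fun g => e6_mem_tw_iff φ hq hK hφ)
  rw [e, e6_card_fixed hq hK φ hφ]
  have hH := e6_card_fixedH φ hq hK hφ
  generalize Nat.card {a : GL chevE6.Idx K // a ∈ chevE6.diagonalSubgroup K ∧ e6Sig φ a = a} = h at hH ⊢
  generalize Nat.gcd 3 (q + 1) = d at hH ⊢
  have h1 : 1 ≤ q := hq.one_lt.le
  have h2 : 1 ≤ q ^ 2 := Nat.one_le_pow _ _ h1
  have h6 : 1 ≤ q ^ 6 := Nat.one_le_pow _ _ h1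
  have h8 : 1 ≤ q ^ 8 := Nat.one_le_pow _ _ h1
  have h12 : 1 ≤ q ^ 12 := Nat.one_le_pow _ _ h1
  have key : (q ^ 2 - 1) ^ 2 * (q - 1) ^ 2 * (1 + 2 * q + 4 * q ^ 2 + 6 * q ^ 3 + 9 * q ^ 4 + 13 * q ^ 5 + 17 * q ^ 6 + 22 * q ^ 7 + 26 * q ^ 8 + 32 * q ^ 9 + 37 * q ^ 10 + 43 * q ^ 11 + 47 * q ^ 12 + 51 * q ^ 13 + 55 * q ^ 14 + 58 * q ^ 15 + 61 * q ^ 16 + 61 * q ^ 17 + 62 * q ^ 18 + 61 * q ^ 19 + 61 * q ^ 20 + 58 * q ^ 21 + 55 * q ^ 22 + 51 * q ^ 23 + 47 * q ^ 24 + 43 * q ^ 25 + 37 * q ^ 26 + 32 * q ^ 27 + 26 * q ^ 28 + 22 * q ^ 29 + 17 * q ^ 30 + 13 * q ^ 31 + 9 * q ^ 32 + 6 * q ^ 33 + 4 * q ^ 34 + 2 * q ^ 35 + q ^ 36) =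
      (q ^ 2 - 1) * (q ^ 5 + 1) * (q ^ 6 - 1) * (q ^ 8 - 1) * (q ^ 9 + 1) * (q ^ 12 - 1) := by
    zify [h1, h2, h6, h8, h12]
    ring
  calc d * (q ^ 36 * h * (1 + 2 * q + 4 * q ^ 2 + 6 * q ^ 3 + 9 * q ^ 4 + 13 * q ^ 5 + 17 * q ^ 6 + 22 * q ^ 7 + 26 * q ^ 8 + 32 * q ^ 9 + 37 * q ^ 10 + 43 * q ^ 11 + 47 * q ^ 12 + 51 * q ^ 13 + 55 * q ^ 14 + 58 * q ^ 15 + 61 * q ^ 16 + 61 * q ^ 17 + 62 * q ^ 18 + 61 * q ^ 19 + 61 * q ^ 20 + 58 * q ^ 21 + 55 * q ^ 22 + 51 * q ^ 23 + 47 * q ^ 24 + 43 * q ^ 25 + 37 * q ^ 26 + 32 * q ^ 27 + 26 * q ^ 28 + 22 * q ^ 29 + 17 * q ^ 30 + 13 * q ^ 31 + 9 * q ^ 32 + 6 * q ^ 33 + 4 * q ^ 34 + 2 * q ^ 35 + q ^ 36)) = q ^ 36 * ((d * h) * (1 + 2 * q + 4 * q ^ 2 + 6 * q ^ 3 + 9 * q ^ 4 + 13 * q ^ 5 + 17 * q ^ 6 + 22 * q ^ 7 + 26 * q ^ 8 + 32 * q ^ 9 + 37 * q ^ 10 + 43 * q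 ^ 11 + 47 * q ^ 12 + 51 * q ^ 13 + 55 * q ^ 14 + 58 * q ^ 15 + 61 * q ^ 16 + 61 * q ^ 17 + 62 * q ^ 18 + 61 * q ^ 19 + 61 * q ^ 20 + 58 * q ^ 21 + 55 * q ^ 22 + 51 * q ^ 23 + 47 * q ^ 24 + 43 * q ^ 25 + 37 * q ^ 26 + 32 * q ^ 27 + 26 * q ^ 28 + 22 * q ^ 29 + 17 * q ^ 30 + 13 * q ^ 31 + 9 * q ^ 32 + 6 * q ^ 33 + 4 * q ^ 34 + 2 * q ^ 35 + q ^ 36)) := by ring
    _ = q ^ 36 * ((q ^ 2 - 1) ^ 2 * (q - 1) ^ 2 * (1 + 2 * q + 4 * q ^ 2 + 6 * q ^ 3 + 9 * q ^ 4 + 13 * q ^ 5 + 17 * q ^ 6 + 22 * q ^ 7 + 26 * q ^ 8 + 32 * q ^ 9 + 37 * q ^ 10 + 43 * q ^ 11 + 47 * q ^ 12 + 51 * q ^ 13 + 55 * q ^ 14 + 58 * q ^ 15 + 61 * q ^ 16 + 61 * q ^ 17 + 62 * q ^ 18 + 61 * q ^ 19 + 61 * q ^ 20 + 58 * q ^ 21 + 55 * q ^ 22 + 51 * q ^ 23 + 47 * q ^ 24 + 43 * q ^ 25 + 37 * q ^ 26 + 32 * q ^ 27 + 26 * q ^ 28 + 22 * q ^ 29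 + 17 * q ^ 30 + 13 * q ^ 31 + 9 * q ^ 32 + 6 * q ^ 33 + 4 * q ^ 34 + 2 * q ^ 35 + q ^ 36)) := by rw [hH]
    _ = q ^ 36 * (q ^ 2 - 1) * (q ^ 5 + 1) * (q ^ 6 - 1) * (q ^ 8 - 1) * (q ^ 9 + 1) * (q ^ 12 - 1) := by
      rw [key]; ring

end Cfsg.Agent.Helper17
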