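/-
helper17: piece CH of S4625 - the Chevalley groups of types G₂, F₄, E₆, E₇, E₈ in characteristic 2: the
subgroup `U` generated by the positive root elements is a Sylow 2-subgroup generated by involutions.
-/
import Cfsg.Agent.Helper17.GoodSyl
import Cfsg.Agent.Helper36.ChevRelAll
import Cfsg.Agent.Helper36.ChevBN
import Cfsg.Agent.S1027
import Cfsg.Agent.S1059
import Cfsg.Agent.S1062
import Cfsg.Agent.S1063
import Cfsg.Agent.S1064
import Cfsg.Agent.S1065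

set_option autoImplicit false

namespace Cfsg.Agent.Helper17

open Cfsg Cfsg.Lie Cfsg.Agent.Helper36

/-- `q ^ j - 1` is odd for even `q ≠ 0` and `j > 0`. -/
theorem odd_pow_sub_one {q : ℕ} (hq : Even q) (hq0 : q ≠ 0) {j : ℕ} (hj : j ≠ 0) : Odd (q ^ j - 1) := by
  have h1 : Even (q ^ j) := (Nat.even_pow' hj).mpr hq
  exact Nat.Even.sub_odd (Nat.one_le_iff_ne_zero.mpr (pow_ne_zero j hq0)) h1 odd_one

/-- `q ^ j + 1` is odd for even `q` and `j > 0`. -/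
theorem odd_pow_add_one {q : ℕ} (hq : Even q) {j : ℕ} (hj : j ≠ 0) : Odd (q ^ j + 1) :=
  ((Nat.even_pow' hj).mpr hq).add_one

/-- In characteristic 2 the root elements are involutions. -/
theorem root_sq_eq_one {D : ChevalleyDatum} {F : Type*} [Field F] [CharP F 2] (hX : XAdd D F)
    (g : GL D.Idx F) (r : ℕ) (t : F) (hg : (g : Matrix D.Idx D.Idx F) = D.x F r t) : g ^ 2 = 1 := by
  apply Units.ext
  rw [pow_two, Units.val_mul, hg, hX.add', CharTwo.add_self_eq_zero, hX.zero']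
  rfl

/-- The common part: `U` is generated by involutions and has order `2 ^ (k * N)`. -/
theorem goodSyl2_chev_aux (D : ChevalleyDatum)
    (hD : D ∈ [chevG2, chevB2, chevD4, chevF4, chevE6, chevE7, chevE8])
    (F : Type) [Field F] [Fintype F] [CharP F 2] (k c M : ℕ) (hk : Fintype.card F = 2 ^ k)
    (hG : c * Nat.card ↥(D.group F) = 2 ^ (k * (D.nroots / 2)) * M) (hM : Odd M) :
    GoodSyl2 (D.group F) := by
  have hX : XAdd D F := (bRel_of_mem (F := F) hD).xadd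
  have hU : Nat.card (D.posUnipotent F) = 2 ^ (k * (D.nroots / 2)) := by
    rw [Cfsg.Agent.S1027.result D hD, hk, pow_mul]
  refine goodSyl2_subgroupOf (D.group F) (D.posUnipotent F) (posUnipotent_le_group hX)
    (k * (D.nroots / 2)) c M hU hG hM
    {g | ∃ (r : ℕ) (t : F), D.IsPosRoot r ∧ (g : Matrix D.Idx D.Idx F) = D.x F r t} rfl ?_
  rintro g ⟨r, t, -, hg⟩
  rw [root_sq_eq_one hX g r t hg]
  exact one_mem _

/-- PIECE CH -/
theorem goodSyl2_chev (D : Lie.ChevalleyDatum)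
    (hD : D ∈ [Lie.chevG2, Lie.chevF4, Lie.chevE6, Lie.chevE7, Lie.chevE8])
    (F : Type) [Field F] [Fintype F] [CharP F 2] : GoodSyl2 (D.group F) := by
  obtain ⟨k, -, hk⟩ := FiniteField.card F 2
  have hq : Even (2 ^ (k : ℕ)) := (Nat.even_pow' k.ne_zero).mpr even_two
  have hq0 : 2 ^ (k : ℕ) ≠ 0 := by positivity
  simp only [List.mem_cons, List.not_mem_nil, or_false] at hD
  rcases hD with rfl | rfl | rfl | rfl | rfl
  · have hn : chevG2.nroots / 2 = 6 := by decide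
    refine goodSyl2_chev_aux chevG2 (by simp) F k 1 (((2 ^ (k : ℕ)) ^ 2 - 1) * ((2 ^ (k : ℕ)) ^ 6 - 1)) hk ?_ ?_
    · rw [one_mul, Cfsg.Agent.S1059.result hk, hn, pow_mul]
      ring
    · exact (odd_pow_sub_one hq hq0 (by norm_num)).mul (odd_pow_sub_one hq hq0 (by norm_num))
  · have hn : chevF4.nroots / 2 = 24 := by decide
    refine goodSyl2_chev_aux chevF4 (by simp) F k 1
      (((2 ^ (k : ℕ)) ^ 2 - 1) * ((2 ^ (k : ℕ)) ^ 6 - 1) * ((2 ^ (k : ℕ)) ^ 8 - 1) * ((2 ^ (k : ℕ)) ^ 12 - 1)) hk ?_ ?_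
    · rw [one_mul, Cfsg.Agent.S1062.result hk, hn, pow_mul]
      ring
    · exact (((odd_pow_sub_one hq hq0 (by norm_num)).mul (odd_pow_sub_one hq hq0 (by norm_num))).mul
        (odd_pow_sub_one hq hq0 (by norm_num))).mul (odd_pow_sub_one hq hq0 (by norm_num))
  · have hn : chevE6.nroots / 2 = 36 := by decide
    refine goodSyl2_chev_aux chevE6 (by simp) F k (Nat.gcd 3 (2 ^ (k : ℕ) - 1))
      (((2 ^ (k : ℕ)) ^ 2 - 1) * ((2 ^ (k : ℕ)) ^ 5 - 1) * ((2 ^ (k : ℕ)) ^ 6 - 1) * ((2 ^ (k : ℕ)) ^ 8 - 1) *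
        ((2 ^ (k : ℕ)) ^ 9 - 1) * ((2 ^ (k : ℕ)) ^ 12 - 1)) hk ?_ ?_
    · rw [Cfsg.Agent.S1063.result hk, hn, pow_mul]
      ring
    · exact (((((odd_pow_sub_one hq hq0 (by norm_num)).mul (odd_pow_sub_one hq hq0 (by norm_num))).mul
        (odd_pow_sub_one hq hq0 (by norm_num))).mul (odd_pow_sub_one hq hq0 (by norm_num))).mul
        (odd_pow_sub_one hq hq0 (by norm_num))).mul (odd_pow_sub_one hq hq0 (by norm_num))
  · have hn : chevE7.nroots / 2 = 63 := by decide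
    refine goodSyl2_chev_aux chevE7 (by simp) F k (Nat.gcd 2 (2 ^ (k : ℕ) - 1))
      (((2 ^ (k : ℕ)) ^ 2 - 1) * ((2 ^ (k : ℕ)) ^ 6 - 1) * ((2 ^ (k : ℕ)) ^ 8 - 1) * ((2 ^ (k : ℕ)) ^ 10 - 1) *
        ((2 ^ (k : ℕ)) ^ 12 - 1) * ((2 ^ (k : ℕ)) ^ 14 - 1) * ((2 ^ (k : ℕ)) ^ 18 - 1)) hk ?_ ?_
    · rw [Cfsg.Agent.S1064.result hk, hn, pow_mul]
      ring
    · exact ((((((odd_pow_sub_one hq hq0 (by norm_num)).mul (odd_pow_sub_one hq hq0 (by norm_num))).mul
        (odd_pow_sub_one hq hq0 (by norm_num))).mul (odd_pow_sub_one hq hq0 (by norm_num))).mul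
        (odd_pow_sub_one hq hq0 (by norm_num))).mul (odd_pow_sub_one hq hq0 (by norm_num))).mul
        (odd_pow_sub_one hq hq0 (by norm_num))
  · have hn : chevE8.nroots / 2 = 120 := by decide
    refine goodSyl2_chev_aux chevE8 (by simp) F k 1
      (((2 ^ (k : ℕ)) ^ 2 - 1) * ((2 ^ (k : ℕ)) ^ 8 - 1) * ((2 ^ (k : ℕ)) ^ 12 - 1) * ((2 ^ (k : ℕ)) ^ 14 - 1) *
        ((2 ^ (k : ℕ)) ^ 18 - 1) * ((2 ^ (k : ℕ)) ^ 20 - 1) * ((2 ^ (k : ℕ)) ^ 24 - 1) * ((2 ^ (k : ℕ)) ^ 30 - 1)) hk ?_ ?_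
    · rw [one_mul, Cfsg.Agent.S1065.result hk, hn, pow_mul]
      ring
    · exact (((((((odd_pow_sub_one hq hq0 (by norm_num)).mul (odd_pow_sub_one hq hq0 (by norm_num))).mul
        (odd_pow_sub_one hq hq0 (by norm_num))).mul (odd_pow_sub_one hq hq0 (by norm_num))).mul
        (odd_pow_sub_one hq hq0 (by norm_num))).mul (odd_pow_sub_one hq hq0 (by norm_num))).mul
        (odd_pow_sub_one hq hq0 (by norm_num))).mul (odd_pow_sub_one hq hq0 (by norm_num))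

end Cfsg.Agent.Helper17
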