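/-
helper17: piece TF of S4625 - the Ree groups ²F₄(q), q = 2^(2m+1) ≥ 8: the subgroup `U ∩ ²F₄(q)` is a Sylow
2-subgroup generated by the `σ`-fixed points of the eight classes of positive roots; the fixed points of a
pair class are involutions, and the square of a fixed point of a `B₂`-class is a commutator of two fixed
points of the same class (plan of helper29, on helper36's `Tz` library).
-/
import Cfsg.Agent.Helper17.GoodSyl
import Cfsg.Agent.Helper36.Tz20
import Cfsg.Agent.Helper36.Tz23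

set_option autoImplicit false
set_option maxRecDepth 100000

namespace Cfsg.Agent.Helper17

open Cfsg Cfsg.Lie Cfsg.Agent.Helper36
open scoped commutatorElement

theorem gstf_sq_conj {G : Type*} [Group G] (n s : G) :
    s ^ 2 = n * (n⁻¹ * s * n) ^ 2 * n⁻¹ := by
  rw [pow_two, pow_two]
  group

section

variable {K : Type*} [Field K] [CharP K 2] [Fintype K] {m : ℕ}

/-- With `θ = tfT`: some `x, y` have `θ(x) y + θ(y) x = 1` (field with more than two elements). -/
theorem gstf_exists_xy (hK : Fintype.card K = 2 ^ (2 * m + 1)) (hm : 1 ≤ m) :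
    ∃ x y : K, tfT K m x * y + tfT K m y * x = 1 := by
  obtain ⟨d, hd0, hd1⟩ := tf_exists_z hK hm
  have hw : d + tfT K m d ≠ 0 := by
    intro h
    have h1 : tfT K m d = d := (CharTwo.add_eq_zero.mp h).symm
    have h2 : tfL K m d = d := by
      have := tfL_tfT hK d
      rw [h1] at this
      exact this
    have h3 : d ^ 2 = d := by
      have := tfT_sq m d
      rw [h1, h2] at this
      exact this
    have h4 : d * (d - 1) = 0 := by
      rw [mul_sub, mul_one, ← pow_two, h3, sub_self]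
    rcases mul_eq_zero.mp h4 with h | h
    · exact hd0 h
    · exact hd1 (sub_eq_zero.mp h)
  set v : K := (d + tfT K m d)⁻¹ with hv
  have hv0 : v ≠ 0 := inv_ne_zero hw
  have hLv : tfL K m v ≠ 0 := (map_ne_zero _).mpr hv0
  refine ⟨v ^ 2 / tfL K m v, v ^ 2 / tfL K m v * d, ?_⟩
  have hTx : tfT K m (v ^ 2 / tfL K m v) = tfL K m v / v := by
    rw [map_div₀, map_pow, tfT_sq, tfT_tfL hK]
  rw [map_mul, hTx]
  have h5 : tfL K m v / v * (v ^ 2 / tfL K m v) = v := by
    field_simp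
  calc tfL K m v / v * (v ^ 2 / tfL K m v * d) + tfL K m v / v * tfT K m d * (v ^ 2 / tfL K m v)
      = (tfL K m v / v * (v ^ 2 / tfL K m v)) * (d + tfT K m d) := by ring
    _ = v * (d + tfT K m d) := by rw [h5]
    _ = 1 := inv_mul_cancel₀ hw

/-- The square of an element of the `B₂`-class group is a commutator of two elements of it. -/
theorem gstf_B_sq (hK : Fintype.card K = 2 ^ (2 * m + 1)) (hm : 1 ≤ m) (hX : XAdd chevF4 K)
    (t u : K) : ∃ t₁ t₂ : K, tfB hX m 27 25 28 30 t u ^ 2 =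
      ⁅tfB hX m 27 25 28 30 t₁ 0, tfB hX m 27 25 28 30 t₂ 0⁆ := by
  obtain ⟨x, y, hxy⟩ := gstf_exists_xy hK hm
  refine ⟨t * x, t * y, ?_⟩
  have hc : tfT K m (t * x) * (t * y) + tfT K m (t * y) * (t * x) = tfT K m t * t := by
    rw [map_mul, map_mul]
    calc tfT K m t * tfT K m x * (t * y) + tfT K m t * tfT K m y * (t * x)
        = tfT K m t * t * (tfT K m x * y + tfT K m y * x) := by ring
      _ = tfT K m t * t := by rw [hxy, mul_one]
  have h1 : tfB hX m 27 25 28 30 t u ^ 2 = tfB hX m 27 25 28 30 0 (tfT K m t * t) := by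
    rw [pow_two, tfB_mul hK hX, CharTwo.add_self_eq_zero, CharTwo.add_self_eq_zero, zero_add]
  have e1 : t * x + t * y = 0 + (t * y + t * x) := by ring
  have e2 : 0 + 0 + tfT K m (t * x) * (t * y) = tfT K m t * t +
      (0 + 0 + tfT K m (t * y) * (t * x)) + tfT K m 0 * (t * y + t * x) := by
    rw [map_zero, ← hc]
    linear_combination (-(tfT K m (t * y) * (t * x))) * (CharTwo.two_eq_zero : (2 : K) = 0)
  have h2 : tfB hX m 27 25 28 30 (t * x) 0 * tfB hX m 27 25 28 30 (t * y) 0 =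
      tfB hX m 27 25 28 30 0 (tfT K m t * t) *
        (tfB hX m 27 25 28 30 (t * y) 0 * tfB hX m 27 25 28 30 (t * x) 0) := by
    rw [tfB_mul hK hX, tfB_mul hK hX, tfB_mul hK hX, e1, e2]
  rw [h1, commutatorElement_def, h2]
  group

end

/-- PIECE TF -/
theorem goodSyl2_twistedF4 (K : Type) [Field K] [Fintype K] (m : ℕ) (hm : 1 ≤ m)
    (hK : Fintype.card K = 2 ^ (2 * m + 1)) : GoodSyl2 (Lie.twistedF4 K (2 ^ m)) := by
  haveI := tf_charP hK
  obtain ⟨σ, hσ⟩ := exists_tfSig hK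
  have R := bRel_of_mem (F := K) f4_mem
  have hX : XAdd chevF4 K := xAdd_of_mem (F := K) f4_mem
  obtain ⟨f, hW⟩ := wtFacts_of_mem f4_mem
  have hUfix : chevF4.posUnipotent K ⊓ twistedF4 K (2 ^ m) = chevF4.posUnipotent K ⊓ tzFix σ :=
    tf_U_inf hK hσ
  have hS_le : ∀ C ∈ f4Cls, rootsSubgroup chevF4 K C ⊓ tzFix σ ≤
      chevF4.posUnipotent K ⊓ twistedF4 K (2 ^ m) := by
    intro C hC g hg
    rw [hUfix]
    refine Subgroup.mem_inf.mpr ⟨?_, (Subgroup.mem_inf.mp hg).2⟩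
    rw [tf_U_eq]
    exact roots_mono (fun r hr => List.mem_flatten.mpr ⟨C, hC, hr⟩) (Subgroup.mem_inf.mp hg).1
  have hcl : chevF4.posUnipotent K ⊓ twistedF4 K (2 ^ m) = Subgroup.closure
      {g : GL chevF4.Idx K | ∃ C ∈ f4Cls, g ∈ rootsSubgroup chevF4 K C ⊓ tzFix σ} := by
    apply le_antisymm
    · rw [hUfix, tf_U_eq]
      exact tz_chain_le R hσ hW _ f4Cls f4Cls_chain
        (fun C hC g hg => Subgroup.subset_closure ⟨C, hC, hg⟩)
    · rw [Subgroup.closure_le]
      rintro g ⟨C, hC, hg⟩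
      exact hS_le C hC hg
  have hUc : Nat.card ↥(chevF4.posUnipotent K ⊓ twistedF4 K (2 ^ m)) = 2 ^ ((2 * m + 1) * 12) := by
    rw [tf_U_card hK, pow_mul]
  obtain ⟨q, hq2⟩ : ∃ q, 2 ^ (2 * m + 1) = 2 * q := ⟨2 ^ (2 * m), by rw [pow_succ]; ring⟩
  have hq1 : 1 ≤ q := by
    rcases Nat.eq_zero_or_pos q with h | h
    · rw [h] at hq2; simp at hq2
    · exact h
  refine goodSyl2_subgroupOf (twistedF4 K (2 ^ m)) (chevF4.posUnipotent K ⊓ twistedF4 K (2 ^ m))
    inf_le_right ((2 * m + 1) * 12) 1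
    ((2 * q - 1) * ((2 * q) ^ 3 + 1) * ((2 * q) ^ 4 - 1) * ((2 * q) ^ 6 + 1)) hUc ?_ ?_
    {g : GL chevF4.Idx K | ∃ C ∈ f4Cls, g ∈ rootsSubgroup chevF4 K C ⊓ tzFix σ} hcl ?_
  · rw [one_mul, tf_card hK, pow_mul, hq2]
    ring
  · exact Nat.not_even_iff_odd.mp (fun h => tf_odd_index q hq1 (even_iff_two_dvd.mp h))
  · rintro s ⟨C, hC, hs⟩
    obtain ⟨hs1, hs2⟩ := Subgroup.mem_inf.mp hs
    have hn := tfNW_word_fix hK hσ
    obtain ⟨d, rfl | rfl⟩ := f4Cls_form C hC
    · -- pair class: involutions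
      have h0 : (tfNW K (tfWord d))⁻¹ * s * tfNW K (tfWord d) ∈
          rootsSubgroup chevF4 K [33, 24] ⊓ tzFix σ :=
        Subgroup.mem_inf.mpr ⟨(tf_conj_roots [33, 24] (by decide) d).2 s hs1,
          mul_mem (mul_mem (inv_mem (hn d)) hs2) (hn d)⟩
      obtain ⟨t, ht⟩ := (tf_J1_iff hX hK hσ _).mp h0
      have hsq : ((tfNW K (tfWord d))⁻¹ * s * tfNW K (tfWord d)) ^ 2 = 1 := by
        rw [ht, pow_two, ← tfP_add, CharTwo.add_self_eq_zero]
        unfold tfP
        rw [map_zero, xGL_zero, xGL_zero, mul_one]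
      have e : s ^ 2 = tfNW K (tfWord d) * ((tfNW K (tfWord d))⁻¹ * s * tfNW K (tfWord d)) ^ 2 *
          (tfNW K (tfWord d))⁻¹ := gstf_sq_conj _ _
      rw [e, hsq, mul_one, mul_inv_cancel]
      exact one_mem _
    · -- B₂ class: the square is a commutator
      have h0 : (tfNW K (tfWord d))⁻¹ * s * tfNW K (tfWord d) ∈
          rootsSubgroup chevF4 K [27, 25, 28, 30] ⊓ tzFix σ :=
        Subgroup.mem_inf.mpr ⟨(tf_conj_roots [27, 25, 28, 30] (by decide) d).2 s hs1,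
          mul_mem (mul_mem (inv_mem (hn d)) hs2) (hn d)⟩
      obtain ⟨t, u, ht⟩ := (tf_J2_iff hX hK hσ _).mp h0
      obtain ⟨t₁, t₂, hsq⟩ := gstf_B_sq hK hm hX t u
      have hmemU : ∀ t' : K, tfNW K (tfWord d) * tfB hX m 27 25 28 30 t' 0 *
          (tfNW K (tfWord d))⁻¹ ∈ chevF4.posUnipotent K ⊓ twistedF4 K (2 ^ m) := by
        intro t'
        have hb : tfB hX m 27 25 28 30 t' 0 ∈ rootsSubgroup chevF4 K [27, 25, 28, 30] ⊓ tzFix σ :=
          (tf_J2_iff hX hK hσ _).mpr ⟨t', 0, rfl⟩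
        obtain ⟨hb1, hb2⟩ := Subgroup.mem_inf.mp hb
        exact hS_le _ hC (Subgroup.mem_inf.mpr
          ⟨(tf_conj_roots [27, 25, 28, 30] (by decide) d).1 _ hb1,
            mul_mem (mul_mem (hn d) hb2) (inv_mem (hn d))⟩)
      have e : s ^ 2 = ⁅tfNW K (tfWord d) * tfB hX m 27 25 28 30 t₁ 0 * (tfNW K (tfWord d))⁻¹,
          tfNW K (tfWord d) * tfB hX m 27 25 28 30 t₂ 0 * (tfNW K (tfWord d))⁻¹⁆ := by
        have e1 : s ^ 2 = tfNW K (tfWord d) *
            ((tfNW K (tfWord d))⁻¹ * s * tfNW K (tfWord d)) ^ 2 * (tfNW K (tfWord d))⁻¹ :=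
          gstf_sq_conj _ _
        rw [e1, ht, hsq, commutatorElement_def, commutatorElement_def]
        group
      rw [e]
      exact Subgroup.commutator_mem_commutator (hmemU t₁) (hmemU t₂)

end Cfsg.Agent.Helper17
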