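/-
helper17: pieces TE, TD of S4625 - the twisted groups ²E₆(q), ³D₄(q) in characteristic 2.

`TwHyp.step_decomp` is the surjectivity half of `TwHyp.card_step` (same proof): every element of `twU (row :: rs')`
is a row element times an element of `twU rs'`. Hence `U ∩ G¹` is generated by the row elements
(`TwHyp.posUnipotent_inf_eq_closure`), which are involutions in characteristic 2 (`rowElt_sq`).
-/
import Cfsg.Agent.Helper17.TwCount

set_option autoImplicit false

namespace Cfsg.Agent.Helper17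

open Cfsg Cfsg.Lie Cfsg.Agent.Helper36

section gen

variable {D : ChevalleyDatum} {F : Type*} [Field F] {η : ℕ → ℕ → ℤ} {f ht : ℕ → ℤ}
  {l e : List ℕ} {orbs : List (List ℕ)} {rows : List (List ℕ × ℕ)} {φ : F →+* F}
  {sg : GL D.Idx F → GL D.Idx F} {ε : ℕ → F}

/-- Every element of `twU (row :: rs')` is a row element times an element of `twU rs'`. -/
theorem TwHyp.step_decomp (H : TwHyp D F η f ht l e orbs rows φ sg ε) {row : List ℕ × ℕ}
    {rs' : List (List ℕ × ℕ)} (hsuf : (row :: rs') <:+ rows) :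
    ∀ g ∈ twU H.R.xadd φ e orbs (row :: rs'), ∃ t : F, ((rowO orbs row).length = 1 → φ t = t) ∧
      ∃ a ∈ twU H.R.xadd φ e orbs rs', g = rowElt H.R φ e orbs row t * a := by
  classical
  have hsuf' : rs' <:+ rows := (List.suffix_cons row rs').trans hsuf
  obtain ⟨pre, hpre⟩ := id hsuf
  have hrow : row ∈ rows := by rw [← hpre]; simp
  have hrs'sub : ∀ r' ∈ rs', r' ∈ rows := fun r' hr' => by rw [← hpre]; simp [hr']
  -- the row
  have hL : ValidW D (rowL orbs row) := validW_flatO H.hOK row.1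
  have ho : rowO orbs row ∈ orbs := H.tab.orb_mem row hrow
  have holt : ∀ i ∈ rowO orbs row, i < D.rank := (orbOK_spec (H.hOK _ ho)).2.1
  obtain ⟨i₀, o', ho'⟩ := List.exists_cons_of_ne_nil (H.tab.ne_nil row hrow)
  have hroots : rowRoots D orbs row = (rowO orbs row).map fun i => wW D (rowL orbs row) (D.simple i) := rfl
  have hi₀ : i₀ ∈ rowO orbs row := by rw [ho']; exact List.mem_cons_self
  obtain ⟨r₀, hr₀⟩ : ∃ r₀, r₀ = wW D (rowL orbs row) (D.simple i₀) := ⟨_, rfl⟩
  have hhead : (rowRoots D orbs row).headD 0 = r₀ := by rw [hroots, ho', hr₀]; rfl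
  have hheadO : (rowO orbs row).headD 0 = i₀ := by rw [ho']; rfl
  obtain ⟨m, hm_def⟩ : ∃ m, m = rowHt D ht orbs row := ⟨_, rfl⟩
  have hmr₀ : ht r₀ = m := by rw [hm_def]; unfold rowHt; rw [hhead]
  have hr₀mem : r₀ ∈ rowRoots D orbs row := by
    rw [hroots, hr₀]; exact List.mem_map_of_mem hi₀
  have hrowpos : ∀ r ∈ rowRoots D orbs row, D.IsPosRoot r ∧ ht r = m := by
    intro r hr; rw [hm_def]; exact H.tab.pos row hrow r hr
  have hr₀pos : D.IsPosRoot r₀ := (hrowpos r₀ hr₀mem).1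
  have hm : 0 < m := by rw [← hmr₀]; exact H.tab.ht_pos r₀ (mem_posRoots.mpr hr₀pos)
  -- disjointness and order of the rows
  have hnd : (rowRoots D orbs row ++ allRoots D orbs rs').Nodup := by
    have h1 := H.tab.nodup
    rw [← hpre] at h1
    unfold allRoots at h1
    rw [List.flatMap_append] at h1
    have h2 := (List.nodup_append.mp h1).2.1
    rwa [List.flatMap_cons] at h2
  have hndrow : (rowRoots D orbs row).Nodup := (List.nodup_append.mp hnd).1
  have hdisj : ∀ r ∈ rowRoots D orbs row, r ∉ allRoots D orbs rs' := fun r hr hr' =>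
    (List.nodup_append.mp hnd).2.2 r hr r hr' rfl
  have hsorted : ∀ row' ∈ rs', m ≤ rowHt D ht orbs row' := by
    have h1 := H.tab.sorted
    rw [← hpre, List.pairwise_append] at h1
    rw [hm_def]
    exact fun row' h' => (List.pairwise_cons.mp h1.2.1).1 row' h'
  -- the lists of roots
  obtain ⟨S, hS_def⟩ : ∃ S, S = rowsList D orbs (row :: rs') := ⟨_, rfl⟩
  obtain ⟨S', hS'_def⟩ : ∃ S', S' = rowsList D orbs rs' := ⟨_, rfl⟩
  have hSsub : S.Sublist D.posRoots := by rw [hS_def]; exact rowsList_sublist D orbs _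
  have hS'sub : S'.Sublist D.posRoots := by rw [hS'_def]; exact rowsList_sublist D orbs _
  have hSht : ∀ s ∈ S, m ≤ ht s := by
    intro s hs
    rw [hS_def] at hs
    obtain ⟨-, hs2⟩ := mem_rowsList.mp hs
    rw [allRoots_cons, List.mem_append] at hs2
    rcases hs2 with h1 | h1
    · rw [(hrowpos s h1).2]
    · obtain ⟨row', hrow', hs3⟩ := mem_allRoots.mp h1
      rw [(H.tab.pos row' (hrs'sub row' hrow') s hs3).2]
      exact hsorted row' hrow'
  have hS'S : ∀ s ∈ S', s ∈ S := by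
    intro s hs
    rw [hS'_def] at hs
    rw [hS_def]
    obtain ⟨h1, h2⟩ := mem_rowsList.mp hs
    exact mem_rowsList.mpr ⟨h1, by rw [allRoots_cons]; exact List.mem_append_right _ h2⟩
  have hS'ht : ∀ s ∈ S', m ≤ ht s := fun s hs => hSht s (hS'S s hs)
  have hrowS : ∀ r ∈ rowRoots D orbs row, r ∈ S := by
    intro r hr
    rw [hS_def]
    exact mem_rowsList.mpr ⟨(hrowpos r hr).1, by rw [allRoots_cons]; exact List.mem_append_left _ hr⟩
  have hr₀S' : r₀ ∉ S' := by
    rw [hS'_def]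
    exact fun h => hdisj r₀ hr₀mem (mem_rowsList.mp h).2
  have hSpos : ∀ s ∈ S, s < D.nroots := fun s hs => (mem_posRoots.mp (hSsub.subset hs)).1
  have hS'pos : ∀ s ∈ S', s < D.nroots := fun s hs => (mem_posRoots.mp (hS'sub.subset hs)).1
  have hSS'le : rootsSubgroup D F S' ≤ rootsSubgroup D F S := by
    unfold rootsSubgroup
    apply Subgroup.closure_mono
    rintro g ⟨r, hr, t, hg⟩
    exact ⟨r, hS'S r hr, t, hg⟩
  have hcoefS : ∀ g ∈ rootsSubgroup D F S, ∃ c : ℕ → F,
      (g : Matrix D.Idx D.Idx F) = D.wordMat F (S.map fun r => (r, c r)) := by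
    intro g hg; rw [hS_def] at hg ⊢; exact H.exists_coeff hsuf hg
  have hcoefS' : ∀ g ∈ rootsSubgroup D F S', ∃ c : ℕ → F,
      (g : Matrix D.Idx D.Idx F) = D.wordMat F (S'.map fun r => (r, c r)) := by
    intro g hg; rw [hS'_def] at hg ⊢; exact H.exists_coeff hsuf' hg
  have hlvl : ∀ g ∈ rootsSubgroup D F S, Lvl D ht m (g : Matrix D.Idx D.Idx F) := by
    intro g hg
    obtain ⟨c, hc⟩ := hcoefS g hg
    rw [hc]
    refine lvl_wordMat H.hW H.hA hm.le _ ?_
    intro p hp
    obtain ⟨s, hs, rfl⟩ := List.mem_map.mp hp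
    exact ⟨hSpos s hs, hSht s hs⟩
  -- the coordinate at `r₀`
  obtain ⟨i', hi'⟩ := H.tab.unit r₀ (mem_posRoots.mpr hr₀pos)
  obtain ⟨A, hA_def⟩ : ∃ A : F, A = -((D.cartan i' r₀ : ℤ) : F) := ⟨_, rfl⟩
  have hA0 : A ≠ 0 := by
    rw [hA_def]
    rcases hi' with h | h <;> rw [h] <;> simp
  have hκmul : ∀ g ∈ rootsSubgroup D F S, ∀ g' ∈ rootsSubgroup D F S,
      ((g * g' : GL D.Idx F) : Matrix D.Idx D.Idx F) (Sum.inr ⟨r₀, hr₀pos.1⟩) (Sum.inl i') =
        (g : Matrix D.Idx D.Idx F) (Sum.inr ⟨r₀, hr₀pos.1⟩) (Sum.inl i') +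
          (g' : Matrix D.Idx D.Idx F) (Sum.inr ⟨r₀, hr₀pos.1⟩) (Sum.inl i') := by
    intro g hg g' hg'
    rw [Units.val_mul]
    exact Lvl.mul_entry hm (hlvl g hg) (hlvl g' hg') (by simp only [idxWt]; rw [hmr₀]; ring)
  have hκS : ∀ (g : GL D.Idx F) (c : ℕ → F),
      (g : Matrix D.Idx D.Idx F) = D.wordMat F (S.map fun r => (r, c r)) →
      (g : Matrix D.Idx D.Idx F) (Sum.inr ⟨r₀, hr₀pos.1⟩) (Sum.inl i') = A * c r₀ := by
    intro g c hc
    rw [hc, H.entry hSsub hm hSht hr₀pos.1 hmr₀ i' c, if_pos (hrowS r₀ hr₀mem), hA_def]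
  have hκS' : ∀ g ∈ rootsSubgroup D F S',
      (g : Matrix D.Idx D.Idx F) (Sum.inr ⟨r₀, hr₀pos.1⟩) (Sum.inl i') = 0 := by
    intro g hg
    obtain ⟨c, hc⟩ := hcoefS' g hg
    rw [hc, H.entry hS'sub hm hS'ht hr₀pos.1 hmr₀ i' c, if_neg hr₀S', mul_zero]
  -- the elements of the row
  obtain ⟨ε₀, hε₀⟩ : ∃ ε₀ : F, ε₀ = (eW D η (rowL orbs row) (D.simple i₀) : F) := ⟨_, rfl⟩
  have hsi₀ : D.simple i₀ < D.nroots := H.R.wf.simple_lt i₀ (holt i₀ hi₀)
  have hε₀sq : ε₀ * ε₀ = 1 := by rw [hε₀]; exact H.R.eW_mul_self hL hsi₀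
  have hε₀0 : ε₀ ≠ 0 := fun h => by rw [h, mul_zero] at hε₀sq; exact zero_ne_one hε₀sq
  have hφε₀ : φ ε₀ = ε₀ := by rw [hε₀, map_intCast]
  have hyS : ∀ t : F, rowElt H.R φ e orbs row t ∈ rootsSubgroup D F S := by
    intro t
    rw [H.rowElt_eq hrow]
    apply wordGL_mem
    intro p hp
    obtain ⟨i, hi, rfl⟩ := List.mem_map.mp hp
    exact Subgroup.subset_closure ⟨_, hrowS _ (by rw [hroots]; exact List.mem_map_of_mem hi), _, xGL_val _ _ _⟩
  have hκy : ∀ t : F, ((rowElt H.R φ e orbs row t : GL D.Idx F) : Matrix D.Idx D.Idx F)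
      (Sum.inr ⟨r₀, hr₀pos.1⟩) (Sum.inl i') = A * (ε₀ * t) := by
    intro t
    rw [H.rowElt_eq hrow, wordGL_val]
    unfold conjWord
    rw [word_entry H.hW H.hA hm hr₀pos.1 hmr₀ i' _ (by
      intro p hp
      obtain ⟨i, hi, rfl⟩ := List.mem_map.mp hp
      have h1 := hrowpos _ (by rw [hroots]; exact List.mem_map_of_mem hi)
      exact ⟨h1.1.1, h1.2.ge⟩), hr₀,
      filter_map_sum_inj (fun i => wW D (rowL orbs row) (D.simple i))
        (fun i => (eW D η (rowL orbs row) (D.simple i) : F) * coef φ e t i) (by rw [← hroots]; exact hndrow) hi₀,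
      ← hr₀, ← hA_def, ← hε₀]
    have : coef φ e t i₀ = t := by
      unfold coef
      rw [← hheadO, H.tab.head_e row hrow]
      rfl
    rw [this]
  -- the bijection
  have hmemU : ∀ a : GL D.Idx F, a ∈ twU H.R.xadd φ e orbs (row :: rs') ↔
      a ∈ rootsSubgroup D F S ∧ a ∈ twGroup H.R.xadd φ e orbs := by
    intro a
    rw [hS_def]
    unfold twU
    exact Subgroup.mem_inf
  have hmemU' : ∀ a : GL D.Idx F, a ∈ twU H.R.xadd φ e orbs rs' ↔
      a ∈ rootsSubgroup D F S' ∧ a ∈ twGroup H.R.xadd φ e orbs := by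
    intro a
    rw [hS'_def]
    unfold twU
    exact Subgroup.mem_inf
  intro g hg
  obtain ⟨hg1, hg2⟩ := (hmemU g).mp hg
  obtain ⟨c, hc⟩ := hcoefS g hg1
  -- the parameter
  have ht₀ : (rowO orbs row).length = 1 → φ (ε₀ * c r₀) = ε₀ * c r₀ := by
    intro hlen
    have hfix := H.tab.fix row hrow hlen
    rw [hhead] at hfix
    have h1 := H.sigma_coeff hSsub hm hSht hc (H.fixed g hg2) (hrowS r₀ hr₀mem)
      (by rw [hfix]; exact hrowS r₀ hr₀mem) hmr₀
    rw [hfix] at h1
    -- the sign at `r₀` is `1`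
    have hy1 := H.rowElt_mem hrow (t := (1 : F)) (fun _ => map_one φ)
    obtain ⟨c1, hc1⟩ := hcoefS _ (hyS 1)
    have h2 := H.sigma_coeff hSsub hm hSht hc1 (H.fixed _ hy1) (hrowS r₀ hr₀mem)
      (by rw [hfix]; exact hrowS r₀ hr₀mem) hmr₀
    rw [hfix] at h2
    have h3 : c1 r₀ = ε₀ := by
      have h4 := hκS _ c1 hc1
      rw [hκy, mul_one] at h4
      exact (mul_left_cancel₀ hA0 h4).symm
    rw [h3, hφε₀] at h2
    have h5 : ε r₀ = 1 := by
      have : 1 * ε₀ = ε r₀ * ε₀ := by rw [one_mul]; exact h2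
      exact (mul_right_cancel₀ hε₀0 this).symm
    rw [h5, one_mul] at h1
    rw [map_mul, hφε₀, ← h1]
  -- the remainder
  obtain ⟨a, ha_def⟩ : ∃ a, a = (rowElt H.R φ e orbs row (ε₀ * c r₀))⁻¹ * g := ⟨_, rfl⟩
  have hga : g = rowElt H.R φ e orbs row (ε₀ * c r₀) * a := by rw [ha_def]; group
  have haS : a ∈ rootsSubgroup D F S := by rw [ha_def]; exact mul_mem (inv_mem (hyS _)) hg1
  have haG : a ∈ twGroup H.R.xadd φ e orbs := by
    rw [ha_def]; exact mul_mem (inv_mem (H.rowElt_mem hrow ht₀)) hg2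
  obtain ⟨c', hc'⟩ := hcoefS a haS
  have hc'0 : c' r₀ = 0 := by
    have h1 := hκmul _ (hyS (ε₀ * c r₀)) a haS
    rw [← hga, hκS g c hc, hκy, hκS a c' hc', ← mul_assoc ε₀, hε₀sq, one_mul] at h1
    have h2 : A * c' r₀ = 0 := by linear_combination -h1
    rcases mul_eq_zero.mp h2 with h3 | h3
    · exact absurd h3 hA0
    · exact h3
  have hiter := H.tab.iter row hrow
  rw [hhead] at hiter
  have hc'k : ∀ k, k < (rowRoots D orbs row).length → c' ((permRootL D l)^[k] r₀) = 0 := by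
    intro k
    induction k with
    | zero => intro _; exact hc'0
    | succ k ih =>
      intro hk
      have hk' : k < (rowRoots D orbs row).length := Nat.lt_of_succ_lt hk
      have hmem1 : (permRootL D l)^[k] r₀ ∈ rowRoots D orbs row := by
        rw [hiter, List.mem_iterate]; exact ⟨k, hk', rfl⟩
      have hmem2 : (permRootL D l)^[k + 1] r₀ ∈ rowRoots D orbs row := by
        rw [hiter, List.mem_iterate]; exact ⟨k + 1, hk, rfl⟩
      rw [Function.iterate_succ_apply'] at hmem2 ⊢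
      rw [H.sigma_coeff hSsub hm hSht hc' (H.fixed a haG) (hrowS _ hmem1) (hrowS _ hmem2)
        (hrowpos _ hmem1).2, ih hk', map_zero, mul_zero]
  have hc'row : ∀ r ∈ rowRoots D orbs row, c' r = 0 := by
    intro r hr
    rw [hiter, List.mem_iterate] at hr
    obtain ⟨k, hk, rfl⟩ := hr
    exact hc'k k hk
  have hfilter : S.filter (fun r => decide (r ∈ allRoots D orbs rs')) = S' := by
    rw [hS_def, hS'_def]
    unfold rowsList
    rw [List.filter_filter]
    apply List.filter_congr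
    intro r _
    rw [allRoots_cons]
    by_cases h : r ∈ allRoots D orbs rs'
    · simp [h]
    · simp [h]
  have haS' : a ∈ rootsSubgroup D F S' := by
    have h1 := wordMat_filter_zero H.hE S hSpos (fun r => decide (r ∈ allRoots D orbs rs')) c' (by
      intro r hr hP
      rw [decide_eq_false_iff_not] at hP
      rw [hS_def] at hr
      have h2 := (mem_rowsList.mp hr).2
      rw [allRoots_cons, List.mem_append] at h2
      rcases h2 with h3 | h3
      · exact hc'row r h3
      · exact absurd h3 hP)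
    rw [hfilter] at h1
    obtain ⟨g', hg'1, hg'2⟩ := exists_wordGL H.hE S' (S'.map fun r => (r, c' r)) (by
      intro p hp
      obtain ⟨s, hs, rfl⟩ := List.mem_map.mp hp
      exact hs)
    have : a = g' := Units.ext (by rw [hc', h1, hg'2])
    rw [this]; exact hg'1
  exact ⟨ε₀ * c r₀, ht₀, a, (hmemU' a).mpr ⟨haS', haG⟩, hga⟩

/-- The row elements with admissible parameters. -/
def rowGens (R : BRel D F η) (φ : F →+* F) (e : List ℕ) (orbs : List (List ℕ))
    (rows : List (List ℕ × ℕ)) : Set (GL D.Idx F) :=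
  {g | ∃ row ∈ rows, ∃ t : F, ((rowO orbs row).length = 1 → φ t = t) ∧ g = rowElt R φ e orbs row t}

theorem TwHyp.twU_le_closure (H : TwHyp D F η f ht l e orbs rows φ sg ε) :
    ∀ rs : List (List ℕ × ℕ), rs <:+ rows →
      twU H.R.xadd φ e orbs rs ≤ Subgroup.closure (rowGens H.R φ e orbs rows) := by
  intro rs
  induction rs with
  | nil =>
    intro _
    have h1 : rowsList D orbs [] = [] := by
      unfold rowsList allRoots
      rw [List.filter_eq_nil_iff]
      intro r _
      simp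
    have h2 : twU H.R.xadd φ e orbs [] = ⊥ := by
      unfold twU
      rw [h1, rootsSubgroup_nil, bot_inf_eq]
    rw [h2]
    exact bot_le
  | cons row rs' ih =>
    intro hsuf g hg
    obtain ⟨t, ht', a, ha, rfl⟩ := H.step_decomp hsuf g hg
    have hrow : row ∈ rows := by
      obtain ⟨pre, hpre⟩ := hsuf
      rw [← hpre]
      simp
    exact mul_mem (Subgroup.subset_closure ⟨row, hrow, t, ht', rfl⟩)
      (ih ((List.suffix_cons row rs').trans hsuf) ha)

/-- A row element lies in `U`. -/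
theorem TwHyp.rowElt_mem_posUnipotent (H : TwHyp D F η f ht l e orbs rows φ sg ε) {row : List ℕ × ℕ}
    (hrow : row ∈ rows) (t : F) : rowElt H.R φ e orbs row t ∈ D.posUnipotent F := by
  rw [H.rowElt_eq hrow]
  apply wordGL_mem
  intro p hp
  unfold conjWord at hp
  obtain ⟨i, hi, rfl⟩ := List.mem_map.mp hp
  have hmem : wW D (rowL orbs row) (D.simple i) ∈ rowRoots D orbs row := List.mem_map_of_mem hi
  exact Subgroup.subset_closure ⟨_, _, (H.tab.pos row hrow _ hmem).1, xGL_val _ _ _⟩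

/-- `U ∩ G¹` is generated by the row elements. -/
theorem TwHyp.posUnipotent_inf_eq_closure (H : TwHyp D F η f ht l e orbs rows φ sg ε) :
    D.posUnipotent F ⊓ twGroup H.R.xadd φ e orbs = Subgroup.closure (rowGens H.R φ e orbs rows) := by
  apply le_antisymm
  · have h1 : rowsList D orbs rows = D.posRoots := by
      unfold rowsList
      rw [List.filter_eq_self]
      intro r hr
      rw [decide_eq_true_eq]
      exact H.tab.cover r hr
    have h2 := H.twU_le_closure rows List.suffix_rfl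
    unfold twU at h2
    rw [h1, ← posUnipotent_eq] at h2
    exact h2
  · rw [Subgroup.closure_le]
    rintro g ⟨row, hrow, t, ht', rfl⟩
    exact Subgroup.mem_inf.mpr ⟨H.rowElt_mem_posUnipotent hrow t, H.rowElt_mem hrow ht'⟩

/-- In characteristic 2 the row elements are involutions. -/
theorem TwHyp.rowElt_sq [CharP F 2] (H : TwHyp D F η f ht l e orbs rows φ sg ε) {row : List ℕ × ℕ}
    (hrow : row ∈ rows) (t : F) : rowElt H.R φ e orbs row t ^ 2 = 1 := by
  have ho : rowO orbs row ∈ orbs := H.tab.orb_mem row hrow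
  have hOK := H.hOK _ ho
  have hsq : wordGL H.R.xadd (sw D (rowO orbs row) (coef φ e t)) *
      wordGL H.R.xadd (sw D (rowO orbs row) (coef φ e t)) = 1 := by
    rw [sw_add H.R.xadd (orbComm_of_OK H.R hOK) (orbOK_spec hOK).1,
      ← sw_zero H.R.xadd (rowO orbs row)]
    apply sw_congr
    intro i _
    exact CharTwo.add_self_eq_zero _
  unfold rowElt
  have e1 : ∀ n w : GL D.Idx F, (n * w * n⁻¹) ^ 2 = n * (w * w) * n⁻¹ := by
    intro n w
    rw [pow_two]
    group
  rw [e1, hsq, mul_one, mul_inv_cancel]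

end gen

end Cfsg.Agent.Helper17
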