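/-
helper17: the twisted group `³D₄` as a `twGroup` (see `TwGen`): orbits `{p₂}, {p₁, p₃, p₄}`.
-/
import Cfsg.Agent.Helper17.TwGen
import Cfsg.Prelude.Def_LieTwisted

set_option autoImplicit false

namespace Cfsg.Agent.Helper17

open Cfsg Cfsg.Lie Cfsg.Agent.Helper36

/-- The exponents of the field automorphism at the fundamental roots of `D₄`. -/
def eD4 : List ℕ := [0, 0, 1, 2]

/-- The orbits of the diagram symmetry on the fundamental roots of `D₄` (indices from `0`). -/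
def orbsD4 : List (List ℕ) := [[1], [0, 2, 3]]

theorem orbOK_D4 : ∀ o ∈ orbsD4, orbOK chevD4 o = true := by decide +kernel

theorem hD_D4 : chevD4 ∈ [chevG2, chevB2, chevD4, chevF4, chevE6, chevE7, chevE8] := by simp

section

variable {K : Type*} [Field K]

theorem simple_D4 : chevD4.simple 0 = d4p1 ∧ chevD4.simple 1 = d4p2 ∧ chevD4.simple 2 = d4p3 ∧
    chevD4.simple 3 = d4p4 ∧
    chevD4.neg (chevD4.simple 0) = d4m1 ∧ chevD4.neg (chevD4.simple 1) = d4m2 ∧
    chevD4.neg (chevD4.simple 2) = d4m3 ∧ chevD4.neg (chevD4.simple 3) = d4m4 := by decide +kernel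

theorem sw_D4_1 (φ : K →+* K) (t : K) : sw chevD4 [1] (coef φ eD4 t) = [(d4p2, t)] := by
  simp [sw, coef, eD4, simple_D4.2.1]

theorem swN_D4_1 (φ : K →+* K) (t : K) : swN chevD4 [1] (coef φ eD4 t) = [(d4m2, t)] := by
  simp [swN, coef, eD4, simple_D4.2.2.2.2.2.1]

theorem sw_D4_023 (φ : K →+* K) (t : K) :
    sw chevD4 [0, 2, 3] (coef φ eD4 t) = [(d4p1, t), (d4p3, φ t), (d4p4, φ (φ t))] := by
  simp [sw, coef, eD4, simple_D4.1, simple_D4.2.2.1, simple_D4.2.2.2.1]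

theorem swN_D4_023 (φ : K →+* K) (t : K) :
    swN chevD4 [0, 2, 3] (coef φ eD4 t) = [(d4m1, t), (d4m3, φ t), (d4m4, φ (φ t))] := by
  simp [swN, coef, eD4, simple_D4.2.2.2.2.1, simple_D4.2.2.2.2.2.2.1, simple_D4.2.2.2.2.2.2.2]

/-- `³D₄` is the twisted group of the orbits `orbsD4`. -/
theorem twistedD4_eq (q : ℕ) (φ : K →+* K) (hφ : ∀ t, φ t = t ^ q) (hX : XAdd chevD4 K) :
    twistedD4 K q = twGroup hX φ eD4 orbsD4 := by
  have hφ2 : ∀ t, φ (φ t) = t ^ (q ^ 2) := fun t => by rw [hφ, hφ, ← pow_mul, sq]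
  unfold twistedD4 ChevalleyDatum.genSubgroup twGroup
  congr 1
  ext g
  constructor
  · rintro ⟨w, hw, hg⟩
    rcases hw with ⟨t, ht, r, hr, rfl⟩ | ⟨t, rs, hrs, rfl⟩
    · have ht' : φ t = t := (hφ t).trans ht
      simp only [List.mem_cons, List.not_mem_nil, or_false] at hr
      rcases hr with rfl | rfl
      · exact ⟨[1], by simp [orbsD4], t, fun _ => ht', Or.inl (Units.ext (by rw [hg, wordGL_val, sw_D4_1]))⟩
      · exact ⟨[1], by simp [orbsD4], t, fun _ => ht', Or.inr (Units.ext (by rw [hg, wordGL_val, swN_D4_1]))⟩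
    · simp only [List.mem_cons, List.not_mem_nil, or_false] at hrs
      rcases hrs with rfl | rfl
      · exact ⟨[0, 2, 3], by simp [orbsD4], t, fun h => absurd h (by simp),
          Or.inl (Units.ext (by rw [hg, wordGL_val, sw_D4_023, hφ2, hφ]))⟩
      · exact ⟨[0, 2, 3], by simp [orbsD4], t, fun h => absurd h (by simp),
          Or.inr (Units.ext (by rw [hg, wordGL_val, swN_D4_023, hφ2, hφ]))⟩
  · rintro ⟨o, ho, t, ht, hg⟩
    simp only [orbsD4, List.mem_cons, List.not_mem_nil, or_false] at ho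
    rcases ho with rfl | rfl
    · have ht' : t ^ q = t := (hφ t).symm.trans (ht rfl)
      rcases hg with rfl | rfl
      · exact ⟨[(d4p2, t)], Or.inl ⟨t, ht', d4p2, by simp, rfl⟩, by rw [wordGL_val, sw_D4_1]⟩
      · exact ⟨[(d4m2, t)], Or.inl ⟨t, ht', d4m2, by simp, rfl⟩, by rw [wordGL_val, swN_D4_1]⟩
    · rcases hg with rfl | rfl
      · exact ⟨[(d4p1, t), (d4p3, t ^ q), (d4p4, t ^ (q ^ 2))], Or.inr ⟨t, (d4p1, d4p3, d4p4), by simp, rfl⟩,
          by rw [wordGL_val, sw_D4_023, hφ2, hφ]⟩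
      · exact ⟨[(d4m1, t), (d4m3, t ^ q), (d4m4, t ^ (q ^ 2))], Or.inr ⟨t, (d4m1, d4m3, d4m4), by simp, rfl⟩,
          by rw [wordGL_val, swN_D4_023, hφ2, hφ]⟩

end

end Cfsg.Agent.Helper17
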