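/-
helper17: the table of the orbits of the triality on the positive roots of `D₄` (for `³D₄`).
-/
import Cfsg.Agent.Helper17.TwMain
import Cfsg.Agent.Helper17.TwD4
import Cfsg.Agent.Helper18.GAutTab

set_option autoImplicit false

namespace Cfsg.Agent.Helper17

open Cfsg Cfsg.Lie Cfsg.Agent.Helper36 Cfsg.Agent.Helper18

/-- The triality `p₁ → p₃ → p₄ → p₁` (indices from `0`). -/
def lD4 : List ℕ := [2, 1, 3, 0]

/-- The orbits on the positive roots of `D₄`: twisted word (indices of orbits) and orbit of fundamental roots. -/
def rowsD4 : List (List ℕ × ℕ) := [([], 0), ([], 1), ([0], 1), ([1, 0], 1), ([1], 0), ([0, 1], 0)]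

theorem twTab_D4 : TwTab chevD4 (htW chevD4 coordWD4) lD4 eD4 orbsD4 rowsD4 where
  orb_mem := by decide +kernel
  ne_nil := by decide +kernel
  head_e := by decide +kernel
  pos := by decide +kernel
  iter := by decide +kernel
  fix := by decide +kernel
  unit := by decide +kernel
  nodup := by decide +kernel
  sorted := by decide +kernel
  cover := by decide +kernel
  ht_perm := by decide +kernel
  perm_nodup := by decide +kernel
  ht_pos := by decide +kernel

end Cfsg.Agent.Helper17
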