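/-
helper17: pieces TE, TD of S4625 - `U ∩ G¹` is a Sylow 2-subgroup of the twisted groups ²E₆(q), ³D₄(q) in
characteristic 2, generated by involutions.
-/
import Cfsg.Agent.Helper17.GSTw
import Cfsg.Agent.Helper17.GSCH
import Cfsg.Agent.Helper17.TwMain
import Cfsg.Agent.Helper17.TwE6U
import Cfsg.Agent.Helper17.TwD4U
import Cfsg.Agent.Helper17.TwField
import Cfsg.Agent.Helper18.GAut2
import Cfsg.Agent.S1066
import Cfsg.Agent.S1067
import Cfsg.Agent.S1086
import Cfsg.Agent.S1088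

set_option autoImplicit false

namespace Cfsg.Agent.Helper17

open Cfsg Cfsg.Lie Cfsg.Agent.Helper36 Cfsg.Agent.Helper18

section

variable {D : ChevalleyDatum} {F : Type*} [Field F]

/-- `U ∩ G¹` is generated by involutions, for a twisted group in characteristic 2 (same hypotheses as
`card_twisted_unipotent`). -/
theorem twisted_unipotent_gen [CharP F 2]
    (hD : D ∈ [chevG2, chevB2, chevD4, chevF4, chevE6, chevE7, chevE8])
    (φ : F →+* F) (e l : List ℕ) (orbs : List (List ℕ)) (rows : List (List ℕ × ℕ)) (Ws : List ℕ)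
    (hC : RootCoords D (fun k r => wt (Ws.getD k 0) r))
    (tab : TwTab D (htW D Ws) l e orbs rows)
    (hOK : ∀ o ∈ orbs, orbOK D o = true)
    (hsym : symActOK D l = true) (hl : ∀ j, j < D.rank → l.getD j 0 < D.rank)
    (α : ↥(D.group F) ≃* ↥(D.group F))
    (hα : ∀ (g : ↥(D.group F)) (i : ℕ) (t : F), i < D.rank →
      (((g : GL D.Idx F) : Matrix D.Idx D.Idx F) = D.x F (D.simple i) t →
        ((α g : GL D.Idx F) : Matrix D.Idx D.Idx F) = D.x F (D.simple (l.getD i 0)) t) ∧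
      (((g : GL D.Idx F) : Matrix D.Idx D.Idx F) = D.x F (D.neg (D.simple i)) t →
        ((α g : GL D.Idx F) : Matrix D.Idx D.Idx F) = D.x F (D.neg (D.simple (l.getD i 0))) t))
    (hperm : ∀ o ∈ orbs, o.Perm (o.map fun i => l.getD i 0))
    (hshift : ∀ o ∈ orbs, ∀ t : F, (o.length = 1 → φ t = t) → ∀ i ∈ o,
      φ (coef φ e t i) = coef φ e t (l.getD i 0)) :
    ∃ S : Set (GL D.Idx F),
      D.posUnipotent F ⊓ twGroup (bRel_of_mem (F := F) hD).xadd φ e orbs = Subgroup.closure S ∧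
        ∀ s ∈ S, s ^ 2 = 1 := by
  obtain ⟨f, hW⟩ := wtFacts_of_mem hD
  have R := bRel_of_mem (F := F) hD
  have h1 : ∀ j, j < D.rank → ∀ t : F,
      autGL α (xGL R.xadd (D.simple j) t) = xGL R.xadd (D.simple (l.getD j 0)) t := by
    intro j hj t
    rw [autGL_of_mem α (Cfsg.Agent.Helper36.xGL_mem_group R.xadd _ _)]
    apply Units.ext
    rw [(hα ⟨xGL R.xadd (D.simple j) t, Cfsg.Agent.Helper36.xGL_mem_group R.xadd _ _⟩ j t hj).1 rfl]
    rfl
  have h2 : ∀ j, j < D.rank → ∀ t : F,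
      autGL α (xGL R.xadd (D.neg (D.simple j)) t) = xGL R.xadd (D.neg (D.simple (l.getD j 0))) t := by
    intro j hj t
    rw [autGL_of_mem α (Cfsg.Agent.Helper36.xGL_mem_group R.xadd _ _)]
    apply Units.ext
    rw [(hα ⟨xGL R.xadd (D.neg (D.simple j)) t, Cfsg.Agent.Helper36.xGL_mem_group R.xadd _ _⟩ j t hj).2 rfl]
    rfl
  obtain ⟨ε, hε, hx⟩ := exists_twSign α φ R.toNRel hsym hl h1 h2
  have H : TwHyp D F (etaN D) f (htW D Ws) l e orbs rows φ (twSigma α φ) ε :=
    { R := R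
      hW := hW
      hA := htW_additive hC
      hE := rootElts_of_mem hD
      CF := commFormulaPos_of_full hW fun r s hr hs a b => R.cf r hr s hs a b
      tab := tab
      hOK := hOK
      sgn := hε
      fixed := fun g hg => (twGroup_fixed α R h1 h2 hOK hperm hshift hg).2
      word := fun w hw => twSigma_word_map α φ R.xadd _ w fun p hp => hx p.1 (hw p hp) p.2 }
  refine ⟨rowGens H.R φ e orbs rows, H.posUnipotent_inf_eq_closure, ?_⟩
  rintro s ⟨row, hrow, t, -, rfl⟩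
  exact H.rowElt_sq hrow t

end

/-- A prime power whose power is a power of 2 is a power of 2. -/
theorem eq_two_pow_of_pow {q d n : ℕ} (hd : d ≠ 0) (h : q ^ d = 2 ^ n) : ∃ j, q = 2 ^ j := by
  have h1 : q ∣ 2 ^ n := by
    rw [← h]
    exact dvd_pow_self q hd
  obtain ⟨j, -, hj⟩ := (Nat.dvd_prime_pow Nat.prime_two).mp h1
  exact ⟨j, hj⟩

/-- PIECE TE -/
theorem goodSyl2_twistedE6 (K : Type) [Field K] [Fintype K] [CharP K 2] (q : ℕ) (hq : IsPrimePow q)
    (hK : Fintype.card K = q ^ 2) : GoodSyl2 (Lie.twistedE6 K q) := by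
  have hq1 : 1 < q := hq.one_lt
  obtain ⟨n, -, hn⟩ := FiniteField.card K 2
  obtain ⟨j, hj⟩ := eq_two_pow_of_pow (by norm_num) (hK ▸ hn : q ^ 2 = 2 ^ (n : ℕ))
  have hj0 : j ≠ 0 := by
    rintro rfl
    rw [pow_zero] at hj
    omega
  have hqe : Even q := by rw [hj]; exact (Nat.even_pow' hj0).mpr even_two
  have hq0 : q ≠ 0 := by omega
  obtain ⟨φ, hφ⟩ := exists_frob hq (by norm_num) hK
  have hφ2 : ∀ t : K, φ (φ t) = t := by
    intro t
    rw [hφ, hφ]
    have : (t ^ q) ^ q = t ^ (q ^ 2) := by ring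
    rw [this, ← hK, FiniteField.pow_card]
  obtain ⟨α, hα⟩ := exists_graph_aut_of_checks (F := K) hD_E6 gautP_E6 gautQ_E6 [5, 1, 4, 3, 2, 0]
    [5, 1, 4, 3, 2, 0] gaut_chk_E6
  have hshift : ∀ o ∈ orbsE6, ∀ t : K, (o.length = 1 → φ t = t) → ∀ i ∈ o,
      φ (coef φ eE6 t i) = coef φ eE6 t (lE6.getD i 0) := by
    intro o ho t ht i hi
    simp only [orbsE6, List.mem_cons, List.not_mem_nil, or_false] at ho
    rcases ho with rfl | rfl | rfl | rfl
    · simp only [List.mem_cons, List.not_mem_nil, or_false] at hi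
      subst hi
      exact ht rfl
    · simp only [List.mem_cons, List.not_mem_nil, or_false] at hi
      subst hi
      exact ht rfl
    · simp only [List.mem_cons, List.not_mem_nil, or_false] at hi
      rcases hi with rfl | rfl
      · rfl
      · exact hφ2 t
    · simp only [List.mem_cons, List.not_mem_nil, or_false] at hi
      rcases hi with rfl | rfl
      · rfl
      · exact hφ2 t
  obtain ⟨S, hS, hsq⟩ := twisted_unipotent_gen hD_E6 φ eE6 lE6 orbsE6 rowsE6 coordWE6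
    (rootCoords_of_OK chainPackOK_E6 coordOK_E6) twTab_E6 orbOK_E6 (symActOK_E6 _ (by decide)) (by decide) α hα
    (by decide) hshift
  rw [← twistedE6_eq q φ hφ (bRel_of_mem hD_E6).xadd] at hS
  have hU : Nat.card ↥(chevE6.posUnipotent K ⊓ twistedE6 K q) = 2 ^ (j * 36) := by
    rw [Cfsg.Agent.S1086.result hq hK, hj, pow_mul]
  have hG : Nat.gcd 3 (q + 1) * Nat.card ↥(twistedE6 K q) = 2 ^ (j * 36) *
      ((q ^ 2 - 1) * (q ^ 5 + 1) * (q ^ 6 - 1) * (q ^ 8 - 1) * (q ^ 9 + 1) * (q ^ 12 - 1)) := by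
    rw [Cfsg.Agent.S1066.result hq hK, pow_mul, ← hj]
    ring
  refine goodSyl2_subgroupOf (twistedE6 K q) (chevE6.posUnipotent K ⊓ twistedE6 K q) inf_le_right
    (j * 36) (Nat.gcd 3 (q + 1)) _ hU hG ?_ S hS ?_
  · exact (((((odd_pow_sub_one hqe hq0 (by norm_num)).mul (odd_pow_add_one hqe (by norm_num))).mul
      (odd_pow_sub_one hqe hq0 (by norm_num))).mul (odd_pow_sub_one hqe hq0 (by norm_num))).mul
      (odd_pow_add_one hqe (by norm_num))).mul (odd_pow_sub_one hqe hq0 (by norm_num))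
  · intro s hs
    rw [hsq s hs]
    exact one_mem _

/-- PIECE TD -/
theorem goodSyl2_twistedD4 (K : Type) [Field K] [Fintype K] [CharP K 2] (q : ℕ) (hq : IsPrimePow q)
    (hK : Fintype.card K = q ^ 3) : GoodSyl2 (Lie.twistedD4 K q) := by
  have hq1 : 1 < q := hq.one_lt
  obtain ⟨n, -, hn⟩ := FiniteField.card K 2
  obtain ⟨j, hj⟩ := eq_two_pow_of_pow (by norm_num) (hK ▸ hn : q ^ 3 = 2 ^ (n : ℕ))
  have hj0 : j ≠ 0 := by
    rintro rfl
    rw [pow_zero] at hj
    omega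
  have hqe : Even q := by rw [hj]; exact (Nat.even_pow' hj0).mpr even_two
  have hq0 : q ≠ 0 := by omega
  obtain ⟨φ, hφ⟩ := exists_frob hq (by norm_num) hK
  have hφ3 : ∀ t : K, φ (φ (φ t)) = t := by
    intro t
    rw [hφ, hφ, hφ]
    have : ((t ^ q) ^ q) ^ q = t ^ (q ^ 3) := by ring
    rw [this, ← hK, FiniteField.pow_card]
  obtain ⟨α, hα⟩ := exists_graph_aut_of_checks (F := K) hD_D4 gautP_D4a gautQ_D4a [2, 1, 3, 0] [3, 1, 0, 2]
    gaut_chk_D4a
  have hshift : ∀ o ∈ orbsD4, ∀ t : K, (o.length = 1 → φ t = t) → ∀ i ∈ o,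
      φ (coef φ eD4 t i) = coef φ eD4 t (lD4.getD i 0) := by
    intro o ho t ht i hi
    simp only [orbsD4, List.mem_cons, List.not_mem_nil, or_false] at ho
    rcases ho with rfl | rfl
    · simp only [List.mem_cons, List.not_mem_nil, or_false] at hi
      subst hi
      exact ht rfl
    · simp only [List.mem_cons, List.not_mem_nil, or_false] at hi
      rcases hi with rfl | rfl | rfl
      · rfl
      · rfl
      · exact hφ3 t
  obtain ⟨S, hS, hsq⟩ := twisted_unipotent_gen hD_D4 φ eD4 lD4 orbsD4 rowsD4 coordWD4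
    (rootCoords_of_OK chainPackOK_D4 coordOK_D4) twTab_D4 orbOK_D4 (symActOK_D4 _ (by decide)) (by decide) α hα
    (by decide) hshift
  rw [← twistedD4_eq q φ hφ (bRel_of_mem hD_D4).xadd] at hS
  have hU : Nat.card ↥(chevD4.posUnipotent K ⊓ twistedD4 K q) = 2 ^ (j * 12) := by
    rw [Cfsg.Agent.S1088.result hq hK, hj, pow_mul]
  have hG : 1 * Nat.card ↥(twistedD4 K q) = 2 ^ (j * 12) *
      ((q ^ 2 - 1) * (q ^ 6 - 1) * (q ^ 8 + q ^ 4 + 1)) := by
    rw [one_mul, Cfsg.Agent.S1067.result hq hK, pow_mul, ← hj]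
    ring
  refine goodSyl2_subgroupOf (twistedD4 K q) (chevD4.posUnipotent K ⊓ twistedD4 K q) inf_le_right
    (j * 12) 1 _ hU hG ?_ S hS ?_
  · refine ((odd_pow_sub_one hqe hq0 (by norm_num)).mul (odd_pow_sub_one hqe hq0 (by norm_num))).mul ?_
    have h8 : Even (q ^ 8) := (Nat.even_pow' (by norm_num)).mpr hqe
    have h4 : Even (q ^ 4) := (Nat.even_pow' (by norm_num)).mpr hqe
    exact (h8.add h4).add_one
  · intro s hs
    rw [hsq s hs]
    exact one_mem _

end Cfsg.Agent.Helper17
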